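import Cfsg.Agent.Lib.HH.Spec
import Cfsg.Agent.Lib.PGroup.RankOne

/-!
# Calculus of symplectic reflections in the unit group of a ring

An involution `t` is a *reflection* if every involution on its support `(1 - t) R` is `± 1`.
-/

set_option autoImplicit false

namespace Cfsg.Lib.HH.Two

open Subgroup Cfsg.Lib.BG
open scoped Cfsg.Lib.Transfer commutatorElement

variable {R : Type*} [Ring R]

/-- `g` acts as the sign `ε` on the support of `t`. -/
def Ac (g : Rˣ) (ε : ℤˣ) (t : Rˣ) : Prop := (g : R) * (1 - t) = (ε : ℤ) • (1 - (t : R))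

namespace Ac

variable {g h a t t' : Rˣ} {ε δ : ℤˣ}

theorem mul (h1 : Ac g ε t) (h2 : Ac h δ t) : Ac (g * h) (ε * δ) t := by
  unfold Ac at *
  rw [Units.val_mul, mul_assoc, h2, mul_smul_comm, h1, smul_smul, Units.val_mul, mul_comm]

theorem one (t : Rˣ) : Ac 1 1 t := by simp [Ac]

theorem inv (h1 : Ac g ε t) : Ac g⁻¹ ε t := by
  unfold Ac at *
  have : ((g⁻¹ : Rˣ) : R) * ((ε : ℤ) • (1 - (t : R))) = 1 - t := by rw [← h1, ← mul_assoc]; simp
  rw [mul_smul_comm] at this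
  conv_rhs => rw [← this, smul_smul, ← Units.val_mul, Int.units_mul_self, Units.val_one, one_smul]

theorem conj (h1 : Ac g ε t) (a : Rˣ) : Ac (a * g * a⁻¹) ε (a * t * a⁻¹) := by
  unfold Ac at *
  have e : (1 : R) - (a * t * a⁻¹ : Rˣ) = a * (1 - t) * (a⁻¹ : Rˣ) := by simp [mul_sub, sub_mul]
  rw [e, ← smul_mul_assoc, ← mul_smul_comm, ← h1]
  simp [mul_assoc]

theorem conj' (h1 : Ac g ε t) (ha : a * t = t * a) : Ac (a * g * a⁻¹) ε t := by
  have := h1.conj a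
  rwa [ha, mul_inv_cancel_right] at this

theorem self (ht : t * t = 1) : Ac t (-1) t := by
  unfold Ac
  rw [mul_sub, ← Units.val_mul, ht]; simp

theorem of_eq (h1 : Ac g ε t) (e : g = h) (e' : ε = δ) : Ac h δ t := e ▸ e' ▸ h1

theorem one_iff : Ac g 1 t ↔ (1 - (g : R)) * (1 - t) = 0 := by
  rw [Ac, sub_mul, one_mul, sub_eq_zero, Units.val_one, one_smul, eq_comm]

theorem symm (h1 : Ac t 1 t') (hc : t * t' = t' * t) : Ac t' 1 t := by
  rw [one_iff] at *
  have := congrArg Units.val hc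
  simp only [Units.val_mul] at this
  rw [← h1]; simp only [mul_sub, sub_mul, this, one_mul, mul_one]; abel

variable [Invertible (2 : R)]

theorem two_reg {x : R} (h : x + x = 0) : x = 0 := by
  rw [← two_mul] at h
  exact (isUnit_of_invertible (2 : R)).mul_right_eq_zero.1 h

theorem uniq (ht : t ≠ 1) (h1 : Ac g ε t) (h2 : Ac g δ t) : ε = δ := by
  by_contra e
  have : (1 : R) - t + (1 - t) = 0 := by
    unfold Ac at *
    rw [h1] at h2
    rcases Int.units_eq_one_or ε with rfl | rfl <;> rcases Int.units_eq_one_or δ with rfl | rfl <;>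
      simp_all [neg_eq_iff_add_eq_zero, eq_neg_iff_add_eq_zero, -neg_sub]
  exact ht (Units.ext (sub_eq_zero.1 (two_reg this)).symm)

theorem absurd (ht : t ≠ 1) (h1 : Ac g 1 t) (h2 : Ac g (-1) t) : False := by
  simpa using uniq ht h1 h2

/-- If `g` acts with opposite signs on two supports, the two involutions commute. -/
theorem comm_of_ne (h1 : Ac g 1 t) (h2 : Ac g (-1) t') (hc : g * t = t * g) (hc' : g * t' = t' * g) :
    t * t' = t' * t := by
  have e := congrArg Units.val hc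
  have e' := congrArg Units.val hc'
  simp only [Units.val_mul] at e e'
  simp only [Ac, Units.val_one, one_smul, Units.val_neg, neg_smul] at h1 h2
  have h3 : (1 - (t : R)) * g = 1 - t := Eq.trans (by simp [mul_sub, sub_mul, e]) h1
  have h4 : (1 - (t' : R)) * g = -(1 - t') := Eq.trans (by simp [mul_sub, sub_mul, e']) h2
  have h5 : (1 - (t : R)) * (1 - t') = 0 := two_reg (by
    conv_lhs => lhs; rw [← h3, mul_assoc, h2]
    simp only [mul_neg, neg_add_cancel])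
  have h6 : (1 - (t' : R)) * (1 - t) = 0 := two_reg (by
    conv_lhs => lhs; rw [← h1, ← mul_assoc, h4]
    simp only [neg_mul, neg_add_cancel])
  ext
  simp only [mul_sub, sub_mul, one_mul, mul_one] at h5 h6
  simp only [Units.val_mul]
  linear_combination (norm := abel) h5 - h6

end Ac

/-- The elements acting trivially on the support of `t`. -/
def pl (t : Rˣ) : Subgroup Rˣ where
  carrier := {g | Ac g 1 t}
  one_mem' := Ac.one t
  mul_mem' ha hb := Ac.mul ha hb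
  inv_mem' := Ac.inv

theorem mem_pl {g t : Rˣ} : g ∈ pl t ↔ Ac g 1 t := Iff.rfl

theorem cent_le_norm_pl (t : Rˣ) : 𝐂[t] ≤ 𝐍(pl t) := le_norm_iff.2 fun _ ha _ hg => Ac.conj' hg (mem_cent1.1 ha)

/-- `t` is a reflection relative to `Γ`. -/
structure Refl (Γ : Subgroup Rˣ) (t : Rˣ) : Prop where
  mem : t ∈ Γ
  sq : t * t = 1
  ne : t ≠ 1
  r1 : ∀ g ∈ Γ, g * t = t * g → Ac (g * g) 1 t → ∃ ε, Ac g ε t

namespace Refl

variable {Γ Δ : Subgroup Rˣ} {s t t' g a u : Rˣ}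

theorem mono (h : Refl Γ t) (hle : Δ ≤ Γ) (ht : t ∈ Δ) : Refl Δ t := ⟨ht, h.sq, h.ne, fun g hg => h.r1 g (hle hg)⟩

theorem conj (h : Refl Γ t) (ha : a ∈ Γ) : Refl Γ (a * t * a⁻¹) := by
  refine ⟨mul_mem (mul_mem ha h.mem) (inv_mem ha), by rw [show a * t * a⁻¹ * (a * t * a⁻¹) = a * (t * t) * a⁻¹ by group,
    h.sq, mul_one, mul_inv_cancel], fun e => h.ne (by simpa [mul_inv_eq_one] using e), fun g hg h1 h2 => ?_⟩
  obtain ⟨ε, h3⟩ := h.r1 (a⁻¹ * g * a) (mul_mem (mul_mem (inv_mem ha) hg) ha)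
    (by have := congrArg (fun x => a⁻¹ * x * a) h1; simpa [mul_assoc] using this)
    (by have := h2.conj a⁻¹; simpa [mul_assoc] using this)
  exact ⟨ε, by simpa [mul_assoc] using h3.conj a⟩

theorem self (h : Refl Γ t) : Ac t (-1) t := Ac.self h.sq

theorem inv_eq (h : Refl Γ t) : t⁻¹ = t := inv_eq_of_mul_eq_one_right h.sq

theorem sgn (h : Refl Γ t) (hg : g ∈ Γ) (hc : g * t = t * g) (h2 : g * g = 1) : ∃ ε, Ac g ε t :=
  h.r1 g hg hc (h2 ▸ Ac.one t)

variable [Invertible (2 : R)]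

/-- Distinct commuting reflections have orthogonal supports. -/
theorem orth (h : Refl Γ t) (h' : Refl Γ t') (hc : t' * t = t * t') (hne : t' ≠ t) : Ac t' 1 t := by
  obtain ⟨ε, h1⟩ := h.sgn h'.mem hc h'.sq
  obtain ⟨δ, h2⟩ := h'.sgn h.mem hc.symm h.sq
  rcases Int.units_eq_one_or ε with rfl | rfl
  · exact h1
  rcases Int.units_eq_one_or δ with rfl | rfl
  · exact h2.symm hc.symm
  have e := congrArg Units.val hc
  simp only [Ac, Units.val_neg, Units.val_one, neg_smul, one_smul, mul_sub, mul_one, Units.val_mul] at h1 h2 e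
  refine absurd (Units.ext (sub_eq_zero.1 (Ac.two_reg ?_))) hne
  linear_combination (norm := abel) h1 - h2 + e

theorem eq_of_neg (h : Refl Γ t) (h' : t' = 1 ∨ Refl Γ t') (hc : t' * t = t * t') (hn : Ac t' (-1) t) : t' = t := by
  by_contra e
  rcases h' with rfl | h'
  · exact Ac.absurd h.ne (Ac.one t) hn
  · exact Ac.absurd h.ne (h.orth h' hc e) hn

/-- The commutator of a square root of a reflection with an element swapping two supports. -/
theorem lemK (h : Refl Γ (s * s)) (hs : s ∈ Γ) (hu : u ∈ Γ) (hne : u * (s * s) * u⁻¹ ≠ s * s)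
    (hc : s * (u * (s * s) * u⁻¹) = u * (s * s) * u⁻¹ * s) (h2 : u * (u * (s * s) * u⁻¹) * u⁻¹ = s * s) :
    (∃ ε, Ac s ε (u * (s * s) * u⁻¹) ∧ Ac (u * s * u⁻¹) ε (s * s)) ∧
      Ac (s⁻¹ * (u * s * u⁻¹) * (s⁻¹ * (u * s * u⁻¹))) (-1) (s * s) := by
  obtain ⟨ε, h1⟩ := (h.conj hu).r1 s hs hc ((h.conj hu).orth h (by rw [mul_assoc s, hc, ← mul_assoc, hc, mul_assoc _ s s])
    hne.symm)
  have h3 := h1.conj u
  rw [h2] at h3
  refine ⟨⟨ε, h1, h3⟩, (((h3.conj' (a := s⁻¹) (by group)).mul h.self.inv).mul h3).of_eq (by group) ?_⟩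
  rw [mul_right_comm, Int.units_mul_self, one_mul]

/-- A reflection centralizes every elementary abelian group normalized by one of its square roots. -/
theorem perm (h : Refl Γ (s * s)) (hs : s ∈ Γ) {Z : Subgroup Rˣ} (hZ : Z ≤ Γ) (he : ∀ z ∈ Z, z * z = 1)
    (hn : s ∈ 𝐍(Z)) : ∀ z ∈ Z, z * (s * s) = s * s * z := by
  intro z hz
  by_contra e
  have hi : ∀ z ∈ Z, z⁻¹ = z := fun z hz => inv_eq_of_mul_eq_one_right (he z hz)
  have hab : ∀ x ∈ Z, ∀ y ∈ Z, x * y = y * x := fun x hx y hy => by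
    rw [← hi _ (mul_mem hx hy), mul_inv_rev, hi x hx, hi y hy]
  have hK := fun u hu => h.lemK (u := u) hs hu
  have hst : s * (s * s) = s * s * s := by rw [mul_assoc]
  have htn : s * s ∈ 𝐍(Z) := mul_mem hn hn
  generalize s * s = t at *
  have key : ∀ x ∈ Z, ∀ y ∈ Z, x * t * x⁻¹ * (y * t * y⁻¹) = y * t * y⁻¹ * (x * t * x⁻¹) := fun x hx y hy => by
    have h1 := conj_mem_of_norm htn (mul_mem (inv_mem hx) hy)
    have h2 := conj_mem_of_norm htn (mul_mem (inv_mem hy) hx)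
    calc x * t * x⁻¹ * (y * t * y⁻¹) = x * (t * (x⁻¹ * y) * t⁻¹) * (t * t) * y⁻¹ := by group
      _ = y * (t * (y⁻¹ * x) * t⁻¹) * (t * t) * x⁻¹ := by
        rw [h.sq, mul_one, mul_one, hab x hx _ h1, hab y hy _ h2, hi x hx, hi y hy, hab x hx y hy, mul_assoc _ x y,
          mul_assoc _ y x, hab x hx y hy]
      _ = _ := by group
  have hne : z * t * z⁻¹ ≠ t := fun e' => e (mul_inv_eq_iff_eq_mul.1 e')
  have hz' := conj_mem_of_norm hn hz
  have e1 : s * (z * t * z⁻¹) * s⁻¹ = s * z * s⁻¹ * t * (s * z * s⁻¹)⁻¹ := by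
    rw [show s * z * s⁻¹ * t * (s * z * s⁻¹)⁻¹ = s * z * (s⁻¹ * (t * s)) * z⁻¹ * s⁻¹ by group, ← hst]; group
  have r1 := h.conj (hZ hz)
  have r2 := h.conj (hZ hz')
  have k1 : ∀ x ∈ Z, x * t * x⁻¹ * t = t * (x * t * x⁻¹) := fun x hx => by simpa using key x hx 1 (one_mem _)
  have hfix : s * (z * t * z⁻¹) * s⁻¹ = z * t * z⁻¹ := by
    by_contra e'
    rw [e1] at e'
    set w := s * z * s⁻¹
    have hne' : w * t * w⁻¹ ≠ t := fun e'' => hne (by
      rw [← e1] at e''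
      rw [← mul_right_inj s, ← mul_left_inj s⁻¹, e'', hst, mul_inv_cancel_right])
    have h1 : Ac (w * t * w⁻¹ * t) (1 * -1) t := (h.orth r2 (k1 w hz') hne').mul h.self
    have h2 : Ac (w * t * w⁻¹ * t) (1 * 1) (z * t * z⁻¹) :=
      (r1.orth r2 (key w hz' z hz) e').mul (r1.orth h (k1 z hz).symm hne.symm)
    have h3 : w * t * w⁻¹ * t ∈ Z := by
      have := mul_mem hz' (conj_mem_of_norm htn (inv_mem hz'))
      rwa [h.inv_eq, ← mul_assoc, ← mul_assoc] at this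
    have h4 := h1.conj z
    rw [hab z hz _ h3, mul_inv_cancel_right] at h4
    exact Ac.absurd r1.ne h2 h4
  have h5 := (hK z (hZ hz) hne (mul_inv_eq_iff_eq_mul.1 hfix) (by
    rw [show z * (z * t * z⁻¹) * z⁻¹ = z * z * t * (z * z)⁻¹ by group, he z hz]; simp)).2
  have h6 : s⁻¹ * (z * s * z⁻¹) ∈ Z := by
    have := mul_mem (conj_mem_of_norm' hn hz) (inv_mem hz)
    simpa only [mul_assoc] using this
  rw [he _ h6] at h5
  exact Ac.absurd h.ne (Ac.one _) h5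

end Refl

section Claim

variable [Invertible (2 : R)]

/-- Restriction to the fixed space of a central involution `z`. -/
theorem exists_res {S : Subgroup Rˣ} {z : Rˣ} (hz : z * z = 1) (hc : S ≤ 𝐂[z]) : ∃ φ : S →* Rˣ,
    (∀ g : S, (g : Rˣ) = z → φ g = 1) ∧ (∀ g : S, Ac z 1 g → φ g = g) ∧
      ∀ (g : S) (ε : ℤˣ) (t : Rˣ), Ac z 1 t → (Ac (φ g) ε t ↔ Ac g ε t) := by
  obtain ⟨f, h1, h2, h3⟩ : ∃ f : R, f + f = 1 - z ∧ (∀ g : S, ((g : Rˣ) : R) * f = f * (g : Rˣ)) ∧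
      ∀ x : R, (1 - (z : R)) * x = 0 → f * x = 0 := by
    refine ⟨⅟2 * (1 - z), by rw [← two_mul, ← mul_assoc, mul_invOf_self, one_mul], fun g => ?_, fun x hx => by
      rw [mul_assoc, hx, mul_zero]⟩
    have := congrArg Units.val (mem_cent1.1 (hc g.2))
    simp only [Units.val_mul] at this
    rw [← mul_assoc, (Commute.invOf_right (Commute.ofNat_right _ 2)).eq, mul_assoc, mul_assoc, mul_sub, sub_mul, this,
      mul_one, one_mul]
  have hz' : (z : R) * z = 1 := by rw [← Units.val_mul, hz, Units.val_one]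
  have h4 : f * f = f := by
    have : f * (1 + z) = 0 := h3 _ (by rw [mul_add, sub_mul, sub_mul, hz']; simp)
    refine sub_eq_zero.1 (Ac.two_reg ?_)
    rw [mul_add] at this
    have h5 := congrArg (f * ·) h1
    simp only [mul_add, mul_sub] at h5
    simp only [mul_one] at h5 this
    linear_combination (norm := abel) h5 - this
  let φ : S →* R :=
    { toFun := fun g => ((g : Rˣ) : R) + (1 - (g : Rˣ)) * f
      map_one' := by simp
      map_mul' := fun a b => by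
        simp only [Subgroup.coe_mul, Units.val_mul, mul_add, add_mul, sub_mul, mul_sub, one_mul, mul_assoc, ← h2 b, h4]
        simp only [← mul_assoc f, ← h2 b, mul_assoc, h4]
        abel }
  have hφ : ∀ g : S, ((φ.toHomUnits g : Rˣ) : R) = ((g : Rˣ) : R) + (1 - (g : Rˣ)) * f := fun _ => rfl
  refine ⟨φ.toHomUnits, fun g hg => Units.ext ?_, fun g hg => Units.ext ?_, fun g ε t ht => ?_⟩
  · rw [hφ, hg, ← h1, add_mul, h4, h1]; simp
  · rw [hφ, sub_mul, h2, one_mul, ← mul_one f, mul_assoc, one_mul, ← mul_sub, h3 _ (Ac.one_iff.1 hg), add_zero]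
  · rw [Ac, Ac, hφ, add_mul, mul_assoc, h3 _ (Ac.one_iff.1 ht), mul_zero, add_zero]

/-- Two reflections which are squares in a common `2`-group commute. -/
theorem comm_of_sq [Finite R] (n : ℕ) : ∀ S : Subgroup Rˣ, Nat.card S = n → IsPGroup 2 S → ∀ s₁ ∈ S, ∀ s₂ ∈ S,
    Refl S (s₁ * s₁) → Refl S (s₂ * s₂) → s₁ * s₁ * (s₂ * s₂) = s₂ * s₂ * (s₁ * s₁) := by
  induction n using Nat.strong_induction_on with | _ n ih => ?_
  intro S₀ hn hS₀ s₁ hs₁ s₂ hs₂ r₁ r₂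
  set S := zpowers s₁ ⊔ zpowers s₂
  have hle : S ≤ S₀ := sup_le (zpowers_le.2 hs₁) (zpowers_le.2 hs₂)
  have hS := hS₀.to_le hle
  have m₁ : s₁ ∈ S := (le_sup_left : zpowers s₁ ≤ S) (mem_zpowers _)
  have m₂ : s₂ ∈ S := (le_sup_right : zpowers s₂ ≤ S) (mem_zpowers _)
  replace r₁ := r₁.mono hle (mul_mem m₁ m₁)
  replace r₂ := r₂.mono hle (mul_mem m₂ m₂)
  by_cases hE : ∀ E : Subgroup Rˣ, E ≤ S → S ≤ 𝐍(E) → IsElementaryAbelian 2 E → Nat.card E ≠ 2 ^ 2
  · rcases PGroup.isCyclic_or_of_no_invariant_rank_two hS le_rfl le_normalizer hE with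
      hc | ⟨-, a, b, m, -, h1, h2, -, h3, -⟩
    · exact le_cent_iff.1 (abelian_cent (abelian_of_cyclic hc)) _ r₁.mem _ r₂.mem
    have h4 : zpowers a ≤ S := h3 ▸ le_sup_left
    have h5 := card_mul_relIndex h4
    rw [Nat.card_zpowers, h1, h2, pow_succ, Nat.mul_right_inj (by positivity)] at h5
    have h6 : ∀ s ∈ S, s * s ∈ zpowers a := fun s hs => mul_self_mem_of_index_two h5 (⟨s, hs⟩ : S)
    exact le_cent_iff.1 (abelian_cent (A := zpowers a) inferInstance) _ (h6 _ m₁) _ (h6 _ m₂)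
  push Not at hE
  obtain ⟨E, hES, hSE, hE, hc⟩ := hE
  have he : ∀ z ∈ E, z * z = 1 := fun z hz => (sq z).symm.trans (hE.2 z hz)
  have c₁ := r₁.perm m₁ hES he (hSE m₁)
  have c₂ := r₂.perm m₂ hES he (hSE m₂)
  by_contra hne
  have h1 : E ⊓ pl (s₁ * s₁) = E ⊓ pl (s₂ * s₂) := by
    ext z
    refine and_congr_right fun hz => ?_
    obtain ⟨ε, h1⟩ := r₁.sgn (hES hz) (c₁ z hz) (he z hz)
    obtain ⟨δ, h2⟩ := r₂.sgn (hES hz) (c₂ z hz) (he z hz)
    refine ⟨fun h => ?_, fun h => ?_⟩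
    · rcases Int.units_eq_one_or δ with rfl | rfl
      · exact h2
      · exact absurd (Ac.comm_of_ne h h2 (c₁ z hz) (c₂ z hz)) hne
    · rcases Int.units_eq_one_or ε with rfl | rfl
      · exact h1
      · exact absurd (Ac.comm_of_ne h h1 (c₂ z hz) (c₁ z hz)).symm hne
  have h2 : S ≤ 𝐍(E ⊓ pl (s₁ * s₁)) := sup_le
    (norm_inf (le_sup_left.trans hSE) ((zpowers_le.2 (mem_cent1.2 (mul_assoc _ _ _).symm)).trans (cent_le_norm_pl _)))
    (h1 ▸ norm_inf (le_sup_right.trans hSE)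
      ((zpowers_le.2 (mem_cent1.2 (mul_assoc _ _ _).symm)).trans (cent_le_norm_pl _)))
  have h3 : E ⊓ pl (s₁ * s₁) ≠ ⊥ := fun e => by
    have h4 : ∀ z ∈ E, z ≠ 1 → Ac z (-1) (s₁ * s₁) := fun z hz h => by
      obtain ⟨ε, h1⟩ := r₁.sgn (hES hz) (c₁ z hz) (he z hz)
      rcases Int.units_eq_one_or ε with rfl | rfl
      · exact absurd (mem_bot.1 (e ▸ (⟨hz, h1⟩ : z ∈ E ⊓ pl (s₁ * s₁)))) h
      · exact h1
    haveI := Fintype.ofFinite E
    obtain ⟨x, y, w, h5, h6, h7⟩ := (Fintype.two_lt_card_iff (α := E)).1 (by rw [← Nat.card_eq_fintype_card, hc]; norm_num)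
    have h8 : ∀ x y : E, x ≠ y → Ac ((x : Rˣ)⁻¹ * (y : Rˣ)) (-1) (s₁ * s₁) := fun x y h =>
      h4 _ (mul_mem (inv_mem x.2) y.2) fun e => h (Subtype.ext (inv_mul_eq_one.1 e))
    exact Ac.absurd r₁.ne (((h8 _ _ h5).mul (h8 _ _ h7)).of_eq (by group) (by simp)) (h8 _ _ h6)
  obtain ⟨z, ⟨hz, hzc⟩, hz1⟩ := exists_ne_one (nil_meet_center (pgroup_nil hS) (inf_le_left.trans hES) h2 h3)
  have a₁ : Ac z 1 (s₁ * s₁) := hz.2
  have a₂ : Ac z 1 (s₂ * s₂) := (h1 ▸ hz).2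
  obtain ⟨φ, p1, p2, p3⟩ := exists_res (he z hz.1) (le_cent1_iff.2 hzc)
  have key : ∀ s : S, Refl S (s * s) → Ac z 1 (s * s) → φ s * φ s = s * s ∧ Refl φ.range (s * s) := fun s r a => by
    have e : φ (s * s) = s * s := p2 _ a
    refine ⟨(φ.map_mul _ _).symm.trans e, ⟨_, e⟩, r.sq, r.ne, ?_⟩
    rintro _ ⟨g, rfl⟩ h4 h5
    have h6 : φ (g * (s * s) * g⁻¹) = g * (s * s) * (g : Rˣ)⁻¹ := p2 _ (by
      have := a.conj g
      rwa [mem_cent.1 hzc g g.2, mul_inv_cancel_right] at this)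
    rw [map_mul, map_mul, e, h4, map_inv, mul_inv_cancel_right, eq_comm, mul_inv_eq_iff_eq_mul] at h6
    rw [← map_mul, p3 _ _ _ a] at h5
    exact (r.r1 g g.2 h6 h5).imp fun ε h => (p3 _ _ _ a).2 h
  obtain ⟨e₁, q₁⟩ := key ⟨s₁, m₁⟩ r₁ a₁
  obtain ⟨e₂, q₂⟩ := key ⟨s₂, m₂⟩ r₂ a₂
  have hlt : Nat.card φ.range < n := by
    refine lt_of_lt_of_le ?_ (hn ▸ card_le_of_le hle)
    rw [← index_ker, ← φ.ker.card_mul_index]
    refine lt_mul_left (Nat.pos_of_ne_zero index_ne_zero_of_finite) (Finite.one_lt_card_iff_nontrivial.2 ?_)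
    exact ⟨⟨⟨⟨z, hES hz.1⟩, p1 _ rfl⟩, 1, fun e => hz1 (congrArg (fun x : φ.ker => ((x : S) : Rˣ)) e)⟩⟩
  have := ih _ hlt φ.range rfl (hS.of_surjective _ φ.rangeRestrict_surjective) _ ⟨_, rfl⟩ _ ⟨_, rfl⟩
    (e₁ ▸ q₁) (e₂ ▸ q₂)
  rw [e₁, e₂] at this
  exact hne this

end Claim

end Cfsg.Lib.HH.Two
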