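import Cfsg.Agent.Lib.HH.Loc2
import Cfsg.Agent.Lib.HH.Refl
import Cfsg.Agent.Lib.PGroup.Critical

/-!
# Top powers of `2`-elements act as reflections on the symplectic sections of the Fitting subgroup
-/

set_option autoImplicit false

namespace Cfsg.Lib.HH.Two

open Module LinearMap Subgroup Cfsg.Lib.BG Cfsg.Lib.PGroup Cfsg.Lib.HH.ModB
open scoped Cfsg.Lib.Transfer commutatorElement

universe u v

theorem exists_pair {F W : Type*} [Field F] [AddCommGroup W] [Module F W] (h2 : (2 : F) ≠ 0) {Cm : W → W → Prop}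
    (add : ∀ u w w', Cm u w → Cm u w' → Cm u (w + w')) (nd : ∀ u, (∀ w, Cm u w) → u = 0) {G T : End F W}
    (hT : T * T = 1) (hGT : G * T = T * G) (hG : G * G * (1 - T) = 1 - T) (c1 : ∀ u w, G u = u → G w = -w → Cm u w)
    (c2 : ∀ u w, T u = -u → T w = w → Cm u w) (hne : G * (1 - T) ≠ -(1 - T)) :
    ∃ u w, G u = u ∧ T u = -u ∧ G w = w ∧ T w = -w ∧ ¬ Cm u w := by
  have e0 : T * (1 - T) = -(1 - T) := by rw [mul_sub, hT, mul_one, neg_sub]
  have e1 : G * ((1 + G) * (1 - T)) = (1 + G) * (1 - T) := by rw [add_mul, mul_add, ← mul_assoc, ← mul_assoc, hG]; simp [add_comm]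
  have e2 : T * ((1 + G) * (1 - T)) = -((1 + G) * (1 - T)) := by
    rw [← mul_assoc, mul_add, ← hGT, mul_one, add_mul, mul_assoc, e0, add_mul, one_mul, mul_neg, neg_add]
  have e3 : G * ((1 - G) * (1 - T)) = -((1 - G) * (1 - T)) := by rw [sub_mul, mul_sub, ← mul_assoc, ← mul_assoc, hG]; simp
  have e4 : T * (1 + T) = 1 + T := by rw [mul_add, hT, mul_one, add_comm]
  obtain ⟨w₀, hw⟩ : ∃ w, ((1 + G) * (1 - T)) w ≠ 0 := by
    by_contra! e
    exact hne (eq_neg_of_add_eq_zero_right (by rw [← one_add_mul]; exact LinearMap.ext e))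
  have k1 := fun w => LinearMap.congr_fun e1 w
  have k2 := fun w => LinearMap.congr_fun e2 w
  by_contra! e
  refine hw (nd _ fun w => ?_)
  have h4 : (4 : F) ≠ 0 := by rw [show (4 : F) = 2 * 2 by norm_num]; exact mul_ne_zero h2 h2
  have : w = ((1 + G) * (1 - T)) ((4 : F)⁻¹ • w) + ((1 - G) * (1 - T)) ((4 : F)⁻¹ • w) + (1 + T) ((2 : F)⁻¹ • w) := by
    simp only [End.mul_apply, LinearMap.add_apply, LinearMap.sub_apply, End.one_apply, map_smul, map_sub]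
    match_scalars <;> field_simp <;> ring
  rw [this]
  exact add _ _ _ (add _ _ _ (e _ _ (k1 _) (k2 _) (k1 _) (k2 _)) (c1 _ _ (k1 _) (LinearMap.congr_fun e3 _)))
    (c2 _ _ (k2 _) (LinearMap.congr_fun e4 _))

variable {K : Type*} [Field K] [CharP K 2] [IsAlgClosed K] {q : ℕ} [hq : Fact q.Prime]

theorem r1_core {G : Type u} [Group G] [Finite G] {U : Type v} [AddCommGroup U] [Module K U] [FiniteDimensional K U]
    [Nontrivial U] {τ : G →* End K U} (hτ : Function.Injective τ) {D : Subgroup G} [hN : D.Normal] (hD : IsPGroup q D)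
    (hq2 : q ≠ 2) (hsc : ∀ a ∈ D, ∀ b ∈ D, ∃ ζ : K, τ ⁅a, b⁆ = ζ • 1) {x : G} {n : ℕ} (hx : x ^ 2 ^ (n + 1) = 1)
    (hr : (τ x - 1) ^ (2 ^ (n + 1) - 1) = 0) {W : Type*} [AddCommGroup W] [Module (ZMod q) W] {ψ : G → W}
    {σ : G →* End (ZMod q) W} (h1 : ∀ a ∈ D, ∀ b ∈ D, ψ (a * b) = ψ a + ψ b) (h2 : ∀ a ∈ D, ψ a = 0 ↔ a ∈ 𝐙(D))
    (h3 : ∀ w, ∃ a ∈ D, ψ a = w) (h4 : ∀ g, ∀ a ∈ D, σ g (ψ a) = ψ (g * a * g⁻¹)) (g : G)
    (hc : σ g * σ (x ^ 2 ^ n) = σ (x ^ 2 ^ n) * σ g) (hg : σ g * σ g * (1 - σ (x ^ 2 ^ n)) = 1 - σ (x ^ 2 ^ n)) :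
    σ g * (1 - σ (x ^ 2 ^ n)) = 1 - σ (x ^ 2 ^ n) ∨ σ g * (1 - σ (x ^ 2 ^ n)) = -(1 - σ (x ^ 2 ^ n)) := by
  by_contra! hne
  choose sec hs hs' using h3
  have h0 : (2 : ZMod q) ≠ 0 := fun e => hq2 ((Nat.prime_dvd_prime_iff_eq hq.1 Nat.prime_two).1
    ((ZMod.natCast_eq_zero_iff 2 q).1 e))
  have h5 : ∀ a ∈ D, ψ a⁻¹ = -ψ a := fun a ha => eq_neg_of_add_eq_zero_left (by
    rw [← h1 _ (inv_mem ha) a ha, inv_mul_cancel, h2 _ (one_mem _)]; exact one_mem _)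
  have h6 : ∀ a ∈ D, ∀ b ∈ D, ψ b = ψ a → ∃ z ∈ 𝐙(D), b = a * z := fun a ha b hb e =>
    ⟨a⁻¹ * b, (h2 _ (mul_mem (inv_mem ha) hb)).1 (by rw [h1 _ (inv_mem ha) b hb, h5 a ha, e, neg_add_cancel]), by group⟩
  have h7 : ∀ y, ∀ a ∈ D, ∀ c ∈ D, σ y (ψ a) = ψ a → σ y (ψ c) = -ψ c → Commute a c := fun y a ha c hc e e' => by
    obtain ⟨ζ, hζ⟩ := hsc a ha c hc
    have k : ∀ y, y * ⁅a, c⁆ * y⁻¹ = ⁅a, c⁆ := fun y => mul_inv_eq_iff_eq_mul.2 (hτ (by
      rw [map_mul, map_mul, hζ, mul_smul_comm, smul_mul_assoc, one_mul, mul_one]))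
    obtain ⟨z, hz, e1⟩ := h6 a ha _ (hN.conj_mem a ha y) ((h4 y a ha).symm.trans e)
    obtain ⟨z', hz', e2⟩ := h6 _ (inv_mem hc) _ (hN.conj_mem c hc y) ((h4 y c hc).symm.trans (e'.trans (h5 c hc).symm))
    have k1 := k y
    rw [conjugate_commutatorElement, e1, e2, commutatorElement_def, mul_assoc a, ← mem_cent.1 hz.2 _ (mul_mem (inv_mem hc)
      hz'.1), ← mul_assoc a, show a * (c⁻¹ * z') * z * (a * z)⁻¹ * (c⁻¹ * z')⁻¹ = a * c⁻¹ * (z' * a⁻¹) * z'⁻¹ * c by group,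
      ← mem_cent.1 hz'.2 _ (inv_mem ha), show a * c⁻¹ * (a⁻¹ * z') * z'⁻¹ * c = (c⁻¹ * ⁅a, c⁆ * c⁻¹⁻¹)⁻¹ by
        rw [commutatorElement_def]; group, k, inv_eq_iff_mul_eq_one, ← sq] at k1
    obtain ⟨j, hj⟩ := hD ⟨⁅a, c⁆, comm_le_of_le le_rfl le_rfl (commutator_mem_commutator ha hc)⟩
    refine commutatorElement_eq_one_iff_commute.1 (orderOf_eq_one_iff.1 (Nat.eq_one_of_dvd_coprimes ?_
      (orderOf_dvd_of_pow_eq_one k1) (orderOf_dvd_of_pow_eq_one (congrArg Subtype.val hj))))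
    exact ((Nat.coprime_primes Nat.prime_two hq.1).2 hq2.symm).pow_right j
  set t := x ^ 2 ^ n with ht
  have hT : σ t * σ t = 1 := by rw [← map_mul, ht, ← pow_add, ← two_mul, ← pow_succ', hx, map_one]
  have add : ∀ u w w', Commute (sec u) (sec w) → Commute (sec u) (sec w') → Commute (sec u) (sec (w + w')) :=
    fun u w w' e e' => by
      obtain ⟨z, hz, e1⟩ := h6 _ (mul_mem (hs w) (hs w')) _ (hs (w + w')) (by rw [h1 _ (hs _) _ (hs _), hs', hs', hs'])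
      rw [e1]; exact (e.mul_right e').mul_right (mem_cent.1 hz.2 _ (hs u))
  have nd : ∀ u, (∀ w, Commute (sec u) (sec w)) → u = 0 := fun u e => by
    rw [← hs' u, h2 _ (hs u)]
    refine ⟨hs u, mem_cent.2 fun a ha => ?_⟩
    obtain ⟨z, hz, e1⟩ := h6 _ (hs (ψ a)) a ha (hs' _).symm
    rw [e1]; exact ((e _).mul_right (mem_cent.1 hz.2 _ (hs u))).symm
  have c0 : ∀ y u w, σ y u = u → σ y w = -w → Commute (sec u) (sec w) := fun y u w e e' =>
    h7 y _ (hs u) _ (hs w) (by rwa [hs']) (by rwa [hs'])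
  obtain ⟨a, b, a1, a2, -, b2, hab⟩ := exists_pair h0 add nd hT hc hg (c0 g) (fun u w e e' => (c0 t w u e' e).symm) hne.2
  obtain ⟨c, d, c1, c2, d1, d2, hcd⟩ := exists_pair (G := -σ g) h0 add nd hT (by rw [neg_mul, mul_neg, hc])
    (by rwa [neg_mul_neg]) (fun u w e e' => (c0 g w u (neg_injective e') (neg_eq_iff_eq_neg.1 e)).symm)
    (fun u w e e' => (c0 t w u e' e).symm) (fun e => hne.1 (neg_injective (by rwa [neg_mul] at e)))
  let I : Subgroup G :=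
    { carrier := {a | a ∈ D ∧ σ t (ψ a) = -ψ a}
      one_mem' := ⟨one_mem _, by rw [(h2 _ (one_mem _)).2 (one_mem _), map_zero, neg_zero]⟩
      mul_mem' := fun {a b} ha hb => ⟨mul_mem ha.1 hb.1, by rw [h1 _ ha.1 _ hb.1, map_add, ha.2, hb.2, neg_add]⟩
      inv_mem' := fun {a} ha => ⟨inv_mem ha.1, by rw [h5 _ ha.1, map_neg, ha.2]⟩ }
  have hI : I ≤ D := fun _ h => h.1
  have hxI : zpowers x ≤ 𝐍(I) := le_norm_iff.2 fun y hy a ha => ⟨hN.conj_mem a ha.1 y, by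
    obtain ⟨k, rfl⟩ := hy
    rw [← h4 _ a ha.1, ← End.mul_apply, ← map_mul, ← ((Commute.refl x).zpow_left k |>.pow_right _).eq, map_mul, End.mul_apply, ha.2,
      map_neg]⟩
  have hZ : ∀ a : I, ψ a = 0 → a ∈ center I := fun a e => mem_center_iff.2 fun b =>
    Subtype.ext (mem_cent.1 ((h2 _ a.2.1).1 e).2 b b.2.1)
  have m : ∀ u, σ t u = -u → sec u ∈ I := fun u e => ⟨hs u, by rwa [hs']⟩
  have k : ∀ u w, ¬ Commute (sec u) (sec w) → ∃ ζ : K, ζ ≠ 1 ∧ τ (sec u) * τ (sec w) = ζ • (τ (sec w) * τ (sec u)) :=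
    fun u w e => by
      obtain ⟨ζ, hζ⟩ := hsc _ (hs u) _ (hs w)
      refine ⟨ζ, fun e' => e (commutatorElement_eq_one_iff_commute.1 (hτ (by rw [hζ, e', one_smul, map_one]))), ?_⟩
      rw [← map_mul, show sec u * sec w = ⁅sec u, sec w⁆ * (sec w * sec u) by rw [commutatorElement_def]; group, map_mul,
        hζ, smul_mul_assoc, one_mul, map_mul]
  obtain ⟨ζ, hζ, k1⟩ := k _ _ hab
  obtain ⟨ξ, hξ, k2⟩ := k _ _ hcd
  let α := I.normalizerMonoidHom.comp (inclusion hxI)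
  have hβ : ∀ a : I, ψ ((α ⟨x, mem_zpowers x⟩ ^ 2 ^ n) a : I) = -ψ a := fun a => by
    rw [← map_pow, ← a.2.2, h4 _ _ a.2.1]; rfl
  have := coreM (hD.to_le hI) hq2 (β := α ⟨x, mem_zpowers x⟩ ^ 2 ^ n) (fun a e => hZ a (by
      have := hβ a
      rw [e, eq_neg_iff_add_eq_zero, ← two_smul (ZMod q)] at this
      exact (smul_eq_zero.1 this).resolve_left h0)) (a := ⟨_, m a a2⟩) (b := ⟨_, m b b2⟩) (c := ⟨_, m c c2⟩)
    (d := ⟨_, m d d2⟩) hζ hξ (hZ _ (by rw [Subgroup.coe_mul, h1 _ (hs a) _ (hI (SetLike.coe_mem _)), hβ, add_neg_cancel]))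
    (Subtype.ext (c0 g a c a1 (neg_eq_iff_eq_neg.1 c1)).eq) (Subtype.ext (c0 g a d a1 (neg_eq_iff_eq_neg.1 d1)).eq) n
    (zpowers x) U (τ.comp I.subtype) (τ.comp (zpowers x).subtype) α ⟨x, mem_zpowers x⟩ _
    (fun s g => (τ.map_mul _ _).symm.trans ((congrArg τ (inv_mul_cancel_right _ _).symm).trans (τ.map_mul _ _)))
    (Subtype.ext hx) rfl k1 k2 hr
  have := Nat.one_le_two_pow (n := n + 1)
  omega

/-- The top powers of the `2`-elements. -/
def tops (H : Type*) [Group H] (m : ℕ) : Set H := {t | ∃ y l, y ^ 2 ^ l = 1 ∧ y ^ 2 ^ m = t}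

/-- A local datum: an action of a subgroup in which the top powers are reflections. -/
structure Loc (H : Type*) [Group H] (m : ℕ) where
  R : Type
  [ring : Ring R]
  [fin : Finite R]
  [inv : Invertible (2 : R)]
  X : Subgroup H
  σ : X →* Rˣ
  p1 : closure (tops H m) ≤ X
  p2 : ∀ y l, y ^ 2 ^ l = 1 → ∀ h : y ^ 2 ^ m ∈ X, σ ⟨_, h⟩ ≠ 1 →
    ∃ k, m = k + 1 ∧ y ^ 2 ^ k ∈ X ∧ Refl σ.range (σ ⟨_, h⟩)

attribute [instance] Loc.ring Loc.fin Loc.inv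

theorem exists_not_cent {p : ℕ} [Fact p.Prime] {H : Type*} [Group H] [Finite H] (hs : Group.IsSolvable H)
    (h0 : pCore p H = ⊥) {B : Subgroup H} (hB : IsPGroup p B) (h1 : B ≠ ⊥) :
    ∃ q : ℕ, q.Prime ∧ q ≠ p ∧ ¬ B ≤ 𝐂(pCore q H) := by
  by_contra! e
  refine h1 (eq_bot_mono h0 (Core.le_pCore_of_le_fittingSubgroup (le_trans (cent_symm ?_)
    Core.centralizer_fittingSubgroup_le) hB))
  rw [Core.fittingSubgroup_eq_iSup_pCore]
  refine iSup_le fun q => ?_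
  rcases eq_or_ne q.1 p with e' | e'
  · rw [e', h0]; exact bot_le
  · exact cent_symm (e q q.2 e')

theorem exists_loc {H : Type u} [Group H] [Finite H] (hs : Group.IsSolvable H) (h0 : pCore 2 H = ⊥) {V : Type v}
    [AddCommGroup V] [Module K V] [FiniteDimensional K V] {ρ : H →* End K V} (hρ : Function.Injective ρ) {m : ℕ}
    (hE : ∀ y l, y ^ 2 ^ l = 1 → (ρ y - 1) ^ (2 ^ (m + 1) - 1) = 0) {g : H} (hg : g ∈ closure (tops H m))
    (hg2 : IsPGroup 2 (zpowers g)) (hg1 : g ≠ 1) : ∃ (L : Loc H m) (h : g ∈ L.X), L.σ ⟨g, h⟩ ≠ 1 := by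
  obtain ⟨q, hq, hq2, h1⟩ := exists_not_cent hs h0 hg2 (mt zpowers_eq_bot.1 hg1)
  haveI := Fact.mk hq
  obtain ⟨D, hDP, hN, hex, hcl, -, hc⟩ := exists_critical_exponent_p hq2 (Core.pCore_isPGroup q H)
  haveI : D.Normal := normalizer_eq_top_iff.1 (top_le_iff.1 (le_normalizer_of_normal.trans hN))
  have hD := (Core.pCore_isPGroup q H).to_le hDP
  have hcop : (Nat.card (zpowers g)).Coprime q := by
    obtain ⟨k, hk⟩ := hg2.exists_card_eq
    rw [hk]; exact ((Nat.coprime_primes Nat.prime_two hq).2 hq2.symm).pow_left k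
  replace h1 : ¬ zpowers g ≤ 𝐂(D) := fun e => h1 (hc _ le_normalizer_of_normal hcop e)
  replace hcl : ⁅D, D⁆ ≤ 𝐙(D) := (commutator_mono le_rfl hDP).trans hcl
  haveI : NeZero (q : K) := ⟨fun e => hq2 ((Nat.prime_dvd_prime_iff_eq Nat.prime_two hq).1
    ((CharP.cast_eq_zero_iff K 2 q).1 e)).symm⟩
  have hr : HasEnoughRootsOfUnity K (Monoid.exponent ↥𝐙(D)) := HasEnoughRootsOfUnity.of_dvd _ (n := q)
    (Monoid.exponent_dvd_of_forall_pow_eq_one fun z => Subtype.ext (hex z z.2.1))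
  have hn : ∀ y : H, y ∈ 𝐍(𝐙(D)) := fun y => le_normalizer_of_normal (mem_top y)
  have he : ∀ (y : H) l, y ^ 2 ^ l = 1 → y ^ 2 ^ (m + 1) = 1 := fun y l h => hρ (by
    rw [map_pow, map_one, ← sub_eq_zero, ← sub_one_pow_pow K, ← Nat.sub_add_cancel (Nat.one_le_two_pow (n := m + 1)),
      pow_succ, hE y l h, zero_mul])
  have key : ∀ μ : H → K, wt ρ 𝐙(D) μ ≠ ⊥ → ∀ (y : H) l, y ^ 2 ^ l = 1 → ∃ j n, j + n = m ∧ y ^ 2 ^ j ∈ stab 𝐙(D) μ ∧
      ∀ v ∈ wt ρ 𝐙(D) μ, ((ρ (y ^ 2 ^ j) - 1) ^ (2 ^ (n + 1) - 1) : End K V) v = 0 := fun μ hμ y l h => by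
    obtain ⟨j, n, e, h2, h3⟩ := stab_deg (blk_wt (ρ := ρ) 𝐙(D) μ) (hn y) (he y l h) (hE y l h)
    rcases n with _ | n
    · exact absurd (eq_bot_iff.2 fun v hv => by simpa using h3 v hv) hμ
    · exact ⟨j, n, by omega, h2, h3⟩
  have p1 : ∀ μ : H → K, wt ρ 𝐙(D) μ ≠ ⊥ → closure (tops H m) ≤ stab 𝐙(D) μ := fun μ hμ => (closure_le _).2 (by
    rintro _ ⟨y, l, h, rfl⟩
    obtain ⟨j, n, rfl, h2, -⟩ := key μ hμ y l h
    rw [pow_add, pow_mul]; exact pow_mem h2 _)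
  have h2 : zpowers g ≤ 𝐂(𝐙(D)) := by
    rw [← comm_eq_bot_iff', eq_bot_iff, ← fixer_top_eq_bot hρ, le_fixer_iff]
    refine le_of_wt (ρ := ρ) (abelian_center D) hr (inv_top _) fun μ => inf_le_right.trans ?_
    by_cases hμ : wt ρ 𝐙(D) μ = ⊥
    · rw [hμ]; exact bot_le
    · exact le_fixer_iff.1 ((commutator_mono le_rfl ((zpowers_le.2 hg).trans (p1 μ hμ))).trans (comm_stab_le_fixer _ μ))
  have h3 : ⁅D, zpowers g⁆ ≤ D := comm_le_left le_normalizer_of_normal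
  obtain ⟨μ, hμ⟩ := exists_wt (ρ := ρ) (abelian_center D) hr (Y := ⁅⁅D, zpowers g⁆, D⁆) fun e => h1 (stable_factor_cent
    (le_inf h3 (comm_eq_bot_iff.1 (le_bot_iff.1 (fixer_top_eq_bot hρ ▸ e)))) h2 (by
      obtain ⟨k, hk⟩ := (hD.to_le (inf_le_left : 𝐙(D) ≤ D)).exists_card_eq
      rw [hk]; exact hcop.pow_right k))
  have hU := ne_bot_of_not_le_fixer hμ
  haveI := Submodule.nontrivial_iff_ne_bot.2 hU
  have hi := (blk_wt (ρ := ρ) 𝐙(D) μ).inv
  set U := wt ρ 𝐙(D) μ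
  set X := stab 𝐙(D) μ
  have hDX : D ≤ X := (cent_symm (inf_le_right : 𝐙(D) ≤ _)).trans (cent_le_stab _ μ)
  let f := (resRep hi).toHomUnits.rangeRestrict
  let τ := (Units.coeHom _).comp (resRep hi).toHomUnits.range.subtype
  have hτ : Function.Injective τ := Units.val_injective.comp Subtype.val_injective
  haveI : Finite (resRep hi).toHomUnits.range := Finite.of_surjective f (MonoidHom.rangeRestrict_surjective _)
  have hf : f.ker = (fixer ρ U).subgroupOf X := by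
    ext x
    rw [MonoidHom.mem_ker, ← map_eq_one_iff τ hτ, mem_subgroupOf]
    exact ⟨fun e u hu => congrArg Subtype.val (LinearMap.congr_fun e ⟨u, hu⟩),
      fun e => LinearMap.ext fun u => Subtype.ext (e u u.2)⟩
  haveI : (im f D).Normal := Normal.map inferInstance _ (MonoidHom.rangeRestrict_surjective _)
  obtain ⟨n, ψ, σ, s1, s2, s3, s4⟩ := exists_sec (q := q) (S := 𝐙(im f D)) (V := im f D) inf_le_left
    (by rw [← im_comm hDX hDX]; exact (im_mono hcl).trans (le_inf (im_mono inf_le_left) (im_cent inf_le_right)))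
    (by rintro _ ⟨x, hx, rfl⟩; rw [← map_pow, show x ^ q = 1 from Subtype.ext (hex x hx), map_one]; exact one_mem _)
    (MonoidHom.id _) (fun y => le_normalizer_of_normal (mem_top y)) fun y => le_normalizer_of_normal (mem_top y)
  haveI : Invertible (2 : ZMod q) := invertibleOfNonzero fun e => hq2 ((Nat.prime_dvd_prime_iff_eq hq Nat.prime_two).1
    ((ZMod.natCast_eq_zero_iff 2 q).1 e))
  haveI : Invertible (2 : End (ZMod q) (Fin n → ZMod q)) :=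
    (Invertible.map (algebraMap (ZMod q) _) 2).copy _ (map_ofNat _ 2).symm
  haveI : Finite (End (ZMod q) (Fin n → ZMod q)) := Finite.of_injective _ DFunLike.coe_injective
  refine ⟨⟨End (ZMod q) (Fin n → ZMod q), X, σ.toHomUnits.comp f, p1 μ hU, fun y l h h' hne => ?_⟩, p1 μ hU hg,
    fun e => hμ ?_⟩
  · obtain ⟨j, k, rfl, h4, h5⟩ := key μ hU y l h
    have h6 : (τ (f ⟨_, h4⟩) - 1) ^ (2 ^ (k + 1) - 1) = 0 := by
      have : ∀ (r : ℕ) (u : U), (((τ (f ⟨_, h4⟩) - 1) ^ r : End K U) u : V) = ((ρ (y ^ 2 ^ j) - 1) ^ r : End K V) u :=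
        fun r => by
          induction r with
          | zero => exact fun _ => rfl
          | succ r ih => intro u; rw [pow_succ, pow_succ, End.mul_apply, ih]; rfl
      exact LinearMap.ext fun u => Subtype.ext ((this _ u).trans (h5 u u.2))
    have h7 : (⟨_, h'⟩ : X) = ⟨_, h4⟩ ^ 2 ^ k := Subtype.ext (by
      show y ^ 2 ^ (j + k) = (y ^ 2 ^ j) ^ 2 ^ k
      rw [pow_add, pow_mul])
    have h8 : (⟨_, h4⟩ : X) ^ 2 ^ (k + 1) = 1 := Subtype.ext (by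
      rw [SubgroupClass.coe_pow, ← pow_mul, ← pow_add, ← add_assoc, he y l h]; rfl)
    rcases k with _ | k
    · refine absurd ?_ hne
      rw [h7, MonoidHom.comp_apply, map_pow, show f ⟨_, h4⟩ = 1 from hτ (by simpa [sub_eq_zero] using h6)]; simp
    refine ⟨j + k, rfl, by rw [pow_add, pow_mul]; exact pow_mem h4 _, ⟨_, rfl⟩, ?_, hne, ?_⟩
    · rw [← map_mul, h7, ← pow_add, ← two_mul, ← pow_succ', h8, map_one]
    rintro _ ⟨z, rfl⟩ c1 c2
    rw [h7] at c1 c2 ⊢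
    have := r1_core hτ (pgroup_im hD) hq2 (by
      rintro _ ⟨a, ha, rfl⟩ _ ⟨b, hb, rfl⟩
      rw [← map_commutatorElement]
      exact ⟨μ ⁅(a : H), (b : H)⁆, LinearMap.ext fun u => Subtype.ext (u.2 _ (hcl (commutator_mem_commutator ha hb)))⟩)
      (x := f ⟨_, h4⟩) (by rw [← map_pow, h8, map_one]) h6 s1 s2 s3 s4 (f z)
      (by rw [← map_pow]; exact congrArg Units.val c1) (by rw [← map_pow]; simpa [Ac] using c2)
    rw [← map_pow] at this
    exact this.elim (fun e => ⟨1, by simpa [Ac] using e⟩) fun e => ⟨-1, by simpa [Ac] using e⟩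
  · have h4 : zpowers g ≤ X := zpowers_le.2 (p1 μ hU hg)
    rw [← im_le_cent_iff hf (h3.trans hDX) hDX, im_comm hDX h4, show zpowers g = zpowers ((⟨g, p1 μ hU hg⟩ : X) : H)
      from rfl, im_zpowers]
    refine (commutator_le_of_le_commStab (S := 𝐙(im f D)) (zpowers_le.2 ⟨le_normalizer_of_normal (mem_top _),
      fun a ha => ?_⟩)).trans inf_le_right
    have h5 := s4 (f ⟨g, p1 μ hU hg⟩) a ha
    rw [show σ (f ⟨g, p1 μ hU hg⟩) = 1 from congrArg Units.val e, End.one_apply, MonoidHom.id_apply] at h5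
    have h6 := Normal.conj_mem inferInstance a ha (f ⟨g, p1 μ hU hg⟩)
    rw [commutatorElement_def, ← s2 _ (mul_mem h6 (inv_mem ha)), s1 _ h6 _ (inv_mem ha), ← h5, ← s1 _ ha _ (inv_mem ha), mul_inv_cancel,
      s2 _ (one_mem _)]
    exact one_mem _

end Cfsg.Lib.HH.Two
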