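import Cfsg.Agent.Lib.HH.Refl2

/-!
# A reflection which is a square acts trivially on odd order operator groups of `2`-groups
-/

set_option autoImplicit false

namespace Cfsg.Lib.HH.Two

open Subgroup Cfsg.Lib.BG Cfsg.Lib.PGroup
open scoped Cfsg.Lib.Transfer commutatorElement

variable {R : Type*} [Ring R] [Invertible (2 : R)] [Finite R] {Γ A : Subgroup Rˣ} {s ω u v x : Rˣ}

/-- `A` is extraspecial with centre generated by `ω`, acting as `-1` on the support of `s ^ 2`. -/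
structure XS (Γ A : Subgroup Rˣ) (s ω : Rˣ) : Prop extends Root Γ A s where
  cen : ∀ z ∈ A, z ∈ 𝐂(A) → z = 1 ∨ z = ω
  com : ∀ a ∈ A, ∀ b ∈ A, a * b * a⁻¹ = b ∨ a * b * a⁻¹ = b * ω
  sq : ∀ a ∈ A, a * a = 1 ∨ a * a = ω
  c1 : ∀ a ∈ A, a * ω = ω * a
  c2 : s * ω = ω * s
  sq' : ω * ω = 1
  neg : Ac ω (-1) (s * s)
  bad : ∀ x, Om A (s * s) x → x ≠ s * s * ω

namespace XS

variable (h : XS Γ A s ω)
include h

omit [Invertible (2 : R)] [Finite R]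

theorem ct : s * s * ω = ω * (s * s) := (Commute.mul_left h.c2 h.c2).eq

theorem neg' (hx : Om A (s * s) x) : Ac ω (-1) x := by
  obtain ⟨a, ha, rfl⟩ := hx
  have := h.neg.conj a
  rwa [h.c1 a ha, mul_inv_cancel_right] at this

theorem mul_mem' (hx : Om A (s * s) x) : x * (s * s) ∈ A := by
  obtain ⟨a, ha, rfl⟩ := hx
  have := mul_mem ha (conj_mem_of_norm (mul_mem h.norm h.norm) (inv_mem ha))
  rwa [h.refl.inv_eq, ← mul_assoc a, ← mul_assoc a] at this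

theorem co (hx : Om A (s * s) x) : Commute x ω := by
  obtain ⟨a, ha, rfl⟩ := hx
  exact (Commute.mul_left (h.c1 a ha) h.ct).mul_left (h.c1 _ (inv_mem ha))

theorem cs (x : Rˣ) : s * (x * (s * s) * ω) * s⁻¹ = s * x * s⁻¹ * (s * s) * ω := by
  rw [mul_assoc s, mul_assoc _ ω, ← (Commute.inv_left h.c2).eq]; group

theorem sq_comm (hu : u ∈ A) : u * u * s = s * (u * u) := by
  rcases h.sq u hu with e | e <;> rw [e]
  · simp
  · exact h.c2.symm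

theorem cj2 (hu : u ∈ A) : u * (u * (s * s) * u⁻¹) * u⁻¹ = s * s := by
  rw [show u * (u * (s * s) * u⁻¹) * u⁻¹ = u * u * (s * s) * (u * u)⁻¹ by group, mul_inv_eq_iff_eq_mul]
  exact (Commute.mul_right (h.sq_comm hu) (h.sq_comm hu)).eq

theorem cjc (hu : u ∈ A) (hv : v ∈ A) : u * (v * (s * s) * v⁻¹) * u⁻¹ = v * (u * (s * s) * u⁻¹) * v⁻¹ := by
  rcases h.com u hu v hv with e | e
  · rw [show u * (v * (s * s) * v⁻¹) * u⁻¹ = u * v * u⁻¹ * (u * (s * s) * u⁻¹) * (u * v * u⁻¹)⁻¹ by group, e]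
  · rw [show u * (v * (s * s) * v⁻¹) * u⁻¹ = u * v * u⁻¹ * u * (s * s) * (u * v * u⁻¹ * u)⁻¹ by group, e,
      mul_assoc v ω, ← h.c1 u hu, ← mul_assoc v, mul_assoc _ ω, ← h.ct]
    group

theorem fix (hu : u ∈ A) (h1 : u * (s * s) * u⁻¹ = s * s) (hx : Om A (s * s) x) : u * x * u⁻¹ = x := by
  obtain ⟨a, ha, rfl⟩ := hx
  rw [h.cjc hu ha, h1]

theorem bad' {y : Rˣ} (hx : Om A (s * s) x) (hy : Om A (s * s) y) : x ≠ y * ω := fun e => by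
  obtain ⟨a, ha, rfl⟩ := hy
  refine h.bad _ (hx.conj (inv_mem ha)) ?_
  rw [e, mul_assoc _ a⁻¹, h.c1 _ (inv_mem ha)]; group

theorem exists_v (hx : Om A (s * s) x) (h1 : x ≠ s * s) : ∃ v ∈ A, v * (x * (s * s)) * v⁻¹ = x * (s * s) * ω := by
  by_contra! e
  rcases h.cen _ (h.mul_mem' hx) (mem_cent.2 fun a ha => mul_inv_eq_iff_eq_mul.1
    ((h.com a ha _ (h.mul_mem' hx)).resolve_right (e a ha))) with e' | e'
  · exact h1 (by rw [← h.refl.inv_eq, eq_inv_iff_mul_eq_one, e'])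
  · exact h.bad x hx (by rw [h.ct, ← e', mul_assoc x, h.refl.sq, mul_one])

variable [Invertible (2 : R)] [Finite R]

theorem four (hx : Om A (s * s) x) (h1 : x ≠ s * s) (hv : v ∈ A) (h2 : v * (x * (s * s)) * v⁻¹ = x * (s * s) * ω) :
    (v * x * v⁻¹ * x = v * (s * s) * v⁻¹ * (s * s) * ω ∧ v * x * v⁻¹ * (v * (s * s) * v⁻¹) = x * (s * s) * ω) ∧ v * (s * s) * v⁻¹ ≠ s * s ∧ v * (s * s) * v⁻¹ ≠ x ∧
      v * x * v⁻¹ ≠ s * s ∧ ∀ y, Om A (s * s) y → y = s * s ∨ y = x ∨ y = v * (s * s) * v⁻¹ ∨ y = v * x * v⁻¹ := by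
  have h3 : Om A (s * s) (v * (s * s) * v⁻¹) := Om.self.conj hv
  have h4 := hx.conj hv
  rw [show v * (x * (s * s)) * v⁻¹ = v * x * v⁻¹ * (v * (s * s) * v⁻¹) by group] at h2
  have h0 : Om A (s * s) (s * s) := Om.self
  have hb := fun x y => h.bad' (x := x) (y := y)
  have hc := fun x y => h.comm (x := x) (y := y)
  have hq : ∀ x, Om A (s * s) x → x * x = 1 := fun x hx => (h.om_refl hx).sq
  have ho := fun x y => h.orth (x := x) (y := y)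
  have hn := fun x => h.neg' (x := x)
  have hr := fun x hx => (h.om_refl (x := x) hx).ne
  have hω := h.ct
  have hω' := fun x => h.co (x := x)
  generalize v * x * v⁻¹ = x₄ at *
  generalize v * (s * s) * v⁻¹ = x₃ at *
  generalize s * s = t at *
  refine ⟨⟨?_, h2⟩, fun e => hb _ _ h4 hx ?_, fun e => hb _ _ h4 h0 ?_, fun e => hb _ _ h3 hx ?_, fun y hy => ?_⟩
  · have c1 : Commute x (t * ω * x₃) := (Commute.mul_right (hc _ _ hx h0) (hω' _ hx)).mul_right (hc _ _ hx h3)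
    have c2 : Commute x₃ (t * ω) := Commute.mul_right (hc _ _ h3 h0) (hω' _ h3)
    rw [← mul_one x₄, ← hq _ h3, ← mul_assoc, h2, mul_assoc x, mul_assoc x, c1.eq, mul_assoc, hq _ hx, mul_one, ← c2.eq,
      mul_assoc]
  · rw [e, mul_assoc, hω, ← mul_assoc, mul_left_inj] at h2; exact h2
  · rw [e, hc _ _ h4 hx, mul_assoc, mul_right_inj] at h2; exact h2
  · rw [e, hc _ _ hx h0, mul_assoc, mul_right_inj] at h2; exact h2
  · by_contra! e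
    refine Ac.absurd (hr y hy) (((((ho _ _ h0 hy e.1.symm).inv.mul (ho _ _ hx hy e.2.1.symm).inv).mul
      (ho _ _ h4 hy e.2.2.2.symm)).mul (ho _ _ h3 hy e.2.2.1.symm)).of_eq ?_ (by simp)) (hn y hy)
    rw [mul_assoc, h2]; group

theorem exists_fix (hx : Om A (s * s) x) (h1 : x ≠ s * s) : ∃ y, Om A (s * s) y ∧ y ≠ s * s ∧ s * y * s⁻¹ = y := by
  by_cases e : s * x * s⁻¹ = x
  · exact ⟨x, hx, h1, e⟩
  obtain ⟨v, hv, h2⟩ := h.exists_v hx h1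
  obtain ⟨⟨h3, h3'⟩, h4, h5, h6, h7⟩ := h.four hx h1 hv h2
  have o3 : Om A (s * s) (v * (s * s) * v⁻¹) := Om.self.conj hv
  have o4 := hx.conj hv
  generalize v * x * v⁻¹ = x₄ at *
  generalize v * (s * s) * v⁻¹ = x₃ at *
  have h8 : s * (s * x * s⁻¹) * s⁻¹ = x := by
    rw [show s * (s * x * s⁻¹) * s⁻¹ = s * s * x * (s * s)⁻¹ by group, h.comm Om.self hx, mul_inv_cancel_right]
  have h9 : s * x₄ * s⁻¹ * (s * x * s⁻¹) = s * x₃ * s⁻¹ * (s * s) * ω := by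
    rw [show s * x₄ * s⁻¹ * (s * x * s⁻¹) = s * (x₄ * x) * s⁻¹ by group, h3, h.cs]
  rcases h7 _ (h.om_s hx) with e' | e' | e' | e'
  · exact absurd (by rw [← h8, e']; group) h1
  · exact absurd e' e
  · refine ⟨x₄, o4, h6, ?_⟩
    rw [e'] at h8 h9
    rwa [h8, ← h3', mul_left_inj] at h9
  · refine ⟨x₃, o3, h4, ?_⟩
    rw [e'] at h8 h9
    rw [h8, h.comm hx o4, h3, mul_left_inj, mul_left_inj] at h9
    exact h9.symm

theorem main (hx : Om A (s * s) x) : x = s * s := by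
  by_contra h0
  obtain ⟨_, ⟨u, hu, rfl⟩, h1, h2⟩ := h.exists_fix hx h0
  clear hx h0
  have o2 : Om A (s * s) (u * (s * s) * u⁻¹) := Om.self.conj hu
  obtain ⟨⟨ε, h3, -⟩, h4⟩ := h.refl.lemK h.mem (h.le hu) h1 (mul_inv_eq_iff_eq_mul.1 h2) (h.cj2 hu)
  obtain ⟨c, hc⟩ : ∃ c, c = s⁻¹ * (u * s * u⁻¹) := ⟨_, rfl⟩
  rw [← hc] at h4
  have hω : ω ≠ 1 := fun e => Ac.absurd h.refl.ne (e ▸ Ac.one _) h.neg
  have hcA : c ∈ A := by
    have := mul_mem (conj_mem_of_norm' h.norm hu) (inv_mem hu)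
    simpa only [hc, mul_assoc] using this
  have h5 : c * c = ω := (h.sq c hcA).resolve_left fun e => Ac.absurd h.refl.ne (e ▸ Ac.one _) h4
  have h6 : u * c * u⁻¹ = c * ω := (h.com u hu c hcA).resolve_left fun e => hω (by
    rw [← h5]
    nth_rewrite 2 [← e]
    rw [hc, show s⁻¹ * (u * s * u⁻¹) * (u * (s⁻¹ * (u * s * u⁻¹)) * u⁻¹) = s⁻¹ * (u * u * s) * (u * u)⁻¹ by group,
      h.sq_comm hu]; group)
  have hct : c * (s * s) * c⁻¹ = s * s := by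
    rw [hc, show s⁻¹ * (u * s * u⁻¹) * (s * s) * (s⁻¹ * (u * s * u⁻¹))⁻¹ =
      s⁻¹ * (u * (s * (u⁻¹ * (s * s) * u) * s⁻¹) * u⁻¹) * s by group,
      show u⁻¹ * (s * s) * u = u * (s * s) * u⁻¹ by nth_rewrite 1 [← h.cj2 hu]; group, h2, h.cj2 hu]; group
  obtain ⟨v, hv, h7, h8⟩ : ∃ v ∈ A, v * (u * (s * s) * u⁻¹ * (s * s)) * v⁻¹ = u * (s * s) * u⁻¹ * (s * s) * ω ∧
      v * c * v⁻¹ = c := by
    obtain ⟨v, hv, h7⟩ := h.exists_v o2 h1
    rcases h.com v hv c hcA with e | e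
    · exact ⟨v, hv, h7, e⟩
    refine ⟨v * u, mul_mem hv hu, ?_, ?_⟩
    · rw [← h7, show v * u * (u * (s * s) * u⁻¹ * (s * s)) * (v * u)⁻¹ =
        v * (u * (u * (s * s) * u⁻¹) * u⁻¹ * (u * (s * s) * u⁻¹)) * v⁻¹ by group, h.cj2 hu, h.comm Om.self o2]
    · rw [show v * u * c * (v * u)⁻¹ = v * (u * c * u⁻¹) * v⁻¹ by group, h6, mul_assoc v, mul_assoc c,
        ← h.c1 _ (inv_mem hv), ← mul_assoc, ← mul_assoc, e, mul_assoc, h.sq', mul_one]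
  obtain ⟨⟨h9, -⟩, h10, h11, h12, h13⟩ := h.four o2 h1 hv h7
  have o3 : Om A (s * s) (v * (s * s) * v⁻¹) := Om.self.conj hv
  have o4 := o2.conj hv
  have e3 : u * (v * (s * s) * v⁻¹) * u⁻¹ = v * (u * (s * s) * u⁻¹) * v⁻¹ := h.cjc hu hv
  have e4 : u * (v * (u * (s * s) * u⁻¹) * v⁻¹) * u⁻¹ = v * (s * s) * v⁻¹ := by
    rw [← e3, show u * (u * (v * (s * s) * v⁻¹) * u⁻¹) * u⁻¹ = u * u * (v * (s * s) * v⁻¹) * (u * u)⁻¹ by group]
    exact h.fix (mul_mem hu hu) (by nth_rewrite 2 [← h.cj2 hu]; group) o3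
  have e5 := h.cj2 hv
  have e6 : ∀ a ∈ A, ∃ g, (g = 1 ∨ g = u ∨ g = v ∨ g = v * u) ∧ g⁻¹ * a * (s * s) * (g⁻¹ * a)⁻¹ = s * s := fun a ha => by
    have key : ∀ g : Rˣ, a * (s * s) * a⁻¹ = g * (s * s) * g⁻¹ → g⁻¹ * a * (s * s) * (g⁻¹ * a)⁻¹ = s * s := fun g e => by
      rw [show g⁻¹ * a * (s * s) * (g⁻¹ * a)⁻¹ = g⁻¹ * (a * (s * s) * a⁻¹) * g by group, e]; group
    rcases h13 _ (Om.self.conj ha) with e | e | e | e
    · exact ⟨1, .inl rfl, key _ (by simpa using e)⟩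
    · exact ⟨u, by simp, key _ e⟩
    · exact ⟨v, by simp, key _ e⟩
    · exact ⟨v * u, by simp, key _ (e.trans (by group))⟩
  obtain ⟨x₄, hx₄⟩ : ∃ x, x = v * (u * (s * s) * u⁻¹) * v⁻¹ := ⟨_, rfl⟩
  obtain ⟨x₃, hx₃⟩ : ∃ x, x = v * (s * s) * v⁻¹ := ⟨_, rfl⟩
  obtain ⟨x₂, hx₂⟩ : ∃ x, x = u * (s * s) * u⁻¹ := ⟨_, rfl⟩
  simp only [← hx₄] at h9 h12 h13 o4 e3 e4
  simp only [← hx₃] at h9 h10 h11 h13 o3 e3 e4 e5
  simp only [← hx₂] at h1 h2 h3 h9 h11 h13 o2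
  have r3 := h.om_refl o3
  have h14 : s * x₄ * s⁻¹ * x₂ = s * x₃ * s⁻¹ * (s * s) * ω := by
    nth_rewrite 1 [← h2]
    rw [show s * x₄ * s⁻¹ * (s * x₂ * s⁻¹) = s * (x₄ * x₂) * s⁻¹ by group, h9, h.cs]
  rcases h13 _ (h.om_s o3) with e | e | e | e
  · exact h10 (by rw [← mul_right_inj s, ← mul_left_inj s⁻¹, e]; group)
  · exact h11 (by rw [← mul_right_inj s, ← mul_left_inj s⁻¹, e, h2])
  · rw [e, ← h9, mul_left_inj] at h14
    obtain ⟨η, h15⟩ := r3.r1 s h.mem (mul_inv_eq_iff_eq_mul.1 e) (h.orth Om.self o3 h10.symm)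
    obtain ⟨θ, h16⟩ := (h.om_refl o4).r1 s h.mem (mul_inv_eq_iff_eq_mul.1 h14) (h.orth Om.self o4 h12.symm)
    have h17 := h16.conj u
    rw [e4] at h17
    have h18 := h15.inv.mul h17
    rw [← hc] at h18
    exact Ac.absurd r3.ne ((h18.mul h18).of_eq h5 (Int.units_mul_self _)) (h.neg' o3)
  have h15 : s * u * x₃ = x₃ * (s * u) := by
    rw [← mul_inv_eq_iff_eq_mul, show s * u * x₃ * (s * u)⁻¹ = s * (u * x₃ * u⁻¹) * s⁻¹ by group, e3, ← e,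
      show s * (s * x₃ * s⁻¹) * s⁻¹ = s * s * x₃ * (s * s)⁻¹ by group, h.comm Om.self o3, mul_inv_cancel_right]
  have h16 : ∀ b ∈ A, b * (s * s) * b⁻¹ = s * s → c * b * c⁻¹ = b := fun b hb hbt => by
    refine (h.com c hcA b hb).resolve_right fun e' => ?_
    have hd : s * b * s⁻¹ * b⁻¹ ∈ A := mul_mem (conj_mem_of_norm h.norm hb) (inv_mem hb)
    have d1 : Ac (s * b * s⁻¹ * b⁻¹) 1 x₂ := (h3.mul (h3.inv.conj' (mul_inv_eq_iff_eq_mul.1 (h.fix hb hbt o2)))).of_eq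
      (by group) (Int.units_mul_self _)
    have d2 : s * b * s⁻¹ * b⁻¹ * (s * s) * (s * b * s⁻¹ * b⁻¹)⁻¹ = s * s := by
      rw [show s * b * s⁻¹ * b⁻¹ * (s * s) * (s * b * s⁻¹ * b⁻¹)⁻¹ =
        s * (b * (s⁻¹ * (b⁻¹ * (s * s) * b) * s) * b⁻¹) * s⁻¹ by group,
        show b⁻¹ * (s * s) * b = s * s by nth_rewrite 1 [← hbt]; group, show s⁻¹ * (s * s) * s = s * s by group, hbt]
      group
    obtain ⟨η, d3⟩ := r3.sgn (h.le hd) (mul_inv_eq_iff_eq_mul.1 (h.fix hd d2 o3)) ((h.sq _ hd).resolve_right fun e =>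
      Ac.absurd (h.om_refl o2).ne ((d1.mul d1).of_eq e rfl) (h.neg' o2))
    obtain ⟨θ, d4⟩ : ∃ θ, Ac (s * (u * b * u⁻¹) * s⁻¹ * b⁻¹) θ x₃ := by
      rcases h.com u hu b hb with e | e <;> rw [e]
      · exact ⟨η, d3⟩
      · exact ⟨_, (d3.mul (h.neg' o3)).of_eq (by
          rw [mul_assoc _ b⁻¹, h.c1 _ (inv_mem hb), ← mul_assoc, mul_assoc _ s⁻¹, (Commute.inv_left h.c2).eq]; group) rfl⟩
    refine Ac.absurd r3.ne (((d4.conj' h15).mul d4).of_eq ?_ (Int.units_mul_self _)) (h.neg' o3)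
    have d5 : u * u * b * (u * u)⁻¹ = b := by
      rcases h.sq u hu with e | e <;> rw [e]
      · simp
      · rw [← h.c1 b hb, mul_inv_cancel_right]
    rw [show s * u * (s * (u * b * u⁻¹) * s⁻¹ * b⁻¹) * (s * u)⁻¹ * (s * (u * b * u⁻¹) * s⁻¹ * b⁻¹) =
      s * s * (c * (u * u * b * (u * u)⁻¹) * c⁻¹) * (s * s)⁻¹ * b⁻¹ by rw [hc]; group, d5, e', ← mul_assoc (s * s),
      ← mul_inv_eq_iff_eq_mul.1 hbt, mul_assoc b, h.ct, ← mul_assoc b, mul_inv_cancel_right, h.c1 b hb,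
      mul_inv_cancel_right]
  have h17 : x₃ * (s * s) ∈ A := h.mul_mem' o3
  have h18 : ∀ b ∈ A, b * (s * s) * b⁻¹ = s * s → b * (x₃ * (s * s)) * b⁻¹ = x₃ * (s * s) := fun b hb e => by
    rw [show b * (x₃ * (s * s)) * b⁻¹ = b * x₃ * b⁻¹ * (b * (s * s) * b⁻¹) by group, e, h.fix hb e o3]
  have k : ∀ g : Rˣ, g * (c * (x₃ * (s * s))) * g⁻¹ = g * c * g⁻¹ * (g * x₃ * g⁻¹ * (g * (s * s) * g⁻¹)) := fun g => by
    group
  have h19 : c * (x₃ * (s * s)) ∈ 𝐂(A) := mem_cent.2 fun a ha => by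
    obtain ⟨g, hg, e⟩ := e6 a ha
    have hu' : u ∈ 𝐂[c * (x₃ * (s * s))] := mem_cent1.2 (mul_inv_eq_iff_eq_mul.1 (by
      rw [k, h6, e3, ← hx₂, h9, h.c1 _ h17, mul_assoc c, ← mul_assoc ω, h.sq', one_mul]))
    have hv' : v ∈ 𝐂[c * (x₃ * (s * s))] := mem_cent1.2 (mul_inv_eq_iff_eq_mul.1 (by
      rw [k, h8, e5, ← hx₃, h.comm Om.self o3]))
    have hg' : g ∈ A ⊓ 𝐂[c * (x₃ * (s * s))] := by
      rcases hg with rfl | rfl | rfl | rfl
      exacts [one_mem _, ⟨hu, hu'⟩, ⟨hv, hv'⟩, mul_mem ⟨hv, hv'⟩ ⟨hu, hu'⟩]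
    have hb := mul_mem (A.inv_mem hg'.1) ha
    refine mem_cent1.1 ((mul_mem_cancel_left (Subgroup.inv_mem _ hg'.2)).1 (mem_cent1.2 (mul_inv_eq_iff_eq_mul.1 ?_)))
    rw [← mul_assoc, ← mul_inv_eq_iff_eq_mul.1 (h16 _ hb e), mul_assoc c, mul_assoc c, h18 _ hb e]
  refine hω ?_
  have h20 : c * (x₃ * (s * s)) * (c * (x₃ * (s * s))) = 1 := by
    rcases h.cen _ (mul_mem hcA h17) h19 with e | e <;> rw [e]
    exacts [one_mul 1, h.sq']
  rw [← h20, ← h5, mul_assoc c, ← mul_assoc _ c, ← mul_inv_eq_iff_eq_mul.1 (h18 c hcA hct), mul_assoc c, mul_assoc x₃,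
    ← mul_assoc (s * s), h.comm Om.self o3, mul_assoc x₃, h.refl.sq, mul_one, r3.sq, mul_one]

end XS

theorem Root.step1 (h : Root Γ A s) {B : Subgroup Rˣ} (hBA : B ≤ 𝐍(A)) (hsB : s ∈ 𝐍(B)) (hc : (Nat.card B).Coprime 2)
    (hB : ⁅B, zpowers (s * s)⁆ = B) : B ≤ 𝐂(A) := by
  by_contra hne
  have hA : IsPGroup 2 A := h.pg.to_le le_sup_left
  obtain ⟨P, h1, h2, h3, -, h4⟩ := exists_spec hA (sup_le hBA (zpowers_le.2 h.norm)) le_sup_left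
    (sup_le (le_norm B) (zpowers_le.2 hsB)) (by obtain ⟨k, hk⟩ := hA.exists_card_eq; rw [hk]; exact hc.pow_right k) hne
  have hB' : B ≤ 𝐍(P) := le_sup_left.trans h2
  have hs : s ∈ 𝐍(P) := h2 (mem_sup_right (mem_zpowers s))
  have hp : ∀ Z ≤ P, IsElementaryAbelian 2 Z → s ∈ 𝐍(Z) → s * s ∈ 𝐂(Z) := fun Z hZ he hn =>
    mem_cent.2 (h.refl.perm h.mem ((hZ.trans h1).trans h.le) (fun z hz => (sq z).symm.trans (he.2 z hz)) hn)
  rcases h4 with h4 | h4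
  · refine h3 (coprime_abelian_cent_Ohm1 hB' hc (hA.to_le h1) h4 (hB.ge.trans ?_))
    exact (commutator_mono le_rfl (zpowers_le.2 (hp _ (omegaOne_le P) (isElementaryAbelian_omegaOne h4)
      (zpowers_le.1 (norm_Ohm1 (zpowers_le.2 hs) 2))))).trans (comm_le_right (norm_cent (norm_Ohm1 hB' 2)))
  have hsZ : s ∈ 𝐍(𝐙(P)) := zpowers_le.1 (norm_center (zpowers_le.2 hs))
  have htZ := hp _ inf_le_left h4.elab hsZ
  have hq : ∀ z ∈ 𝐙(P), z * z = 1 := fun z hz => (sq z).symm.trans (h4.elab.2 z hz)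
  have hZB : 𝐙(P) ≤ 𝐂(B) := h4.cent.ge.trans inf_le_right
  have h5 : ∀ z ∈ 𝐙(P), Ac z 1 (s * s) → z = 1 := fun z hz a => by
    by_contra e
    have h6 : B ≤ pl z := hB.ge.trans ((commutator_mono le_rfl (zpowers_le.2 (a.symm (mem_cent.1 htZ z hz)))).trans
      (comm_le_right ((le_cent1_iff.2 (hZB hz)).trans (cent_le_norm_pl z))))
    have h7 : P ≤ pl z := h4.comm.ge.trans ((commutator_mono le_rfl h6).trans
      (comm_le_right ((le_cent1_iff.2 hz.2).trans (cent_le_norm_pl z))))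
    exact Ac.absurd e (h7 hz.1) (Ac.self (hq z hz))
  have h6 : ∀ z ∈ 𝐙(P), z ≠ 1 → Ac z (-1) (s * s) := fun z hz e => by
    obtain ⟨ε, a⟩ := h.refl.sgn (h.le (h1 hz.1)) (mem_cent.1 htZ z hz) (hq z hz)
    rcases Int.units_eq_one_or ε with rfl | rfl
    exacts [absurd (h5 z hz a) e, a]
  obtain ⟨ω, hω, hω1⟩ := exists_ne_one (center_ne_bot_of_nil (pgroup_nil h4.pgroup) h4.ne_bot)
  have h7 : ∀ z ∈ 𝐙(P), z = 1 ∨ z = ω := fun z hz => or_iff_not_imp_left.2 fun e => by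
    have := h5 _ (mul_mem hz hω) ((h6 z hz e).mul (h6 ω hω hω1))
    rw [← mul_left_inj ω, this, hq ω hω]
  have hR := h.mono h1 hs
  have h8 : ∀ x, Om P (s * s) x → x = s * s ∨ x = s * s * ω := fun x hx => by
    by_cases e : ∀ x, Om P (s * s) x → x ≠ s * s * ω
    · refine .inl (XS.main ⟨hR, fun z h h' => h7 z ⟨h, h'⟩, fun a ha b hb => ?_, fun a ha => h7 _ (sq a ▸ h4.pow a ha),
        mem_cent.1 hω.2, mul_inv_eq_iff_eq_mul.1 ((h7 _ (conj_mem_of_norm hsZ hω)).resolve_left fun e => hω1 (by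
          simpa using e)), hq ω hω, h6 ω hω hω1, e⟩ hx)
      refine (h7 _ (h4.der.le (comm_mem_comm ha hb))).imp mul_inv_eq_one.1 fun e => ?_
      rw [mem_cent.1 hω.2 b hb, ← e, inv_mul_cancel_right]
    push Not at e
    obtain ⟨_, hy, rfl⟩ := e
    exact hR.two hy (by simpa using hω1) (by rw [← mul_assoc, h.refl.sq, one_mul]; exact hω.2) hx
  refine h3 (cent_symm (h4.comm.ge.trans ((comm_le_of_le_closure (hB.ge.trans le_sup_left) (commutator_le_of_le_commStab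
    (zpowers_le.2 ⟨mul_mem hsZ hsZ, fun a ha => ?_⟩)) (zpowers_le.2 (mul_mem hsZ hsZ)) (norm_center hB') hB').trans hZB)))
  rw [show ⁅s * s, a⁆ = s * s * (a * (s * s) * a⁻¹)⁻¹ by rw [commutatorElement_def]; group]
  rcases h8 _ (Om.self.conj ha) with e | e <;> rw [e]
  · simp
  · rw [mul_inv_rev, ← mul_assoc]; exact conj_mem_of_norm (mul_mem hsZ hsZ) (inv_mem hω)

end Cfsg.Lib.HH.Two
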