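import Cfsg.Agent.Lib.HH.Frame
import Cfsg.Agent.Lib.HH.Loc3
import Cfsg.Agent.Lib.HH.Refl3
import Cfsg.Agent.Lib.PF.Main

/-!
# The `2`-length is bounded by the exponent of a Sylow `2`-subgroup (Bryukhanova)
-/

set_option autoImplicit false

namespace Cfsg.Lib.HH.Two

open Module LinearMap Subgroup Cfsg.Lib.BG Cfsg.Lib.PGroup Cfsg.Lib.HH.ModB
open scoped Cfsg.Lib.Transfer commutatorElement

universe u

theorem sol_of_psol (n : ℕ) : ∀ (G : Type u) [Group G] [Finite G], Nat.card G = n → IsPSolvable 2 G →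
    Group.IsSolvable G := by
  induction n using Nat.strong_induction_on with | _ n ih => ?_
  intro G _ _ hn hs
  rcases subsingleton_or_nontrivial G with h | h
  · infer_instance
  have key : ∀ (N : Subgroup G) [N.Normal], N ≠ ⊥ → Group.IsSolvable N → Group.IsSolvable G := fun N _ h1 h2 => by
    have := ih _ (by
      rw [← hn, ← N.card_mul_index]
      exact lt_mul_left (Nat.pos_of_ne_zero index_ne_zero_of_finite) (one_lt_card_iff_ne_bot _ |>.2 h1))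
      (G ⧸ N) rfl (Core.isPSolvable_quotient hs N)
    exact Group.isSolvable_of_ker_le_range N.subtype (QuotientGroup.mk' N) (by simp)
  rcases Core.pCore_ne_bot_or_of_isPSolvable hs with h | h
  · exact key _ h (pgroup_sol (Core.pCore_isPGroup 2 G))
  · exact key _ h (PF.isSolvable_of_odd _ (Nat.coprime_two_right.1 (Core.pPrimeCore_coprime 2 G)))

variable {H : Type u} [Group H] [Finite H] {m : ℕ}

omit [Finite H] in
theorem pg_zpowers {p : ℕ} {x : H} {l : ℕ} (h : x ^ p ^ l = 1) : IsPGroup p (zpowers x) := fun y => ⟨l, Subtype.ext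
  (orderOf_dvd_iff_pow_eq_one.1 ((orderOf_dvd_of_mem_zpowers y.2).trans (orderOf_dvd_of_pow_eq_one h)))⟩

omit [Finite H] in
theorem conj_tops {g t : H} (h : t ∈ tops H m) : g * t * g⁻¹ ∈ tops H m := by
  obtain ⟨y, l, h1, rfl⟩ := h
  exact ⟨g * y * g⁻¹, l, by rw [conj_pow, h1, mul_one, mul_inv_cancel], conj_pow⟩

instance normal_tops : (closure (tops H m)).Normal :=
  normalizer_eq_top_iff.1 (top_le_iff.1 (norm_closure fun _ _ _ => conj_tops))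

omit [Finite H] in
theorem Loc.data (L : Loc H (m + 1)) {B : Subgroup H} (hB : B ≤ L.X) {y : H} (hy : y ∈ 𝐍(B))
    (hp : IsPGroup 2 ↥(B ⊔ zpowers y)) (hs : y ^ 2 ^ m ∈ L.X) (h : y ^ 2 ^ (m + 1) ∈ L.X) :
    L.σ ⟨_, hs⟩ ∈ 𝐍(im L.σ B) ∧ IsPGroup 2 ↥(im L.σ B ⊔ zpowers (L.σ ⟨_, hs⟩)) ∧
      L.σ ⟨_, hs⟩ * L.σ ⟨_, hs⟩ = L.σ ⟨_, h⟩ := by
  refine ⟨zpowers_le.1 ?_, ?_, ?_⟩
  · rw [← im_zpowers]; exact im_norm (zpowers_le.2 (pow_mem hy _))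
  · rw [← im_zpowers, ← im_sup hB (zpowers_le.2 hs)]
    exact pgroup_im (hp.to_le (sup_le_sup_left (zpowers_le.2 (pow_mem (mem_zpowers y) _)) _))
  · rw [← map_mul]; congr 1; exact Subtype.ext (by simp [pow_succ, pow_mul, sq])

omit [Finite H] in
theorem Loc.root (L : Loc H (m + 1)) {B : Subgroup H} (hB : B ≤ L.X) {y : H} (hy : y ∈ 𝐍(B))
    (hp : IsPGroup 2 ↥(B ⊔ zpowers y)) (h : y ^ 2 ^ (m + 1) ∈ L.X) (hne : L.σ ⟨_, h⟩ ≠ 1) :
    ∃ hs : y ^ 2 ^ m ∈ L.X, L.σ ⟨_, hs⟩ * L.σ ⟨_, hs⟩ = L.σ ⟨_, h⟩ ∧ Root L.σ.range (im L.σ B) (L.σ ⟨_, hs⟩) := by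
  obtain ⟨l, hl⟩ := hp ⟨y, mem_sup_right (mem_zpowers y)⟩
  obtain ⟨k, e, hs, r⟩ := L.p2 y l (congrArg Subtype.val hl) h hne
  obtain rfl := Nat.succ_injective e
  obtain ⟨h1, h2, h3⟩ := L.data hB hy hp hs h
  exact ⟨hs, h3, map_le_range _ _, ⟨_, rfl⟩, h1, h2, h3 ▸ r⟩

/-- Non-trivial `2`-elements generated by top powers are detected by local data. -/
def Det (H : Type u) [Group H] (m : ℕ) : Prop := ∀ g ∈ closure (tops H m), IsPGroup 2 (zpowers g) →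
  (∀ (L : Loc H m) (h : g ∈ L.X), L.σ ⟨g, h⟩ = 1) → g = 1

variable (F : Frame 2 H) (hd : Det H (m + 1))
include hd

theorem step_one (hs : Group.IsSolvable H) {y : H} (hy : y ∈ 𝐍(F.P)) {l : ℕ} (hl : y ^ 2 ^ l = 1) :
    y ^ 2 ^ (m + 1) ∈ F.P := by
  by_contra hne
  have h1 : F.π y ^ 2 ^ (m + 1) ≠ 1 := fun e => hne (F.max _ (zpowers_le.2 (pow_mem hy _))
    ((pg_zpowers hl).to_le (zpowers_le.2 (pow_mem (mem_zpowers y) _))) (zpowers_le.2 ((map_pow _ _ _).trans e))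
    (mem_zpowers _))
  set O := pPrimeCore 2 F.H'
  have hO := Core.pPrimeCore_coprime 2 F.H'
  set M := 𝐍(F.P) ⊓ O.comap F.π
  have hPM : F.P ≤ M := le_inf (le_norm _) (F.ker.trans (ker_le_comap _ _))
  have h2 : Syl 2 F.P M := Syl.of_max hPM F.pg fun Q hQ _ h => F.max Q (h.trans inf_le_left) hQ
    ((Subgroup.map_eq_bot_iff _).1 (Core.eq_bot_of_isPGroup_of_coprime (hQ.map _)
      (Core.coprime_of_le (map_le_iff_le_comap.2 (h.trans inf_le_right)) hO)))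
  obtain ⟨K, h3, h4⟩ := h2.exists_compl inf_le_left
  haveI := hs
  have h5 := h4.frattini (M := 𝐍(F.P)) inferInstance ⟨inf_le_left, norm_inf (le_norm _) le_normalizer_of_normal⟩
  have hPπ : F.P.map F.π = ⊥ := (Subgroup.map_eq_bot_iff _).2 F.ker
  have h6 : (𝐍(F.P) ⊓ 𝐍(K)).map F.π = ⊤ := by
    rw [← h3.sup, sup_assoc, sup_eq_right.2 (le_inf h3.norm (le_norm K))] at h5
    have := congrArg (Subgroup.map F.π) h5
    rwa [Subgroup.map_sup, hPπ, bot_sup_eq, F.top] at this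
  have h7 : O ≤ K.map F.π := fun x hx => by
    obtain ⟨a, ha, rfl⟩ := F.top.ge (mem_top x)
    have : M.map F.π = K.map F.π := by rw [← h3.sup, Subgroup.map_sup, hPπ, bot_sup_eq]
    exact this.le ⟨a, ⟨ha, hx⟩, rfl⟩
  obtain ⟨y₁, ⟨hy1, hy2⟩, e, l₁, hl₁⟩ := F.lift h6 (x := F.π y) (k := l) (by rw [← map_pow, hl, map_one])
  have hK : (Nat.card K).Coprime 2 := PiNat.p'_iff_coprime.1 h4.pi
  set T := zpowers (y₁ ^ 2 ^ (m + 1))
  have hT : T ≤ zpowers y₁ := zpowers_le.2 (pow_mem (mem_zpowers _) _)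
  have hT2 := (pg_zpowers hl₁).to_le hT
  have hTK : T ≤ 𝐍(K) := hT.trans (zpowers_le.2 hy2)
  have hB := coprime_commGid hTK (Core.coprime_card_of_isPGroup hT2 hK)
  set B := ⁅K, T⁆
  have hBK : B ≤ K := comm_le_left hTK
  have hBP : B ≤ 𝐍(F.P) := hBK.trans h3.norm
  have hB2 := Core.coprime_of_le hBK hK
  have hP := coprime_commGid hBP (Core.coprime_card_of_isPGroup F.pg hB2).symm
  have h8 : ⁅F.P, B⁆ ≠ ⊥ := fun e' => by
    have h9 := (Subgroup.map_eq_bot_iff _).2 (F.ker_of_cent (comm_eq_bot_iff'.1 e'))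
    rw [map_commutator, comm_eq_bot_iff'] at h9
    have := Core.eq_bot_of_isPGroup_of_coprime (hT2.map F.π) (Core.coprime_of_le ((h9.trans (cent_anti h7)).trans
      (Core.centralizer_pPrimeCore_le_of_isPSolvable (Core.isPSolvable_of_isSolvable (Group.isSolvable_of_surjective F.surj))
        F.core)) hO)
    exact h1 (by rw [← e, ← map_pow]; exact mem_bot.1 (this.le (mem_map_of_mem _ (mem_zpowers _))))
  have ht : T ≤ closure (tops H (m + 1)) := zpowers_le.2 (subset_closure ⟨y₁, l₁, hl₁, rfl⟩)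
  have hB0 : B ≤ closure (tops H (m + 1)) := (commutator_mono le_rfl ht).trans (comm_le_right le_normalizer_of_normal)
  have hP0 : ⁅F.P, B⁆ ≤ closure (tops H (m + 1)) :=
    (commutator_mono le_rfl hB0).trans (comm_le_right le_normalizer_of_normal)
  have hP1 : ⁅F.P, B⁆ ≤ F.P := comm_le_left hBP
  have hyB : zpowers y₁ ≤ 𝐍(B) := norm_comm (zpowers_le.2 hy2) (abelian_norm inferInstance hT)
  obtain ⟨g, hg, hg1⟩ := exists_ne_one h8
  refine hg1 (hd g (hP0 hg) (F.pg.to_le (zpowers_le.2 (hP1 hg))) fun L h => mem_bot.1 ((?_ : im L.σ ⁅F.P, B⁆ = ⊥).le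
    (show L.σ ⟨g, h⟩ ∈ im L.σ ⁅F.P, B⁆ from ⟨_, hg, rfl⟩)))
  have x1 := hP0.trans L.p1
  have x2 := hB0.trans L.p1
  have x3 := ht.trans L.p1
  have h9 : ⁅im L.σ B, zpowers (L.σ ⟨_, x3 (mem_zpowers _)⟩)⁆ = im L.σ B := by
    rw [← im_zpowers, ← im_comm x2 x3, hB]
  rw [← hP, im_comm x1 x2, comm_eq_bot_iff']
  by_cases h10 : L.σ ⟨_, x3 (mem_zpowers _)⟩ = 1
  · rw [← h9, h10]; simp
  obtain ⟨hs, e, r⟩ := L.root x1 (zpowers_le.1 (norm_comm (zpowers_le.2 hy1) hyB)) ((pgroup_sup F.pg (pg_zpowers hl₁)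
    (zpowers_le.2 hy1)).to_le (sup_le_sup_right hP1 _)) _ h10
  refine r.step1 (im_norm (right_norm_comm _ _)) (zpowers_le.1 ?_) (hB2.coprime_dvd_left (card_im_dvd x2)) (e ▸ h9)
  rw [← im_zpowers]; exact im_norm ((zpowers_le.2 (pow_mem (mem_zpowers _) _)).trans hyB)

theorem step_two (hs : Group.IsSolvable H) : ∃ A Z : Subgroup H, 𝐍(F.P) ≤ 𝐍(A) ∧ 𝐍(F.P) ≤ 𝐍(Z) ∧
    ∀ y ∈ 𝐍(F.P), ∀ l, y ^ 2 ^ l = 1 → ∀ u ∈ F.P, (u * y) ^ 2 ^ (m + 1) * (y ^ 2 ^ (m + 1))⁻¹ ∈ A ∧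
      (u ∈ A → (u * y) ^ 2 ^ (m + 1) * (y ^ 2 ^ (m + 1))⁻¹ ∈ Z) ∧
      (u ∈ Z → (u * y) ^ 2 ^ (m + 1) * (y ^ 2 ^ (m + 1))⁻¹ = 1) := by
  let T : Set H := {t | ∃ y ∈ 𝐍(F.P), (∃ l, y ^ 2 ^ l = 1) ∧ y ^ 2 ^ (m + 1) = t}
  have hn : 𝐍(F.P) ≤ 𝐍(closure T) := norm_closure (by
    rintro g hg _ ⟨y, hy, ⟨l, hl⟩, rfl⟩
    exact ⟨g * y * g⁻¹, mul_mem (mul_mem hg hy) (inv_mem hg), ⟨l, by rw [conj_pow, hl, mul_one, mul_inv_cancel]⟩,
      conj_pow⟩)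
  have hA : closure T ≤ F.P := (closure_le _).2 (by
    rintro _ ⟨y, hy, ⟨l, hl⟩, rfl⟩; exact step_one F hd hs hy hl)
  have hA0 : closure T ≤ closure (tops H (m + 1)) := closure_mono (by
    rintro _ ⟨y, -, ⟨l, hl⟩, rfl⟩; exact ⟨y, l, hl, rfl⟩)
  have hZ : ∀ z, z ∈ omegaOne 2 𝐙(closure T) ↔ z ∈ 𝐙(closure T) ∧ z ^ 2 = 1 := fun z =>
    mem_omegaOne_iff_of_isMulCommutative (abelian_center _)
  have hnZ := norm_Ohm1 (norm_center hn) 2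
  have det : ∀ g ∈ closure T, (∀ (L : Loc H (m + 1)) (h : g ∈ L.X), L.σ ⟨g, h⟩ = 1) → g = 1 := fun g hg =>
    hd g (hA0 hg) (F.pg.to_le (zpowers_le.2 (hA hg)))
  have hp : ∀ y ∈ 𝐍(F.P), ∀ l, y ^ 2 ^ l = 1 → IsPGroup 2 ↥(closure T ⊔ zpowers y) := fun y hy l hl =>
    (pgroup_sup F.pg (pg_zpowers hl) (zpowers_le.2 hy)).to_le (sup_le_sup_right hA _)
  have gen : ∀ L : Loc H (m + 1), im L.σ (closure T) = closure (L.σ '' (Subtype.val ⁻¹' T)) ∧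
      ∀ t ∈ L.σ '' (Subtype.val ⁻¹' T), t = 1 ∨ ∃ s, s * s = t ∧ Root L.σ.range (im L.σ (closure T)) s := fun L => by
    refine ⟨?_, ?_⟩
    · rw [← MonoidHom.map_closure, im, ← comap_map_eq_self_of_injective L.X.subtype_injective (closure _),
        MonoidHom.map_closure, coe_subtype, Set.image_preimage_eq_of_subset]
      · rfl
      · exact fun t ht => ⟨⟨t, L.p1 (hA0 (subset_closure ht))⟩, rfl⟩
    · rintro _ ⟨⟨_, h⟩, ⟨y, hy, ⟨l, hl⟩, rfl⟩, rfl⟩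
      refine or_iff_not_imp_left.2 fun e => ?_
      obtain ⟨hs, e, r⟩ := L.root (hA0.trans L.p1) (hn hy) (hp y hy l hl) h e
      exact ⟨_, e, r⟩
  refine ⟨_, _, hn, hnZ, fun y hy l hl u hu => ?_⟩
  have hy' : u * y ∈ 𝐍(F.P) := mul_mem (le_norm _ hu) hy
  obtain ⟨l', hl'⟩ : ∃ l, (u * y) ^ 2 ^ l = 1 := (pgroup_sup F.pg (pg_zpowers hl) (zpowers_le.2 hy)
    ⟨u * y, mul_mem (mem_sup_left hu) (mem_sup_right (mem_zpowers y))⟩).imp fun _ => congrArg Subtype.val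
  have t0 : y ^ 2 ^ (m + 1) ∈ T := ⟨y, hy, ⟨l, hl⟩, rfl⟩
  have t1 : (u * y) ^ 2 ^ (m + 1) ∈ T := ⟨_, hy', ⟨l', hl'⟩, rfl⟩
  have a0 : y ^ 2 ^ (m + 1) ∈ closure T := subset_closure t0
  have a1 : (u * y) ^ 2 ^ (m + 1) ∈ closure T := subset_closure t1
  have hq : ∀ t ∈ T, t * t = 1 := fun t ht => det _ (mul_mem (subset_closure ht) (subset_closure ht)) fun L h => by
    have h' := L.p1 (hA0 (subset_closure ht))
    rw [show (⟨t * t, h⟩ : L.X) = ⟨t, h'⟩ * ⟨t, h'⟩ from rfl, map_mul]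
    rcases (gen L).2 _ ⟨⟨t, h'⟩, ht, rfl⟩ with e | ⟨s, e, r⟩
    · rw [e, one_mul]
    · rw [← e]; exact r.refl.sq
  have loc : ∀ B ≤ closure T, 𝐍(F.P) ≤ 𝐍(B) → u ∈ B → ∀ L : Loc H (m + 1),
      (L.σ ⟨_, L.p1 (hA0 a0)⟩ = 1 ∧ L.σ ⟨_, L.p1 (hA0 a1)⟩ = 1) ∨ ∃ w ∈ im L.σ B, ∃ s ∈ L.σ.range,
        s ∈ 𝐍(im L.σ (closure T)) ∧ IsPGroup 2 ↥(im L.σ (closure T) ⊔ zpowers s) ∧ s * s = L.σ ⟨_, L.p1 (hA0 a0)⟩ ∧
          w * s * (w * s) = L.σ ⟨_, L.p1 (hA0 a1)⟩ := fun B hB hBn huB L => by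
    have hw := (F.pow (norm_inf le_rfl hBn hy) hy ⟨hu, huB⟩ (2 ^ m)).1.2
    have hX := hA0.trans L.p1
    have hw' := hX (hB hw)
    refine or_iff_not_imp_left.2 fun e => ?_
    have hs : y ^ 2 ^ m ∈ L.X := by
      rcases not_and_or.1 e with e | e
      · exact (L.root hX (hn hy) (hp y hy l hl) _ e).1
      · simpa using mul_mem (inv_mem hw') (L.root hX (hn hy') (hp _ hy' l' hl') _ e).1
    have hs' : (u * y) ^ 2 ^ m ∈ L.X := by simpa using mul_mem hw' hs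
    obtain ⟨h1, h2, h3⟩ := L.data hX (hn hy) (hp y hy l hl) hs (hX a0)
    refine ⟨_, ⟨⟨_, hw'⟩, hw, rfl⟩, _, ⟨_, rfl⟩, h1, h2, h3, ?_⟩
    rw [← (L.data hX (hn hy') (hp _ hy' l' hl') hs' (hX a1)).2.2, ← map_mul]
    congr 2 <;> exact Subtype.ext (inv_mul_cancel_right _ _)
  rw [inv_eq_of_mul_eq_one_right (hq _ t0)]
  refine ⟨mul_mem a1 a0, fun h => ?_, fun h => det _ (mul_mem a1 a0) fun L h' => ?_⟩
  · have h1 : (u * y) ^ 2 ^ (m + 1) * y ^ 2 ^ (m + 1) ∈ 𝐂(closure T) := mem_cent.2 fun a ha =>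
      commutatorElement_eq_one_iff_mul_comm.1 (det _ (comm_le_of_le le_rfl le_rfl (commutator_mem_commutator ha
        (mul_mem a1 a0))) fun L h' => by
          rw [show (⟨_, h'⟩ : L.X) = ⁅(⟨a, L.p1 (hA0 ha)⟩ : L.X), ⟨_, L.p1 (hA0 a1)⟩ * ⟨_, L.p1 (hA0 a0)⟩⁆ from rfl,
            map_commutatorElement, map_mul, commutatorElement_eq_one_iff_mul_comm]
          rcases loc _ le_rfl hn h L with ⟨e, e'⟩ | ⟨w, hw, s, h1, h2, h3, e, e'⟩
          · rw [e, e']; simp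
          obtain ⟨g1, g2⟩ := gen L
          have h4 : L.σ ⟨a, L.p1 (hA0 ha)⟩ ∈ im L.σ (closure T) := ⟨_, ha, rfl⟩
          have h5 : im L.σ (closure T) ≤ L.σ.range := map_le_range _ _
          rw [g1] at g2 h2 h3 hw h4 h5
          rw [← e, ← e']
          exact mem_cent.1 (step2a g2 h5 h1 h2 h3 hw ⟨_, t0, e.symm⟩ ⟨_, t1, e'.symm⟩) _ h4)
    refine (hZ _).2 ⟨⟨mul_mem a1 a0, h1⟩, ?_⟩
    rw [sq, mul_assoc, mem_cent.1 h1 _ a0, mul_assoc, hq _ t0, mul_one, hq _ t1]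
  · rw [show (⟨_, h'⟩ : L.X) = ⟨_, L.p1 (hA0 a1)⟩ * ⟨_, L.p1 (hA0 a0)⟩ from rfl, map_mul]
    rcases loc _ ((omegaOne_le _).trans inf_le_left) hnZ h L with ⟨e, e'⟩ | ⟨_, ⟨w, hw, rfl⟩, s, h1, -, -, e, e'⟩
    · rw [e, e', one_mul]
    obtain ⟨⟨-, h2⟩, h3⟩ := (hZ _).1 hw
    have g2 : ∀ t (ht : t ∈ T), L.σ ⟨t, L.p1 (hA0 (subset_closure ht))⟩ = 1 ∨
        Refl L.σ.range (L.σ ⟨t, L.p1 (hA0 (subset_closure ht))⟩) := fun t ht =>
      ((gen L).2 _ ⟨⟨t, _⟩, ht, rfl⟩).imp_right fun ⟨s, e, r⟩ => e ▸ r.refl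
    have g3 : ∀ t (ht : t ∈ closure T), L.σ w * L.σ ⟨t, L.p1 (hA0 ht)⟩ = L.σ ⟨t, L.p1 (hA0 ht)⟩ * L.σ w := fun t ht => by
      rw [← map_mul, ← map_mul]; congr 1; exact Subtype.ext (mem_cent.1 h2 t ht).symm
    have := step2b h1 ⟨w, rfl⟩ (by rw [← map_mul, ← sq, show w ^ 2 = 1 from Subtype.ext h3, map_one]) (e ▸ g3 _ a0)
      (e' ▸ g3 _ a1) (e ▸ g2 _ t0) (e' ▸ g2 _ t1)
    rw [← e', this, e, ← map_mul, show (⟨_, _⟩ * ⟨_, _⟩ : L.X) = 1 from Subtype.ext (hq _ t0), map_one]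

omit hd F

theorem bryu (m : ℕ) : ∀ (H : Type u) [Group H] [Finite H], Group.IsSolvable H → pCore 2 H = ⊥ →
    ∀ (V : Type) [AddCommGroup V] [Module (ZMod 2) V] [FiniteDimensional (ZMod 2) V] (ρ : H →* End (ZMod 2) V),
      Function.Injective ρ → (∀ y l, y ^ 2 ^ l = 1 → (ρ y - 1) ^ (2 ^ (m + 1) - 1) = 0) → PLengthLE 2 m H := by
  induction m with
  | zero =>
    refine fun H _ _ _ _ V _ _ _ ρ hρ h => Core.pLengthLE_zero_iff.2 (Core.coprime_iff_not_dvd.2 fun e => ?_)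
    obtain ⟨x, hx⟩ := exists_prime_orderOf_dvd_card' 2 e
    have := h x 1 (by rw [pow_one, ← hx, pow_orderOf_eq_one])
    rw [show 2 ^ (0 + 1) - 1 = 1 from rfl, pow_one, sub_eq_zero, ← map_one ρ] at this
    simp [hρ this] at hx
  | succ m ih =>
    intro H _ _ hs h0 V _ _ _ ρ hρ hE
    obtain ⟨K, _, _, _, W, _, _, _, φ, hφ⟩ := exists_closure (p := 2) (ZMod 2) V
    have hd : Det H (m + 1) := fun g hg h1 h2 => by
      by_contra e
      obtain ⟨L, h, h3⟩ := exists_loc hs h0 (ρ := φ.toMonoidHom.comp ρ) (hφ.comp hρ)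
        (fun y l h => by simpa using congrArg φ (hE y l h)) hg h1 e
      exact h3 (h2 L h)
    obtain ⟨F⟩ := exists_frame (p := 2) (Core.isPSolvable_of_isSolvable hs)
    have hs' : Group.IsSolvable F.H' := Group.isSolvable_of_surjective F.surj
    obtain ⟨S, h1, h2, h3⟩ := exists_soc F.inj (Core.isPSolvable_of_isSolvable hs') F.core
    obtain ⟨A, Z, hA, hZ, h4⟩ := step_two F hd hs
    refine F.len m (ih _ hs' F.core S _ h2 fun x l hx => ?_)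
    obtain ⟨y, hy, rfl, l, hl⟩ := F.lift F.top hx
    set E := (F.ρ (F.π y) - 1) ^ (2 ^ (m + 1) - 1)
    have h5 : ∀ u ∈ F.P, (u * y) ^ 2 ^ (m + 1) * (y ^ 2 ^ (m + 1))⁻¹ ∈ F.P ∧
        F.ψ ((u * y) ^ 2 ^ (m + 1) * (y ^ 2 ^ (m + 1))⁻¹) = E (F.ψ u) := fun u hu => by
      have := F.pow (B := ⊤) (by simpa using hy) hy ⟨hu, trivial⟩ (2 ^ (m + 1))
      rw [geom_sum_pow (ZMod 2)] at this
      exact ⟨this.1.1, this.2⟩
    have h6 : S ≤ ker E := h3 _ fun U hU => by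
      have h7 : ∀ v ∈ U, E v ∈ U := fun v hv => End.pow_apply_mem_of_forall_mem _
        (fun v hv => sub_mem (hU.1 _ trivial v hv) hv) v hv
      rcases hU.2 _ (F.top ▸ F.inv_sub le_rfl hA) with e | e
      · intro v hv
        obtain ⟨u, hu, rfl⟩ := F.onto v
        exact e.le ⟨h7 _ hv, _, ⟨(h5 u hu).1, (h4 y hy l hl u hu).1⟩, (h5 u hu).2⟩
      rcases hU.2 _ (F.top ▸ F.inv_sub le_rfl hZ) with e' | e'
      · intro v hv
        obtain ⟨u, hu, rfl⟩ := e hv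
        exact e'.le ⟨h7 _ hv, _, ⟨(h5 u hu.1).1, (h4 y hy l hl u hu.1).2.1 hu.2⟩, (h5 u hu.1).2⟩
      · intro v hv
        obtain ⟨u, hu, rfl⟩ := e' hv
        rw [mem_ker, ← (h5 u hu.1).2, (h4 y hy l hl u hu.1).2.2 hu.2, F.one]
    have h7 : ∀ (k : ℕ) (u : S), ((((Representation.subrepresentation F.ρ S h1 (F.π y) - 1) ^ k : End _ S) u : S) :
        Fin F.n → ZMod 2) = ((F.ρ (F.π y) - 1) ^ k : End _ _) (u : Fin F.n → ZMod 2) := fun k => by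
      induction k with
      | zero => exact fun _ => rfl
      | succ k ih => intro u; rw [pow_succ, pow_succ, End.mul_apply, ih]; rfl
    exact LinearMap.ext fun u => Subtype.ext ((h7 _ u).trans (h6 u.2))

theorem length_le_exp (hs : IsPSolvable 2 H) (e : ℕ) (h : ∀ (x : H) l, x ^ 2 ^ l = 1 → x ^ 2 ^ e = 1) :
    PLengthLE 2 e H := by
  rcases e with _ | m
  · refine Core.pLengthLE_zero_iff.2 (Core.coprime_iff_not_dvd.2 fun e => ?_)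
    obtain ⟨x, hx⟩ := exists_prime_orderOf_dvd_card' 2 e
    have := h x 1 (by rw [pow_one, ← hx, pow_orderOf_eq_one])
    simp [show x = 1 by simpa using this] at hx
  obtain ⟨F⟩ := exists_frame hs
  have := sol_of_psol _ H rfl hs
  refine F.len m (bryu m _ (Group.isSolvable_of_surjective F.surj) F.core _ _ F.inj fun x l hx => LinearMap.ext fun v => ?_)
  obtain ⟨y, hy, rfl, l, hl⟩ := F.lift F.top hx
  obtain ⟨u, hu, rfl⟩ := F.onto v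
  obtain ⟨l', hl'⟩ : ∃ l, (u * y) ^ 2 ^ l = 1 := (pgroup_sup F.pg (pg_zpowers hl) (zpowers_le.2 hy)
    ⟨u * y, mul_mem (mem_sup_left hu) (mem_sup_right (mem_zpowers y))⟩).imp fun _ => congrArg Subtype.val
  have := (F.pow (B := ⊤) (by simpa using hy) hy ⟨hu, trivial⟩ (2 ^ (m + 1))).2
  rw [geom_sum_pow (ZMod 2), h _ _ hl, h _ _ hl', inv_one, mul_one, F.one] at this
  exact this.symm

end Cfsg.Lib.HH.Two
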