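import Cfsg.Agent.Lib.HH.PLen
import Cfsg.Agent.Lib.BG.Hall

/-!
# The module `P / Φ(P)` for a Sylow subgroup `P` of `O_{p',p}(H)`; the socle of a faithful module
-/

set_option autoImplicit false

namespace Cfsg.Lib.HH.Two

open Module LinearMap Subgroup Cfsg.Lib.BG Cfsg.Lib.PGroup Cfsg.Lib.HH.ModB
open scoped Cfsg.Lib.Transfer commutatorElement

universe u

theorem norm_closure {G : Type*} [Group G] {A : Subgroup G} {T : Set G} (h : ∀ a ∈ A, ∀ t ∈ T, a * t * a⁻¹ ∈ T) :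
    A ≤ 𝐍(closure T) := le_norm_iff.2 fun a ha _ hx =>
  ((closure_le ((closure T).comap (MulAut.conj a).toMonoidHom)).2 fun t ht => subset_closure (h a ha t ht)) hx

/-- `H' = H / O_{p',p}(H)` acting faithfully on `P / Φ(P)`. -/
structure Frame (p : ℕ) (H : Type u) [Group H] where
  H' : Type u
  [grp : Group H']
  [fin : Finite H']
  π : H →* H'
  P : Subgroup H
  n : ℕ
  ρ : H' →* End (ZMod p) (Fin n → ZMod p)
  ψ : H → Fin n → ZMod p
  core : pCore p H' = ⊥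
  len : ∀ k, PLengthLE p k H' → PLengthLE p (k + 1) H
  inj : Function.Injective ρ
  pg : IsPGroup p P
  add : ∀ a ∈ P, ∀ b ∈ P, ψ (a * b) = ψ a + ψ b
  onto : ∀ w, ∃ a ∈ P, ψ a = w
  conj : ∀ g ∈ 𝐍(P), ∀ a ∈ P, ρ (π g) (ψ a) = ψ (g * a * g⁻¹)
  ker : P ≤ π.ker
  max : ∀ T ≤ 𝐍(P), IsPGroup p T → T ≤ π.ker → T ≤ P
  top : 𝐍(P).map π = ⊤

attribute [instance] Frame.grp Frame.fin

variable {p : ℕ} [hp : Fact p.Prime] {H : Type u} [Group H] [Finite H]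

theorem exists_frame (hs : IsPSolvable p H) : Nonempty (Frame p H) := by
  obtain ⟨H₁, _, _, f, hf, hR, h1, h2⟩ := exists_red hs
  obtain ⟨n, e, ρ, h3, h4, h5, h6, h7, -⟩ := hR.coord
  obtain ⟨P, hP⟩ := Syl.exists (p := p) (pPrimePCore p H)
  let π := (QuotientGroup.mk' (pCore p H₁)).comp f
  have hk : π.ker = pPrimePCore p H := by rw [← MonoidHom.comap_ker, QuotientGroup.ker_mk', h1]
  have he : Function.Injective e := fun u w h => by
    have := h6 (u - w) w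
    rw [sub_add_cancel, h, right_eq_mul, h4] at this
    exact sub_eq_zero.1 this
  have hψ : ∀ a ∈ P, e (Function.invFun e (f a)) = f a := fun a ha =>
    Function.invFun_eq ((h5 _).1 (h1.ge (hP.le ha)))
  refine ⟨⟨H₁ ⧸ pCore p H₁, π, P, n, ρ, fun a => Function.invFun e (f a), Core.pCore_quotient_pCore p H₁, h2, h3,
    hP.pgroup, fun a ha b hb => he ?_, fun w => ?_, fun g hg a ha => he ?_, hk ▸ hP.le,
    fun T hT hT' h => hP.ge_of_norm_p' (hk ▸ h) hT' hT, ?_⟩⟩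
  · rw [h6, hψ a ha, hψ b hb, hψ _ (mul_mem ha hb), map_mul]
  · have h8 := hP.map f
    rw [← h1, map_comap_eq_self_of_surjective hf] at h8
    obtain ⟨a, ha, h9⟩ := (h8.eq_self (PiGrp.p_iff.2 (Core.pCore_isPGroup p H₁))).ge ((h5 _).2 ⟨w, rfl⟩)
    exact ⟨a, ha, he ((hψ a ha).trans h9)⟩
  · rw [hψ _ (conj_mem_of_norm hg ha), map_mul, map_mul, map_inv, ← hψ a ha, ← h7, hψ a ha]; rfl
  · have h8 := congrArg (Subgroup.map π) (hP.frattini (M := ⊤) ⟨le_top, hk ▸ le_normalizer_of_normal⟩)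
    rwa [Subgroup.map_sup, (Subgroup.map_eq_bot_iff _).2 hk.ge, bot_sup_eq, top_inf_eq,
      map_top_of_surjective π ((QuotientGroup.mk'_surjective _).comp hf)] at h8

namespace Frame

variable (F : Frame p H)

omit [Finite H] hp in
theorem surj : Function.Surjective F.π := fun x => by
  obtain ⟨y, -, e⟩ := F.top.ge (mem_top x)
  exact ⟨y, e⟩

omit [Finite H] in
theorem one : F.ψ 1 = 0 := by simpa using F.add 1 (one_mem _) 1 (one_mem _)

omit [Finite H] in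
theorem inv {a : H} (ha : a ∈ F.P) : F.ψ a⁻¹ = -F.ψ a :=
  eq_neg_of_add_eq_zero_left (by rw [← F.add _ (inv_mem ha) a ha, inv_mul_cancel, F.one])

theorem lift {M : Subgroup H} (hM : M.map F.π = ⊤) {x : F.H'} {k : ℕ} (hx : x ^ p ^ k = 1) :
    ∃ y ∈ M, F.π y = x ∧ ∃ l, y ^ p ^ l = 1 := by
  obtain ⟨y, e, l, h⟩ := exists_lift (f := F.π.domRestrict M) (by
    rwa [← MonoidHom.range_eq_top, MonoidHom.domRestrict_range]) hx
  exact ⟨y, y.2, e, l, congrArg Subtype.val h⟩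

theorem lift_sub {T' : Subgroup F.H'} (h : IsPGroup p T') :
    ∃ T, F.P ≤ T ∧ T ≤ 𝐍(F.P) ∧ IsPGroup p T ∧ T.map F.π = T' := by
  obtain ⟨R, hR, e, -⟩ := PLocal.exists_isPGroup_map_eq (f := F.π.domRestrict 𝐍(F.P)) (by
    rw [← MonoidHom.range_eq_top, MonoidHom.domRestrict_range, F.top]) h
  refine ⟨F.P ⊔ R.map (𝐍(F.P)).subtype, le_sup_left, sup_le (le_norm _) (map_subtype_le _),
    pgroup_sup F.pg (hR.map _) (map_subtype_le _), ?_⟩
  rw [Subgroup.map_sup, (Subgroup.map_eq_bot_iff _).2 F.ker, bot_sup_eq, map_map, ← e]; rfl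

omit [Finite H] hp in
theorem ker_of_cent {B : Subgroup H} (h : B ≤ 𝐂(F.P)) : B ≤ F.π.ker := fun b hb => F.inj (by
  rw [map_one]
  refine LinearMap.ext fun w => ?_
  obtain ⟨a, ha, rfl⟩ := F.onto w
  rw [F.conj b (cent_le_norm _ (h hb)) a ha, ← mem_cent.1 (h hb) a ha, mul_inv_cancel_right, End.one_apply])

/-- The image in `P / Φ(P)` of a subgroup. -/
def sub (B : Subgroup H) : Submodule (ZMod p) (Fin F.n → ZMod p) := AddSubgroup.toZModSubmodule p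
  { carrier := {w | ∃ a ∈ F.P ⊓ B, F.ψ a = w}
    zero_mem' := ⟨1, one_mem _, F.one⟩
    add_mem' := by
      rintro _ _ ⟨a, ha, rfl⟩ ⟨b, hb, rfl⟩
      exact ⟨a * b, mul_mem ha hb, F.add a ha.1 b hb.1⟩
    neg_mem' := by
      rintro _ ⟨a, ha, rfl⟩
      exact ⟨a⁻¹, inv_mem ha, F.inv ha.1⟩ }

omit [Finite H]

theorem mem_sub {B : Subgroup H} {w : Fin F.n → ZMod p} : w ∈ F.sub B ↔ ∃ a ∈ F.P ⊓ B, F.ψ a = w := Iff.rfl

theorem inv_sub {B T : Subgroup H} (hT : T ≤ 𝐍(F.P)) (h : T ≤ 𝐍(B)) : Inv F.ρ (T.map F.π) (F.sub B) := by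
  rintro _ ⟨g, hg, rfl⟩ _ ⟨a, ha, rfl⟩
  exact ⟨_, conj_mem_of_norm (norm_inf hT h hg) ha, (F.conj g (hT hg) a ha.1).symm⟩

theorem comm {g a : H} (hg : g ∈ 𝐍(F.P)) (ha : a ∈ F.P) : F.ρ (F.π g) (F.ψ a) - F.ψ a = F.ψ ⁅g, a⁆ := by
  rw [F.conj g hg a ha, commutatorElement_def, F.add _ (conj_mem_of_norm hg ha) _ (inv_mem ha), F.inv ha, sub_eq_add_neg]

theorem pow {B : Subgroup H} {y u : H} (hy : y ∈ 𝐍(F.P ⊓ B)) (hy' : y ∈ 𝐍(F.P)) (hu : u ∈ F.P ⊓ B) (k : ℕ) :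
    (u * y) ^ k * (y ^ k)⁻¹ ∈ F.P ⊓ B ∧
      F.ψ ((u * y) ^ k * (y ^ k)⁻¹) = (∑ i ∈ Finset.range k, F.ρ (F.π y) ^ i) (F.ψ u) := by
  induction k with
  | zero => simp [F.one]
  | succ k ih =>
    have h1 := conj_mem_of_norm hy ih.1
    rw [show (u * y) ^ (k + 1) * (y ^ (k + 1))⁻¹ = u * (y * ((u * y) ^ k * (y ^ k)⁻¹) * y⁻¹) by
      rw [pow_succ', pow_succ' y]; group]
    refine ⟨mul_mem hu h1, ?_⟩
    rw [F.add _ hu.1 _ h1.1, ← F.conj y hy' _ ih.1.1, ih.2, Finset.sum_range_succ', LinearMap.add_apply, add_comm,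
      pow_zero, End.one_apply]
    simp only [pow_succ', ← Finset.mul_sum, End.mul_apply]

end Frame

variable {K V : Type*} [Field K] [AddCommGroup V] [Module K V]

/-- `U` is zero or a minimal invariant subspace. -/
def MinInv (ρ : H →* End K V) (U : Submodule K V) : Prop :=
  Inv ρ ⊤ U ∧ ∀ W, Inv ρ ⊤ W → U ⊓ W = ⊥ ∨ U ≤ W

/-- A group without normal `p`-subgroup acts faithfully on the socle of a faithful module. -/
theorem exists_soc [CharP K p] [FiniteDimensional K V] {ρ : H →* End K V} (hρ : Function.Injective ρ)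
    (hs : IsPSolvable p H) (h0 : pCore p H = ⊥) : ∃ (S : Submodule K V) (h : ∀ g, S ≤ S.comap (ρ g)),
      Function.Injective (Representation.subrepresentation ρ S h) ∧ ∀ M, (∀ U, MinInv ρ U → U ≤ M) → S ≤ M := by
  have h1 : ∀ g, sSup {U | MinInv ρ U} ≤ (sSup {U | MinInv ρ U}).comap (ρ g) := fun g =>
    sSup_le fun U hU u hu => (le_sSup hU : U ≤ _) (hU.1 g trivial u hu)
  refine ⟨_, h1, ?_, fun M h => sSup_le h⟩
  rw [← MonoidHom.ker_eq_bot_iff]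
  set N := MonoidHom.ker (Representation.subrepresentation ρ _ h1)
  have h2 : N ⊓ pPrimeCore p H = ⊥ := by
    by_contra e
    obtain ⟨W, hW, -, h3, h4⟩ := exists_nofix (ρ := ρ.comp (N ⊓ pPrimeCore p H).subtype) (τ := ρ)
      (α := MulAut.conjNormal) (fun e => Core.not_dvd_card_pPrimeCore p H (((CharP.cast_eq_zero_iff K p _).1 e).trans
        (card_dvd inf_le_right)))
      (fun s g => (ρ.map_mul _ _).symm.trans ((congrArg ρ (inv_mul_cancel_right _ _).symm).trans (ρ.map_mul _ _))) (by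
        obtain ⟨g, hg, hg1⟩ := exists_ne_one e
        exact ⟨⟨g, hg⟩, fun e => hg1 (hρ (e.trans ρ.map_one.symm))⟩)
    obtain ⟨U, ⟨h5, h6, h7⟩, hm⟩ := wellFounded_lt.has_min {U : Submodule K V | U ≤ W ∧ U ≠ ⊥ ∧ Inv ρ ⊤ U}
      ⟨W, le_rfl, hW, fun s _ => h3 s⟩
    have h8 : MinInv ρ U := ⟨h7, fun X hX => or_iff_not_imp_left.2 fun e => by_contra fun e' =>
      hm _ ⟨inf_le_left.trans h5, e, fun s hs u hu => ⟨h7 s hs u hu.1, hX s hs u hu.2⟩⟩
        (inf_lt_left.2 e')⟩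
    exact h6 (eq_bot_iff.2 fun u hu => h4 u (h5 hu) fun g => congrArg Subtype.val
      (LinearMap.congr_fun g.2.1 ⟨u, (le_sSup h8 : U ≤ _) hu⟩))
  exact eq_bot_mono h2 (le_inf le_rfl ((cent_of_norm_of_disjoint le_normalizer_of_normal le_normalizer_of_normal h2).trans
    (Core.centralizer_pPrimeCore_le_of_isPSolvable hs h0)))

end Cfsg.Lib.HH.Two
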