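import Cfsg.Agent.Lib.HH.HalfA
import Cfsg.Agent.Lib.HH.ModIrr

/-!
# The fixed space of an element of prime order `p > 3` generating a solvable group as a normal subgroup
-/

set_option autoImplicit false

namespace Cfsg.Lib.HH.Half

open Module Subgroup ModB
open scoped commutatorElement

universe u

theorem arith1 {p n f d m : ℕ} (h3 : 3 < p) (h5 : p * d ≤ (n + (p - 1) * f) * m) (h6 : p * f ≤ n)
    (h7 : 0 < n * m) : 2 * d < n * m := by
  obtain ⟨q, rfl⟩ : ∃ q, p = q + 4 := ⟨p - 4, by omega⟩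
  rw [show q + 4 - 1 = q + 3 from rfl] at h5
  by_contra h
  push Not at h
  have h8 := Nat.mul_le_mul_right m h6
  have h9 : (q + 4) * ((q + 4) * d) ≤ (q + 4) * ((n + (q + 3) * f) * m) := Nat.mul_le_mul_left _ h5
  have h10 := Nat.mul_le_mul_left (q + 3) h8
  have h11 := Nat.mul_le_mul_left ((q + 4) * (q + 4)) h
  nlinarith [Nat.zero_le (q * q * (n * m)), Nat.zero_le (q * (n * m))]

theorem arith2 {p r j : ℕ} (hp : p.Prime) (h3 : 3 < p) (hr : r.Prime) (hj : 2 ≤ j)
    (h1 : r ≠ p → r ^ j ≡ 1 [MOD p]) (h2 : p ≤ r ^ j) : 4 * (r ^ j + (p - 1)) ≤ p * r ^ j := by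
  have h4 : r ^ 2 ∣ r ^ j := pow_dvd_pow r hj
  have h5 : r ^ 2 ≤ r ^ j := Nat.pow_le_pow_right hr.pos hj
  have h6 := hr.two_le
  generalize r ^ j = N at *
  by_cases h8 : 8 ≤ p
  · obtain ⟨q, rfl⟩ : ∃ q, p = q + 8 := ⟨p - 8, by omega⟩
    rw [show q + 8 - 1 = q + 7 from rfl]
    nlinarith
  · have h7 : p = 5 ∨ p = 7 := by
      have : p < 8 := by omega
      interval_cases p <;> first | omega | exact absurd hp (by decide)
    by_cases h9 : 4 ≤ r
    · have : 16 ≤ N := by nlinarith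
      rcases h7 with rfl | rfl <;> omega
    · have := h1 (by omega)
      unfold Nat.ModEq at this
      have : r = 2 ∨ r = 3 := by omega
      rcases this with rfl | rfl <;> rcases h7 with rfl | rfl <;> omega

/-- The group-theoretic form of the theorem: an irreducible elementary abelian section. -/
def GT (p : ℕ) (H : Type u) [Group H] : Prop :=
  ∀ x : H, x ^ p = 1 → normalClosure {x} = ⊤ → ∀ (Γ : Type u) [Group Γ] [Finite Γ] (f : H →* Γ)
    (A : Subgroup Γ) (r : ℕ), r.Prime → IsElementaryAbelian r A → (∀ h, f h ∈ normalizer (A : Set Γ)) →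
    (∀ B ≤ A, (∀ h, f h ∈ normalizer (B : Set Γ)) → B = ⊥ ∨ B = A) → ¬ A ≤ centralizer {f x} →
    Nat.card (A ⊓ centralizer {f x} : Subgroup Γ) ^ 2 < Nat.card A

section core
variable {K W : Type*} [Field K] [AddCommGroup W] [Module K W] [FiniteDimensional K W]
  {G : Type u} [Group G] [Finite G] {p : ℕ} [hp : Fact p.Prime] {ρ : G →* End K W}

omit [FiniteDimensional K W] [Finite G] in
theorem rho_inj (ρ : G →* End K W) (g : G) : Function.Injective (ρ g) := fun a b e => by
  rw [← rho_inv_self (ρ := ρ) g a, e, rho_inv_self]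

omit [Finite G] in
theorem central_scalar [IsAlgClosed K] [Nontrivial W] (hi : Irr ρ) {z : G} (hz : z ∈ center G) :
    ∃ a : K, ρ z = a • 1 :=
  hi.schur fun g => by rw [← map_mul, ← map_mul, mem_center_iff.1 hz]

theorem card_zpowers_eq {x : G} (hx : x ^ p = 1) (h1 : x ≠ 1) : Nat.card (zpowers x) = p := by
  rw [Nat.card_zpowers, orderOf_eq_prime hx h1]

/-- A noncentral abelian normal subgroup. -/
theorem abel_case [IsAlgClosed K] [Nontrivial W] (h3 : 3 < p) (hs : Group.IsSolvable G) (hi : Irr ρ)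
    (hf : Function.Injective ρ) {x : G} (hx : x ^ p = 1) (h1 : x ≠ 1) (hc : normalClosure {x} = ⊤)
    (A : Subgroup G) [A.Normal] [IsMulCommutative A] (hA : ¬ A ≤ center G) :
    2 * finrank K (LinearMap.ker (ρ x - 1)) < finrank K W := by
  classical
  obtain ⟨U, -, hU0, hU, hUi⟩ := exists_irr (fun a : A => ρ a) (W := ⊤) top_ne_bot fun _ _ _ => trivial
  have : Nontrivial U := Submodule.nontrivial_iff_ne_bot.2 hU0
  have h2 : ∀ a : G, ∃ c : K, a ∈ A → ∀ u ∈ U, ρ a u = c • u := fun a => by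
    by_cases ha : a ∈ A
    · obtain ⟨c, hc⟩ := hUi.schur (c := (ρ a).restrict (hU ⟨a, ha⟩)) fun b => LinearMap.ext fun v =>
        Subtype.ext (by
          change ρ b (ρ a v) = ρ a (ρ b v)
          rw [← rho_mul, ← rho_mul, setLike_mul_comm b.2 ha])
      exact ⟨c, fun _ u hu => congrArg Subtype.val (LinearMap.congr_fun hc ⟨u, hu⟩)⟩
    · exact ⟨0, fun h => absurd h ha⟩
  choose μ hμ using h2
  have hN : ∀ g : G, g ∈ normalizer (A : Set G) := fun g => by rw [normalizer_eq_top]; trivial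
  let V : G ⧸ stab A μ → Submodule K W := fun ω => wt ρ A fun z => μ (ω.out⁻¹ * z * ω.out)
  have hV : ∀ g : G, V (g : G ⧸ stab A μ) = wt ρ A fun z => μ (g⁻¹ * z * g) := fun g => by
    obtain ⟨h, e⟩ := QuotientGroup.mk_out_eq_mul (stab A μ) g
    ext v
    refine forall₂_congr fun z hz => ?_
    beta_reduce
    rw [e, ← h.2.2 (g⁻¹ * z * g) (by simpa using ‹A.Normal›.conj_mem z hz g⁻¹)]
    congr 3; group
  have hτ : ∀ (g : G) ω, ∀ v ∈ V ω, ρ g v ∈ V (g • ω) := fun g ω v hv => by
    induction ω using QuotientGroup.induction_on with | H h => ?_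
    rw [MulAction.Quotient.smul_mk, smul_eq_mul, hV]
    rw [hV] at hv
    convert rho_mem_wt (hN g) hv using 3
    group
  have hU1 : U ≤ V (1 : G) := fun u hu => by
    rw [hV]; intro z hz; simpa using hμ z hz u hu
  have hV1 : iSupIndep V := wt_indep ρ A _ fun ω ω' h => by
    rw [← ω.out_eq', ← ω'.out_eq', QuotientGroup.eq]
    refine ⟨hN _, fun z hz => ?_⟩
    have := h (ω.out * z * ω.out⁻¹) (‹A.Normal›.conj_mem z hz _)
    rw [show ω.out⁻¹ * (ω.out * z * ω.out⁻¹) * ω.out = z by group] at this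
    rw [this]; congr 1; group
  have hV2 : iSup V = ⊤ := (hi _ fun g v hv => by
    induction hv using Submodule.iSup_induction' with
    | mem ω v hv => exact Submodule.mem_iSup_of_mem _ (hτ g ω v hv)
    | zero => simp
    | add a b _ _ ha hb => rw [map_add]; exact add_mem ha hb).resolve_left fun e =>
      hU0 (le_bot_iff.1 (hU1.trans (e ▸ le_iSup V _)))
  have hm : ∀ ω, finrank K (V ω) = finrank K (V (1 : G)) := fun ω => by
    induction ω using QuotientGroup.induction_on with | H h => ?_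
    refine le_antisymm (finrank_le_of_map (rho_inj ρ h⁻¹) fun v hv => ?_)
      (finrank_le_of_map (rho_inj ρ h) fun v hv => ?_)
    · simpa using hτ h⁻¹ _ v hv
    · simpa using hτ h _ v hv
  have hS : stab A μ ≠ ⊤ := fun e => hA fun a ha => mem_center_iff.2 fun g => hf (by
    have : Subsingleton (G ⧸ stab A μ) := by rw [e]; exact QuotientGroup.subsingleton_quotient_top
    have h4 : ∀ v, v ∈ V (1 : G) := fun v => by
      refine (?_ : ⊤ ≤ V (1 : G)) trivial
      rw [← hV2]
      exact iSup_le fun ω => (congrArg V (Subsingleton.elim _ _)).le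
    ext v
    rw [rho_mul, rho_mul, h4 v a ha, h4 (ρ g v) a ha, map_smul])
  obtain ⟨h4, h5⟩ := perm_bound hp.1 (card_zpowers_eq hx h1) hV1 hV2 hm (ρ.comp (zpowers x).subtype)
    (fun g ω v hv => hτ g ω v hv) (x := ⟨x, mem_zpowers x⟩) fun e => h1 (congrArg Subtype.val e)
  have h6 := ratio' hs hS hx hc
  change p * finrank K (LinearMap.ker (ρ x - 1)) ≤
    (_ + (p - 1) * Nat.card (MulAction.fixedBy (G ⧸ stab A μ) x)) * _ at h5
  have h7 : 0 < finrank K W := finrank_pos
  rw [h4] at h7 ⊢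
  exact arith1 h3 h5 h6 h7

/-- A normal subgroup of class two whose centre is the centre of the group. -/
theorem nonab_count [IsAlgClosed K] [Nontrivial W] (hi : Irr ρ) (hf : Function.Injective ρ) {x : G}
    (hx : x ^ p = 1) (h1 : x ∉ center G) (A : Subgroup (G ⧸ center G)) [hA : A.Normal] [IsMulCommutative A]
    (hZ : ∀ b : G, (b : G ⧸ center G) ∈ A → (∀ a : G, (a : G ⧸ center G) ∈ A → a * b = b * a) → b ∈ center G)
    (hN : (Nat.card A : K) ≠ 0) : ∃ m e, finrank K W ^ 2 = Nat.card A * m ∧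
      finrank K (LinearMap.ker (ρ x - 1)) ^ 2 < e ∧ p * e ≤ (Nat.card A + (p - 1) *
        Nat.card (A ⊓ centralizer {(x : G ⧸ center G)} : Subgroup (G ⧸ center G))) * m := by
  classical
  have := Fintype.ofFinite A
  have h2 : ∀ z : G, ∃ c : K, z ∈ center G → ρ z = c • 1 := fun z => by
    by_cases hz : z ∈ center G
    · exact (central_scalar hi hz).imp fun _ h _ => h
    · exact ⟨0, fun h => absurd h hz⟩
  choose c hc using h2
  have oe : ∀ g : G ⧸ center G, ((g.out : G) : G ⧸ center G) = g := QuotientGroup.out_eq'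
  have hinv : ∀ g : G, ρ g * ρ g⁻¹ = 1 := fun g => by rw [← map_mul, mul_inv_cancel, map_one]
  let τ : G ⧸ center G →* End K (End K W) := QuotientGroup.lift _ (Representation.linHom ρ ρ) fun z hz =>
    LinearMap.ext fun T => by
      change ρ z * (T * ρ z⁻¹) = T
      rw [hc _ (inv_mem hz), mul_smul_comm, mul_one, mul_smul_comm, ← smul_mul_assoc, ← mul_one (ρ z),
        ← mul_smul_comm, ← hc _ (inv_mem hz), hinv, one_mul]
  have hτ : ∀ (g : G) T, τ g T = ρ g * (T * ρ g⁻¹) := fun _ _ => rfl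
  have hτm : ∀ (g a : G) T, τ g (ρ a * T) = ρ (g * a * g⁻¹) * τ g T := fun g a T => by
    simp only [hτ, ← mul_assoc, ← map_mul, inv_mul_cancel_right]
  have hτo : ∀ (g : G ⧸ center G) (a : G) T, τ g (ρ a * T) = ρ (g.out * a * g.out⁻¹) * τ g T :=
    fun g a T => by have := hτm g.out a T; rwa [oe] at this
  let U : A → Submodule K (End K W) := fun ω => (fix τ A).map (LinearMap.mulLeft K (ρ ω.1.out))
  have hU : ∀ (a : G) (ω : A), (a : G ⧸ center G) = ω → ∀ T ∈ fix τ A, ρ a * T ∈ U ω := fun a ω e T hT => by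
    have h3 : ω.1.out⁻¹ * a ∈ center G := by rw [← QuotientGroup.eq, oe ω.1, e]
    refine ⟨c (ω.1.out⁻¹ * a) • T, Submodule.smul_mem _ _ hT, ?_⟩
    rw [LinearMap.mulLeft_apply, ← one_mul T, ← smul_mul_assoc, ← hc _ h3, ← mul_assoc, ← map_mul,
      mul_inv_cancel_left, one_mul]
  have hcm : ∀ a b : G, (a : G ⧸ center G) ∈ A → (b : G ⧸ center G) ∈ A → ⁅a, b⁆ ∈ center G :=
    fun a b ha hb => by
      rw [← QuotientGroup.eq_one_iff]
      change ⁅(a : G ⧸ center G), (b : G ⧸ center G)⁆ = 1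
      exact commutatorElement_eq_one_iff_mul_comm.2 (setLike_mul_comm ha hb)
  have hout : ∀ β ∈ A, ((β.out : G) : G ⧸ center G) ∈ A := fun β h => by rwa [oe β]
  have hw : ∀ b : G, (b : G ⧸ center G) ∈ A → ∀ T ∈ fix τ A, ρ b * T ∈ wt τ A fun β => c ⁅β.out, b⁆ :=
    fun b hb T hT β hβ => by
      beta_reduce
      rw [hτo, hT β hβ, ← smul_mul_assoc, ← one_mul (ρ b), ← smul_mul_assoc,
        ← hc _ (hcm _ _ (hout β hβ) hb), ← map_mul, commutatorElement_def, inv_mul_cancel_right]
  have hZ' : ∀ b : G, (b : G ⧸ center G) ∈ A → (∀ β ∈ A, β.out * b = b * β.out) → b ∈ center G :=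
    fun b hb h => hZ b hb fun a ha => by
      obtain ⟨z, e⟩ := QuotientGroup.mk_out_eq_mul (center G) a
      have := h a ha
      rw [e, mul_assoc, ← mem_center_iff.1 z.2, ← mul_assoc, ← mul_assoc] at this
      exact mul_right_cancel this
  have hU1 : iSupIndep U := (wt_indep τ A (fun (ω : A) β => c ⁅β.out, ω.1.out⁆) fun ω ω' h => by
    refine Subtype.ext ?_
    rw [← oe ω.1, ← oe ω'.1, QuotientGroup.eq]
    refine hZ' _ (A.mul_mem (A.inv_mem (hout _ ω.2)) (hout _ ω'.2)) fun β hβ => ?_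
    have h3 : ⁅β.out, ω.1.out⁆ = ⁅β.out, ω'.1.out⁆ := hf (by
      rw [hc _ (hcm _ _ (hout β hβ) (hout _ ω.2)), hc _ (hcm _ _ (hout β hβ) (hout _ ω'.2)), h β hβ])
    calc _ = β.out * ω.1.out⁻¹ * β.out⁻¹ * ⁅β.out, ω.1.out⁆ * ⁅β.out, ω'.1.out⁆⁻¹ * β.out * ω'.1.out := by
          rw [h3]; group
      _ = _ := by simp only [commutatorElement_def]; group).mono (by
    rintro ω _ ⟨T, hT, rfl⟩
    exact hw _ (hout _ ω.2) T hT)
  have hU2 : iSup U = ⊤ := top_le_iff.1 fun T _ => by
    have h3 : ∀ β : A, (∑ α : A, τ α (ρ β.1.out * 1)) * (T * ρ β.1.out⁻¹) =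
        if β = 1 then (Nat.card A : K) • T else 0 := fun β => by
      split_ifs with e
      · have h4 : β.1.out ∈ center G := by rw [← QuotientGroup.eq_one_iff, oe β.1, e]; rfl
        have h5 : ∀ α : A, τ α (ρ β.1.out * 1) = ρ β.1.out := fun α => by
          rw [hτo, mem_center_iff.1 h4, mul_inv_cancel_right, ← oe α.1, hτ, one_mul, hinv, mul_one]
        have h6 : τ β.1.out T = T := by rw [oe β.1, e]; simp
        simp only [h5, Finset.sum_const, Finset.card_univ, smul_mul_assoc, ← hτ, h6]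
        rw [Nat.card_eq_fintype_card, Nat.cast_smul_eq_nsmul]
      · have h4 : β.1.out ∉ center G := by
          rw [← QuotientGroup.eq_one_iff, oe β.1]; exact fun h => e (Subtype.ext h)
        obtain ⟨γ, hγ, h5⟩ : ∃ γ ∈ A, γ.out * β.1.out ≠ β.1.out * γ.out := by
          by_contra hh
          push Not at hh
          exact h4 (hZ' _ (hout _ β.2) hh)
        have h1C : (1 : End K W) ∈ fix τ A := fun α _ => by rw [← oe α, hτ, one_mul, hinv]
        have h6 : ∑ α : A, τ α (ρ β.1.out * 1) ∈ wt τ A fun γ => c ⁅γ.out, β.1.out⁆ :=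
          Submodule.sum_mem _ fun α _ => by
            rw [hw _ (hout _ β.2) 1 h1C α α.2]
            exact Submodule.smul_mem _ _ (hw _ (hout _ β.2) 1 h1C)
        have h7 := (sum_mem_fix A _ γ hγ).symm.trans (h6 γ hγ)
        have h8 : (1 : K) - c ⁅γ.out, β.1.out⁆ ≠ 0 := fun e' => h5 (by
          rw [← commutatorElement_eq_one_iff_mul_comm]
          refine hf ?_
          rw [hc _ (hcm _ _ (hout γ hγ) (hout _ β.2)), ← sub_eq_zero.1 e', one_smul, map_one])
        have h9 : (1 - c ⁅γ.out, β.1.out⁆) • ∑ α : A, τ α (ρ β.1.out * 1) = 0 := by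
          rw [sub_smul, one_smul, ← h7, sub_self]
        rw [(smul_eq_zero.1 h9).resolve_left h8, zero_mul]
    have h4 : ∑ α : A, ρ α.1.out * ∑ β : A, τ β (ρ α.1.out⁻¹ * T) = (Nat.card A : K) • T := by
      rw [← Finset.sum_ite_eq_of_mem' Finset.univ (1 : A) (fun _ => (Nat.card A : K) • T)
        (Finset.mem_univ _)]
      simp only [← h3, Finset.mul_sum, Finset.sum_mul]
      rw [Finset.sum_comm]
      refine Finset.sum_congr rfl fun β _ => Finset.sum_congr rfl fun α _ => ?_
      have hτ' : ∀ (g : G ⧸ center G) T, τ g T = ρ g.out * (T * ρ g.out⁻¹) := fun g T => by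
        rw [← hτ, oe]
      simp only [hτ', mul_assoc, mul_one]
    rw [← one_smul K T, ← inv_mul_cancel₀ hN, mul_smul, ← h4]
    exact Submodule.smul_mem _ _ (Submodule.sum_mem _ fun α _ => Submodule.mem_iSup_of_mem α
      (hU _ α (oe α.1) _ (sum_mem_fix A _)))
  have hm : ∀ ω, finrank K (U ω) = finrank K (fix τ A) := fun ω =>
    (Submodule.equivMapOfInjective _ (fun S T e => by
      have := congrArg (ρ ω.1.out⁻¹ * ·) e
      simpa [← mul_assoc, ← map_mul] using this) _).finrank_eq.symm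
  have hx1 : (x : G ⧸ center G) ≠ 1 := by rwa [Ne, QuotientGroup.eq_one_iff]
  have hx2 : (x : G ⧸ center G) ^ p = 1 := by rw [← QuotientGroup.mk_pow, hx, QuotientGroup.mk_one]
  let : MulAction (zpowers (x : G ⧸ center G)) A :=
    MulAction.compHom A ((MulAut.conjNormal (H := A)).comp (zpowers _).subtype)
  obtain ⟨h4, h5⟩ := perm_bound hp.1 (card_zpowers_eq hx2 hx1) hU1 hU2 hm (τ.comp (zpowers _).subtype)
    (by
      rintro g ω _ ⟨T, hT, rfl⟩
      change τ g (ρ _ * T) ∈ _
      rw [hτo]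
      refine hU _ _ ?_ _ (inv_fix (S := ⊤) (by rw [normalizer_eq_top]) _ trivial T hT)
      simp only [QuotientGroup.mk_mul, QuotientGroup.mk_inv, QuotientGroup.out_eq']
      rfl) (x := ⟨x, mem_zpowers _⟩) fun e => hx1 (congrArg Subtype.val e)
  refine ⟨_, _, by rw [← h4, finrank_linearMap, pow_two], sq_lt_commutant (fun e => h1 ?_)
    fun T hT => ?_, h5.trans_eq ?_⟩
  · rw [hf (e.trans ρ.map_one.symm)]; exact one_mem _
  · refine sub_eq_zero.2 ?_
    change ρ x * (T * ρ x⁻¹) = T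
    rw [← mul_assoc, hT, mul_assoc, hinv, mul_one]
  · congr 3
    exact Nat.card_congr
      { toFun := fun y => ⟨y.1, y.1.2, mem_centralizer_singleton_iff.2 (eq_mul_of_mul_inv_eq
          (congrArg Subtype.val y.2)).symm⟩
        invFun := fun y => ⟨⟨y.1, y.2.1⟩, Subtype.ext (mul_inv_eq_iff_eq_mul.2
          (mem_centralizer_singleton_iff.1 y.2.2).symm)⟩
        left_inv := fun _ => rfl
        right_inv := fun _ => rfl }

theorem core [IsAlgClosed K] [Nontrivial W] (h3 : 3 < p) (hs : Group.IsSolvable G) (hi : Irr ρ)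
    (hf : Function.Injective ρ) {x : G} (hx : x ^ p = 1) (h1 : x ≠ 1) (hc : normalClosure {x} = ⊤)
    (ih : ∀ (H : Type u) [Group H] [Finite H], Nat.card H < Nat.card G → Group.IsSolvable H → GT p H) :
    2 * finrank K (LinearMap.ker (ρ x - 1)) < finrank K W := by
  have hD : 0 < finrank K W := finrank_pos
  have hone : ∀ g : G, ρ g = (1 : K) • 1 → g = 1 := fun g e => hf (by rw [e, one_smul, map_one])
  by_cases hxc : x ∈ center G
  · obtain ⟨a, ha⟩ := central_scalar hi hxc
    have : LinearMap.ker (ρ x - 1) = ⊥ := (Submodule.eq_bot_iff _).2 fun v hv => by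
      have h2 : (a - 1) • v = 0 := by simpa [ha, sub_smul] using hv
      exact (smul_eq_zero.1 h2).resolve_left fun e => h1 (hone x (by rw [ha, sub_eq_zero.1 e]))
    rwa [this, finrank_bot]
  have hx1 : (x : G ⧸ center G) ≠ 1 := by rwa [Ne, QuotientGroup.eq_one_iff]
  have hx2 : (x : G ⧸ center G) ^ p = 1 := by rw [← QuotientGroup.mk_pow, hx, QuotientGroup.mk_one]
  have : Nontrivial (G ⧸ center G) := ⟨_, _, hx1⟩
  obtain ⟨A, r, hA, hr, hAe⟩ := Core.exists_isMinNormal_elementary (G := G ⧸ center G)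
  have := hA.normal
  have : IsMulCommutative A := hAe.1
  have := Fact.mk hr
  let B := A.comap (QuotientGroup.mk' (center G))
  have hB : ¬ B ≤ center G := fun h => hA.ne_bot (eq_bot_iff.2 fun a ha => by
    induction a using QuotientGroup.induction_on with | H a => ?_
    exact (QuotientGroup.eq_one_iff a).2 (h ha))
  by_cases hab : ∀ a ∈ B, ∀ b ∈ B, a * b = b * a
  · have : IsMulCommutative B := ⟨⟨fun a b => Subtype.ext (hab a a.2 b b.2)⟩⟩
    exact abel_case h3 hs hi hf hx h1 hc B hB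
  have hZ : ∀ b ∈ B, (∀ a ∈ B, a * b = b * a) → b ∈ center G := fun b hb h => by
    rcases hA.min ((B ⊓ centralizer B).map (QuotientGroup.mk' _))
      (Normal.map inferInstance _ (QuotientGroup.mk'_surjective _))
      (map_le_iff_le_comap.2 inf_le_left) with e | e
    · exact (QuotientGroup.eq_one_iff b).1 (mem_bot.1 (e ▸ mem_map_of_mem _ ⟨hb, h⟩))
    · refine absurd (fun a ha b hb => ?_) hab
      obtain ⟨b', hb', e'⟩ : (b : G ⧸ center G) ∈ (B ⊓ centralizer B).map (QuotientGroup.mk' _) :=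
        e.symm ▸ hb
      have h2 := mem_center_iff.1 (QuotientGroup.eq.1 e') a
      rw [← mul_inv_cancel_left b' b, ← mul_assoc a, hb'.2 a ha, mul_assoc, h2, ← mul_assoc]
  have hcm : ∀ a ∈ B, ∀ b ∈ B, ⁅a, b⁆ ∈ center G := fun a ha b hb => by
    rw [← QuotientGroup.eq_one_iff]
    change ⁅(a : G ⧸ center G), (b : G ⧸ center G)⁆ = 1
    exact commutatorElement_eq_one_iff_mul_comm.2 (setLike_mul_comm (s := A) ha hb)
  have hpow : ∀ (a b : G) (n : ℕ), ⁅a, b⁆ ∈ center G → ⁅a, b⁆ ^ n = ⁅a ^ n, b⁆ := fun a b n h => by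
    induction n with
    | zero => simp
    | succ n ihn =>
      rw [pow_succ, ihn, pow_succ]
      calc _ = a ^ n * (b * (a ^ n)⁻¹ * b⁻¹ * ⁅a, b⁆) := by simp only [commutatorElement_def, mul_assoc]
        _ = a ^ n * ⁅a, b⁆ * (b * (a ^ n)⁻¹ * b⁻¹) := by rw [mem_center_iff.1 h, ← mul_assoc]
        _ = _ := by simp only [commutatorElement_def]; group
  push Not at hab
  obtain ⟨a, ha, b, hb, hab⟩ := hab
  rw [Ne, ← commutatorElement_eq_one_iff_mul_comm] at hab
  by_cases hcen : A ≤ centralizer {(x : G ⧸ center G)}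
  · obtain ⟨y, hy, hxy⟩ : ∃ y ∈ B, ⁅x, y⁆ ≠ 1 := by
      by_contra h
      push Not at h
      refine hB fun y hy => mem_center_iff.2 fun g => ?_
      have : normalClosure {x} ≤ centralizer (B : Set G) := normalClosure_le_normal (by
        rintro _ rfl w hw
        exact (commutatorElement_eq_one_iff_mul_comm.1 (h w hw)).symm)
      exact (this (hc ▸ mem_top g) y hy).symm
    have hz : ⁅x, y⁆ ∈ center G := by
      rw [← QuotientGroup.eq_one_iff]
      change ⁅(x : G ⧸ center G), (y : G ⧸ center G)⁆ = 1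
      exact commutatorElement_eq_one_iff_mul_comm.2 (mem_centralizer_singleton_iff.1 (hcen hy)).symm
    obtain ⟨ζ, hζ⟩ := central_scalar hi hz
    have h2 : ζ ^ p = 1 := by
      have := congrArg ρ (hpow x y p hz)
      rw [hx, commutatorElement_one_left, map_pow, hζ, map_one, smul_pow, one_pow] at this
      exact smul_left_injective K (one_ne_zero (α := End K W)) (this.trans (one_smul _ _).symm)
    have h4 : IsPrimitiveRoot ζ p := by
      rw [← orderOf_eq_prime h2 fun e => hxy (hone _ (e ▸ hζ))]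
      exact IsPrimitiveRoot.orderOf ζ
    have h5 := eig_bound (X := ρ x) (rho_inj ρ y) h4 (by
      rw [← one_mul (ρ y * ρ x), ← smul_mul_assoc, ← hζ, ← map_mul, ← map_mul, ← map_mul]
      congr 1; simp only [commutatorElement_def]; group) one_ne_zero
    rw [End.eigenspace_def, one_smul] at h5
    nlinarith
  obtain ⟨j, hj0, hj, hj1, hj2⟩ := index_cen hr A (Core.isPGroup_of_isElementaryAbelian hAe) hx2 hcen
  have h2 := ih (G ⧸ center G) (Core.card_quotient_lt fun e => hab (mem_bot.1 (e ▸ hcm a ha b hb)))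
    inferInstance x hx2 (by
      have := map_normalClosure {x} (QuotientGroup.mk' (center G)) (QuotientGroup.mk'_surjective _)
      rw [hc, Set.image_singleton, map_top_of_surjective _ (QuotientGroup.mk'_surjective _)] at this
      exact this.symm) _ (MonoidHom.id _) A r hr hAe (fun h => by rw [normalizer_eq_top]; trivial)
    (fun C hC h => hA.min_invariant C (fun g _ => h g) hC) hcen
  rw [MonoidHom.id_apply] at h2
  obtain ⟨n, hn⟩ := IsPGroup.iff_card.1 (Core.isPGroup_of_isElementaryAbelian hAe)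
  have hj3 : 2 ≤ j := by
    by_contra h
    obtain rfl : j = 1 := by omega
    obtain ⟨i, -, hi⟩ := (Nat.dvd_prime_pow hr).1 (hn ▸ Dvd.intro_left _ hj.symm)
    rw [hi] at h2 hj
    rw [hj, ← pow_mul, ← pow_add, Nat.pow_lt_pow_iff_right hr.one_lt] at h2
    obtain rfl : i = 0 := by omega
    rw [pow_zero, mul_one, pow_one] at hj
    have h4 : b ∉ center G := fun h => hab (commutatorElement_eq_one_iff_mul_comm.2 (mem_center_iff.1 h a))
    refine h4 (hZ b hb fun w hw => ?_)
    obtain ⟨k, hk⟩ := mem_zpowers_of_prime_card hj (g := ⟨b, hb⟩)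
      (fun e => h4 ((QuotientGroup.eq_one_iff b).1 (congrArg Subtype.val e))) (g' := ⟨w, hw⟩)
    have h5 := mem_center_iff.1 (QuotientGroup.eq.1 (congrArg Subtype.val hk :
      ((b ^ k : G) : G ⧸ center G) = w)) b
    rw [← mul_inv_cancel_left (b ^ k) w, mul_assoc, ← h5, ← mul_assoc, ← mul_assoc b,
      (Commute.zpow_self b k).eq]
  have hN : (Nat.card A : K) ≠ 0 := by
    rw [hn, Nat.cast_pow]
    refine pow_ne_zero _ fun e => hab (hone _ ?_)
    have := (CharP.charP_iff_prime_eq_zero hr).2 e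
    obtain ⟨c, hc⟩ := central_scalar hi (hcm a ha b hb)
    have h4 : ⁅a ^ r, b⁆ = 1 := commutatorElement_eq_one_iff_mul_comm.2 (mem_center_iff.1
      ((QuotientGroup.eq_one_iff _).1 (hAe.2 _ ha)) b).symm
    have h5 := congrArg ρ (hpow a b r (hcm a ha b hb))
    rw [h4, map_pow, hc, map_one, smul_pow, one_pow] at h5
    have h6 : c ^ r = 1 :=
      smul_left_injective K (one_ne_zero (α := End K W)) (h5.trans (one_smul _ _).symm)
    have h7 : (c - 1) ^ r = 0 := by rw [sub_pow_char, h6, one_pow, sub_self]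
    rw [hc, sub_eq_zero.1 (pow_eq_zero_iff hr.ne_zero |>.1 h7)]
  obtain ⟨m, e, h4, h5, h6⟩ := nonab_count hi hf hx hxc A hZ hN
  have h7 := Nat.mul_le_mul_right (Nat.card (A ⊓ centralizer {(x : G ⧸ center G)} :
    Subgroup (G ⧸ center G)) * m) (arith2 hp.1 h3 hr hj3 hj1 hj2)
  rw [hj] at h4 h6
  have h8 : 4 * e ≤ finrank K W ^ 2 := Nat.le_of_mul_le_mul_left (by rw [h4]; nlinarith) hp.1.pos
  exact lt_of_pow_lt_pow_left₀ 2 (Nat.zero_le _) (by rw [mul_pow]; omega)

end core

end Cfsg.Lib.HH.Half
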