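import Cfsg.Agent.Lib.HH.HalfB

/-!
# The fixed space of an element of prime order `p > 3` in a solvable group: arbitrary fields
-/

set_option autoImplicit false

namespace Cfsg.Lib.HH.Half

open Module Subgroup ModB
open scoped TensorProduct

universe u

variable {p : ℕ} [hp : Fact p.Prime]

section
variable {K W : Type*} [Field K] [AddCommGroup W] [Module K W] [FiniteDimensional K W]
  {G : Type u} [Group G] [Finite G] {ρ : G →* End K W}

omit hp [FiniteDimensional K W] in
theorem of_faithful (hs : Group.IsSolvable G) (hi : Irr ρ) {x : G} (hx : x ^ p = 1) (h1 : ρ x ≠ 1)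
    (hc : normalClosure {x} = ⊤)
    (h : ∀ (H : Type u) [Group H] [Finite H] (σ : H →* End K W) (y : H), Nat.card H ≤ Nat.card G →
      Group.IsSolvable H → Irr σ → Function.Injective σ → y ^ p = 1 → y ≠ 1 → normalClosure {y} = ⊤ →
      2 * finrank K (LinearMap.ker (σ y - 1)) < finrank K W) :
    2 * finrank K (LinearMap.ker (ρ x - 1)) < finrank K W :=
  h (G ⧸ ρ.ker) (QuotientGroup.lift ρ.ker ρ fun _ h => h) x
    (Nat.card_le_card_of_surjective _ QuotientGroup.mk_surjective) inferInstance
    (fun U hU => hi U fun g => hU g) (fun a b e => by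
      induction a using QuotientGroup.induction_on with | H a => ?_
      induction b using QuotientGroup.induction_on with | H b => ?_
      refine QuotientGroup.eq.2 (MonoidHom.mem_ker.2 ?_)
      have e' : ρ a = ρ b := e
      rw [map_mul, ← e', ← map_mul, inv_mul_cancel, map_one])
    (by rw [← QuotientGroup.mk_pow, hx, QuotientGroup.mk_one])
    (fun e => h1 ((QuotientGroup.eq_one_iff x).1 e)) (by
      have := map_normalClosure {x} (QuotientGroup.mk' ρ.ker) (QuotientGroup.mk'_surjective _)
      rw [hc, Set.image_singleton, map_top_of_surjective _ (QuotientGroup.mk'_surjective _)] at this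
      exact this.symm)

end

theorem closed {K : Type*} [Field K] [IsAlgClosed K] {G : Type u} [Group G] [Finite G] (h3 : 3 < p)
    (hs : Group.IsSolvable G) {x : G} (hx : x ^ p = 1) (hc : normalClosure {x} = ⊤)
    (ih : ∀ (H : Type u) [Group H] [Finite H], Nat.card H < Nat.card G → Group.IsSolvable H → GT p H)
    (s : Finset G) (hs0 : (s.card : K) ≠ 0) (n : ℕ) : ∀ (W : Type*) [AddCommGroup W] [Module K W]
    [FiniteDimensional K W] [Nontrivial W] (ρ : G →* End K W), finrank K W = n → ∑ g ∈ s, ρ g = 0 →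
    2 * finrank K (LinearMap.ker (ρ x - 1)) < finrank K W := by
  induction n using Nat.strong_induction_on with | _ n ihn => ?_
  intro W _ _ _ _ ρ hn h0
  by_cases hi : Irr ρ
  · refine of_faithful hs hi hx (fun e => ?_) hc fun H _ _ σ y h1 h2 h4 h5 h6 h7 h8 =>
      core h3 h2 h4 h5 h6 h7 h8 fun H' _ _ h9 => ih H' (h9.trans_le h1)
    have h1 : normalClosure {x} ≤ ρ.ker := normalClosure_le_normal (by rintro _ rfl; exact e)
    rw [Finset.sum_congr rfl (g := fun _ => 1) fun g _ => h1 (hc ▸ mem_top g), Finset.sum_const,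
      ← Nat.cast_smul_eq_nsmul K, smul_eq_zero] at h0
    exact h0.elim hs0 one_ne_zero
  obtain ⟨U, hU, h1⟩ : ∃ U : Submodule K W, (∀ g, ∀ w ∈ U, ρ g w ∈ U) ∧ ¬ (U = ⊥ ∨ U = ⊤) := by
    simpa only [Irr, not_forall, exists_prop] using hi
  rw [not_or] at h1
  have : Nontrivial U := Submodule.nontrivial_iff_ne_bot.2 h1.1
  have : Nontrivial (W ⧸ U) := Submodule.Quotient.nontrivial_iff.2 h1.2
  have h2 := U.finrank_quotient_add_finrank
  have h4 : 0 < finrank K U := finrank_pos
  have h5 : 0 < finrank K (W ⧸ U) := finrank_pos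
  have h6 := ihn _ (by omega) U (Representation.subrepresentation ρ U hU) rfl (by
    ext v
    simpa using LinearMap.congr_fun h0 v)
  have h7 := ihn _ (by omega) (W ⧸ U) (Representation.quotient ρ U hU) rfl (by
    ext v
    have := congrArg U.mkQ (LinearMap.congr_fun h0 v)
    simpa using this)
  refine (Nat.mul_le_mul_left 2 (ker_le_add (hU x))).trans_lt ?_
  rw [mul_add, ← h2, add_comm (finrank K (W ⧸ U))]
  exact add_lt_add h6 h7

theorem general {k V : Type*} [Field k] [AddCommGroup V] [Module k V] [FiniteDimensional k V]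
    [Nontrivial V] {G : Type u} [Group G] [Finite G] (h3 : 3 < p) (hs : Group.IsSolvable G)
    {ρ : G →* End k V} (hi : Irr ρ) {x : G} (hx : x ^ p = 1) (h1 : ρ x ≠ 1) (hc : normalClosure {x} = ⊤)
    (ih : ∀ (H : Type u) [Group H] [Finite H], Nat.card H < Nat.card G → Group.IsSolvable H → GT p H) :
    2 * finrank k (LinearMap.ker (ρ x - 1)) < finrank k V := by
  refine of_faithful hs hi hx h1 hc fun H _ _ σ y h1 h2 h4 h5 h6 h7 h8 => ?_
  classical
  have : Nontrivial H := ⟨_, _, h7⟩
  obtain ⟨N, r, hN, hr, hNe⟩ := Core.exists_isMinNormal_elementary (G := H)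
  have := hN.normal
  have : IsMulCommutative N := hNe.1
  have := Fact.mk hr
  have := Fintype.ofFinite N
  have hf : fix σ N = ⊥ := (h4 _ fun g => inv_fix (S := ⊤) (by rw [normalizer_eq_top]) g trivial).resolve_right
    fun e => hN.ne_bot (eq_bot_iff.2 fun n hn => h5 (by
      rw [map_one]; exact LinearMap.ext fun v => (e.ge trivial : v ∈ fix σ N) n hn))
  have hN0 : (Fintype.card N : k) ≠ 0 := by
    obtain ⟨n, hn⟩ := IsPGroup.iff_card.1 (Core.isPGroup_of_isElementaryAbelian hNe)
    rw [← Nat.card_eq_fintype_card, hn, Nat.cast_pow]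
    refine pow_ne_zero _ fun e => ?_
    have := (CharP.charP_iff_prime_eq_zero hr).2 e
    obtain ⟨U, -, hU0, hU, hUi⟩ := exists_irr (fun a : N => σ a) (W := ⊤) top_ne_bot fun _ _ _ => trivial
    have : Nontrivial U := Submodule.nontrivial_iff_ne_bot.2 hU0
    refine hU0 (le_bot_iff.1 (hf ▸ fun u hu a ha => ?_))
    let X : End k U := (σ a).restrict (hU ⟨a, ha⟩)
    have : CharP (End k U) r := charP_of_injective_algebraMap (algebraMap k _).injective r
    have h9 : (X - 1) ^ r = 0 := by
      rw [sub_pow_char_of_commute _ (Commute.one_right X), one_pow, sub_eq_zero]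
      ext v
      rw [End.pow_restrict, LinearMap.restrict_coe_apply, ← map_pow, hNe.2 a ha, map_one]
      rfl
    rcases hUi (LinearMap.ker (X - 1)) (fun b w hw => Subtype.ext (by
      have : σ a w = w := congrArg Subtype.val (sub_eq_zero.1 hw)
      change σ a (σ b w) - σ b w = 0
      rw [← rho_mul, setLike_mul_comm ha b.2, rho_mul, this, sub_self])) with e' | e'
    · exact absurd h9 ((LinearMap.isUnit_iff_ker_eq_bot _).2 e' |>.pow r).ne_zero
    · exact congrArg Subtype.val (sub_eq_zero.1 (e'.ge trivial : (⟨u, hu⟩ : U) ∈ LinearMap.ker (X - 1)))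
  let K := AlgebraicClosure k
  let τ : H →* End K (K ⊗[k] V) := (End.baseChangeHom k K V).toRingHom.toMonoidHom.comp σ
  have : Nontrivial (K ⊗[k] V) := nontrivial_of_finrank_pos (R := K) (by
    rw [finrank_baseChange]; exact finrank_pos)
  have h9 := closed (K := K) h3 h2 h6 h8 (fun H' _ _ h9 => ih H' (h9.trans_le h1))
    (Finset.univ.map ⟨N.subtype, N.subtype_injective⟩) (by
      rw [Finset.card_map, Finset.card_univ, ← map_natCast (algebraMap k K)]
      exact (map_ne_zero _).2 hN0) _ (K ⊗[k] V) τ rfl (by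
      rw [Finset.sum_map]
      change ∑ g : N, End.baseChangeHom k K V (σ g) = 0
      rw [← map_sum, show ∑ g : N, σ g = 0 from LinearMap.ext fun v => by
        rw [LinearMap.sum_apply]; exact (Submodule.mem_bot k).1 (hf ▸ sum_mem_fix N v), map_zero])
  rw [finrank_baseChange] at h9
  refine lt_of_le_of_lt (Nat.mul_le_mul_left _ ?_) h9
  rw [← finrank_baseChange (R := K)]
  refine LinearMap.finrank_le_finrank_of_injective (f := ((LinearMap.ker (σ y - 1)).subtype.baseChange K).codRestrict
    _ fun v => ?_) fun a b e => Module.Flat.lTensor_preserves_injective_linearMap _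
      (Submodule.injective_subtype _) (congrArg Subtype.val e)
  have : τ y - 1 = (σ y - 1).baseChange K := by
    change _ = End.baseChangeHom k K V _
    rw [map_sub, map_one]; rfl
  rw [this, LinearMap.mem_ker, ← LinearMap.comp_apply, ← LinearMap.baseChange_comp,
    LinearMap.comp_ker_subtype, LinearMap.baseChange_zero, LinearMap.zero_apply]

theorem gt_aux {M : Type*} [AddCommGroup M] [Finite M] {r : ℕ} [hr : Fact r.Prime] (hM : ∀ m : M, r • m = 0)
    {G : Type u} [Group G] [Finite G] (h3 : 3 < p) (hs : Group.IsSolvable G) (φ : G →* AddMonoid.End M)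
    (hi : ∀ B : AddSubgroup M, (∀ g, ∀ m ∈ B, φ g m ∈ B) → B = ⊥ ∨ B = ⊤) {x : G} (hx : x ^ p = 1)
    (h1 : φ x ≠ 1) (hc : normalClosure {x} = ⊤)
    (ih : ∀ (H : Type u) [Group H] [Finite H], Nat.card H < Nat.card G → Group.IsSolvable H → GT p H) :
    Nat.card {m // φ x m = m} ^ 2 < Nat.card M := by
  obtain ⟨_⟩ : Nonempty (Module (ZMod r) M) := ⟨AddCommGroup.zmodModule hM⟩
  have : Module.Finite (ZMod r) M := Module.Finite.of_finite
  let ρ : G →* End (ZMod r) M :=
    { toFun := fun g => AddMonoidHom.toZModLinearMap r (φ g)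
      map_one' := LinearMap.ext fun a => DFunLike.congr_fun φ.map_one a
      map_mul' := fun g h => LinearMap.ext fun a => DFunLike.congr_fun (φ.map_mul g h) a }
  have : Nontrivial M := not_subsingleton_iff_nontrivial.1 fun _ =>
    h1 (AddMonoidHom.ext fun _ => Subsingleton.elim _ _)
  have h2 := general h3 hs (ρ := ρ) (fun U hU => (hi U.toAddSubgroup hU).imp
    (fun e => (Submodule.eq_bot_iff _).2 fun a ha => AddSubgroup.mem_bot.1 (e.le ha))
    fun e => Submodule.eq_top_iff'.2 fun a => e.ge trivial) hx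
    (fun e => h1 (AddMonoidHom.ext fun a => LinearMap.congr_fun e a)) hc ih
  have h4 : Nat.card {m // φ x m = m} = r ^ finrank (ZMod r) (LinearMap.ker (ρ x - 1)) := by
    have := Module.natCard_eq_pow_finrank (K := ZMod r) (V := LinearMap.ker (ρ x - 1))
    rw [Nat.card_zmod] at this
    rw [← this]
    exact Nat.card_congr (Equiv.subtypeEquivRight fun _ => sub_eq_zero.symm)
  rw [h4, Module.natCard_eq_pow_finrank (K := ZMod r), Nat.card_zmod, ← pow_mul, mul_comm]
  exact Nat.pow_lt_pow_right hr.1.one_lt h2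

open scoped IsMulCommutative in
theorem gt (h3 : 3 < p) (G : Type u) [Group G] [Finite G] : Group.IsSolvable G → GT p G := by
  refine Core.induction_on_card (P := fun G _ _ => Group.IsSolvable G → GT p G) G fun G _ _ ih => ?_
  intro hs x hx hc Γ _ _ f A r hr hA hn hmin hcen
  have := Fact.mk hr
  have : IsMulCommutative A := hA.1
  let φ : G →* AddMonoid.End (Additive A) :=
    { toFun := fun g => MonoidHom.toAdditive (A.normalizerMonoidHom ⟨f g, hn g⟩).toMonoidHom
      map_one' := AddMonoidHom.ext fun a => Additive.toMul.injective (Subtype.ext (by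
        change f 1 * a.toMul * (f 1)⁻¹ = a.toMul; simp))
      map_mul' := fun g h => AddMonoidHom.ext fun a => Additive.toMul.injective (Subtype.ext (by
        change f (g * h) * a.toMul * (f (g * h))⁻¹ = f g * (f h * a.toMul * (f h)⁻¹) * (f g)⁻¹
        simp [mul_assoc])) }
  have h1 := gt_aux (r := r) (fun a => Additive.toMul.injective (Subtype.ext (hA.2 _ a.toMul.2))) h3 hs φ
    (fun U hU => by
      let B : Subgroup Γ := U.toSubgroup'.map A.subtype
      have hB : ∀ a : Additive A, (a.toMul : Γ) ∈ B ↔ a ∈ U := fun a =>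
        mem_map_iff_mem A.subtype_injective
      refine (hmin B (map_subtype_le _) fun g => mem_normalizer_fintype ?_).imp
        (fun e => (AddSubgroup.eq_bot_iff_forall _).2 fun a ha => Additive.toMul.injective
          (Subtype.ext (mem_bot.1 (e.le ((hB a).2 ha)))))
        fun e => (AddSubgroup.eq_top_iff' _).2 fun a => (hB a).1 (e.ge a.toMul.2)
      rintro _ ⟨a, ha, rfl⟩
      exact (hB (φ g (Additive.ofMul a))).2 (hU g _ ha)) hx (fun e => hcen fun a ha =>
      mem_centralizer_singleton_iff.2 (eq_mul_of_mul_inv_eq (congrArg (fun y => (y.toMul : Γ))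
        (DFunLike.congr_fun e (Additive.ofMul ⟨a, ha⟩)))).symm) hc ih
  refine lt_of_eq_of_lt (congrArg (· ^ 2) ?_) h1
  exact Nat.card_congr
    { toFun := fun y => ⟨Additive.ofMul ⟨y.1, y.2.1⟩, Additive.toMul.injective (Subtype.ext
        (mul_inv_eq_iff_eq_mul.2 (mem_centralizer_singleton_iff.1 y.2.2).symm))⟩
      invFun := fun y => ⟨y.1.toMul, y.1.toMul.2, mem_centralizer_singleton_iff.2 (eq_mul_of_mul_inv_eq
        (congrArg (fun y => (y.toMul : Γ)) y.2)).symm⟩
      left_inv := fun _ => rfl
      right_inv := fun _ => rfl }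

/-- The fixed space has dimension less than half. -/
theorem half {k V : Type*} [Field k] [AddCommGroup V] [Module k V] [FiniteDimensional k V]
    [Nontrivial V] {G : Type*} [Group G] [Finite G] (h3 : 3 < p) (hs : Group.IsSolvable G)
    {ρ : G →* End k V} (hi : Irr ρ) {x : G} (hx : x ^ p = 1) (h1 : ρ x ≠ 1) (hc : normalClosure {x} = ⊤) :
    2 * finrank k (LinearMap.ker (ρ x - 1)) < finrank k V :=
  general h3 hs hi hx h1 hc fun H _ _ _ => gt h3 H

end Cfsg.Lib.HH.Half
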