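import Cfsg.Agent.Lib.HH.HalfC
import Cfsg.Agent.Lib.BG.T01_Coprime

/-!
# Maximal solvable subgroups generated by two conjugate subgroups of prime order `p > 3`
-/

set_option autoImplicit false

namespace Cfsg.Lib.HH.Half

open Subgroup Cfsg.Lib.BG
open scoped Cfsg.Lib.Transfer

variable {G : Type*} [Group G] [Finite G] {p : ℕ} [hp : Fact p.Prime]

theorem exists_cover (h3 : 3 < p) {A V D : Subgroup G} {r : ℕ} (hr : r.Prime) (hV : IsElementaryAbelian r V)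
    (hs : Group.IsSolvable A) (hAV : A ≤ 𝐍(V)) (hirr : ∀ B ≤ V, A ≤ 𝐍(B) → B = ⊥ ∨ B = V) (hD : Nml D A)
    (hc : (Nat.card D).Coprime (Nat.card V)) (hDV : ¬ D ≤ 𝐂(V)) {x a : G} (hx : x ∈ A) (ha : a ∈ A)
    (hxp : x ^ p = 1) (hgen : ∀ B : Subgroup G, x ∈ B → a * x * a⁻¹ ∈ B → A ≤ B) :
    ∃ v ∈ V, ∀ B : Subgroup G, x ∈ B → v * a * x * (v * a)⁻¹ ∈ B → V ≤ B := by
  by_contra hh
  push Not at hh
  have := hV.1
  have hy : a * x * a⁻¹ ∈ A := mul_mem (mul_mem ha hx) (inv_mem ha)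
  have hC : V ⊓ 𝐂(D) = ⊥ := (hirr _ inf_le_left (norm_inf hAV (norm_cent hD.norm))).resolve_right
    fun e => hDV (cent_symm (e.ge.trans inf_le_right))
  have hB : ∀ v ∈ V, ∃ B : Subgroup G, x ∈ B ∧ v * (a * x * a⁻¹) * v⁻¹ ∈ B ∧ B ≤ V ⊔ A ∧ A ≤ V ⊔ B ∧
      V ⊓ B = ⊥ := fun v hv => by
    obtain ⟨B, h1, h2, h4⟩ := hh v hv
    rw [show v * a * x * (v * a)⁻¹ = v * (a * x * a⁻¹) * v⁻¹ by group] at h2
    have h5 : v * (a * x * a⁻¹) * v⁻¹ ∈ B ⊓ (V ⊔ A) := ⟨h2, mul_mem (mul_mem (mem_sup_left hv)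
      (mem_sup_right hy)) (mem_sup_left (inv_mem hv))⟩
    have h6 : A ≤ V ⊔ (B ⊓ (V ⊔ A)) := hgen _ (mem_sup_right ⟨h1, mem_sup_right hx⟩) (by
      simpa [mul_assoc] using mul_mem (mul_mem (mem_sup_left (inv_mem hv)) (mem_sup_right h5))
        (mem_sup_left hv))
    refine ⟨B ⊓ (V ⊔ A), ⟨h1, mem_sup_right hx⟩, h5, inf_le_right, h6, (hirr _ inf_le_left (h6.trans
      (sup_le (norm_of_cent (cent_mono (le_centralizer V) le_rfl inf_le_left))
        (norm_inf (inf_le_right.trans (sup_le_norm_left hAV)) (le_norm _))))).resolve_right fun e =>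
          h4 (e.ge.trans (inf_le_right.trans inf_le_left))⟩
  have hA : V ⊓ A = ⊥ := by
    obtain ⟨B, h1, h2, -, -, h5⟩ := hB 1 (one_mem _)
    exact le_bot_iff.1 (h5 ▸ inf_le_inf_left _ (hgen B h1 (by simpa using h2)))
  have hcm : ∀ n ∈ V, ∀ z ∈ A, n * z * n⁻¹ ∈ A → n ∈ 𝐂[z] := fun n hn z hz h => by
    have : n * z * n⁻¹ * z⁻¹ ∈ V ⊓ A := ⟨by
      simpa [mul_assoc] using mul_mem hn (conj_mem_of_norm (hAV hz) (inv_mem hn)), A.mul_mem h (inv_mem hz)⟩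
    rw [hA, mem_bot, mul_inv_eq_one, mul_inv_eq_iff_eq_mul] at this
    exact mem_cent1.2 this
  have h1 : Nat.card V ≤ Nat.card ((V ⊓ 𝐂[x] : Subgroup G) × (V ⊓ 𝐂[a * x * a⁻¹] : Subgroup G)) := by
    refine Nat.card_le_card_of_surjective (fun b => ⟨b.1⁻¹ * b.2, mul_mem (inv_mem b.1.2.1) b.2.2.1⟩) ?_
    rintro ⟨v, hv⟩
    obtain ⟨B, h1, h2, h4, h5, h6⟩ := hB v hv
    have h7 : B ≤ 𝐍(V) := h4.trans (sup_le_norm_left hAV)
    obtain ⟨n, hn, h8⟩ := Coprime.exists_conj_mem_of_le_sup h7 (hD.le.trans h5) hc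
      (Or.inl (sol_of_le hs hD.le))
    have h9 : ∀ b ∈ B, n * b * n⁻¹ ∈ A := fun b hb => by
      obtain ⟨u, hu, c, hc, e⟩ := (mem_sup_left_norm hAV).1 (mul_mem (mul_mem (mem_sup_left hn) (h4 hb))
        (mem_sup_left (inv_mem hn)))
      have : u ∈ V ⊓ 𝐂(D) := ⟨hu, mem_cent.2 fun d hd => by
        have h10 : n⁻¹ * (u * d * u⁻¹ * d⁻¹) * n ∈ V ⊓ B := ⟨V.mul_mem (V.mul_mem (inv_mem hn) (by
          simpa [mul_assoc] using mul_mem hu (conj_mem_of_norm (hAV (hD.le hd)) (inv_mem hu)))) hn, by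
          rw [show n⁻¹ * (u * d * u⁻¹ * d⁻¹) * n =
            b * (n⁻¹ * (c⁻¹ * d * c) * n) * b⁻¹ * (n⁻¹ * d * n)⁻¹ by
              rw [eq_mul_inv_of_mul_eq e]; group]
          exact B.mul_mem (B.mul_mem (B.mul_mem hb (h8 _ (conj_mem_of_norm' (hD.norm hc) hd)))
            (inv_mem hb)) (inv_mem (h8 d hd))⟩
        rw [h6, mem_bot, mul_assoc, inv_mul_eq_one, eq_comm, mul_eq_right, mul_inv_eq_one,
          mul_inv_eq_iff_eq_mul] at h10
        exact h10.symm⟩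
      rw [hC, mem_bot] at this
      rw [← e, this, one_mul]
      exact hc
    exact ⟨(⟨n, hn, hcm n hn x hx (h9 x h1)⟩, ⟨n * v, mul_mem hn hv, hcm _ (mul_mem hn hv) _ hy
      (by simpa [mul_assoc] using h9 _ h2)⟩), Subtype.ext (by simp)⟩
  have h2 : Nat.card (V ⊓ 𝐂[a * x * a⁻¹] : Subgroup G) ≤ Nat.card (V ⊓ 𝐂[x] : Subgroup G) :=
    Nat.card_le_card_of_injective (fun w => ⟨a⁻¹ * w * a, conj_mem_of_norm' (hAV ha) w.2.1, mem_cent1.2 (by
      have := mem_cent1.1 w.2.2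
      calc _ = a⁻¹ * (w * (a * x * a⁻¹)) * a := by group
        _ = _ := by rw [this]; group)⟩) fun w w' e => Subtype.ext (by
          simpa using congrArg Subtype.val e)
  have h5 : normalClosure {(⟨x, hx⟩ : A)} = ⊤ := top_le_iff.1 fun g _ => by
    have h5 : (⟨x, hx⟩ : A) ∈ normalClosure {(⟨x, hx⟩ : A)} := subset_normalClosure (Set.mem_singleton _)
    have h6 := normalClosure_normal.conj_mem _ h5 ⟨a, ha⟩
    generalize normalClosure {(⟨x, hx⟩ : A)} = K at *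
    obtain ⟨g', h7, e⟩ := hgen (K.map A.subtype) ⟨_, h5, rfl⟩ ⟨_, h6, rfl⟩ g.2
    rwa [← (Subtype.ext e : g' = g)]
  have h6 : ¬ V ≤ 𝐂[x] := fun h => hDV (hD.le.trans
    (hgen _ (le_cent1_iff.1 h) (conj_mem_of_norm (norm_cent hAV ha) (le_cent1_iff.1 h))))
  have h4 : Nat.card (V ⊓ 𝐂[x] : Subgroup G) ^ 2 < Nat.card V :=
    gt h3 A hs ⟨x, hx⟩ (Subtype.ext hxp) h5 G A.subtype V r hr hV
      (fun h => hAV h.2) (fun B h1 h2 => hirr B h1 fun g hg => h2 ⟨g, hg⟩) h6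
  rw [Nat.card_prod] at h1
  exact (h1.trans (Nat.mul_le_mul_left _ h2)).not_gt (by rwa [pow_two] at h4)

theorem cent_of_max (h3 : 3 < p) {A D : Subgroup G} {r : ℕ} [hr : Fact r.Prime] (hs : Group.IsSolvable A)
    (hD : Nml D A) (hDF : D ≤ 𝐅(A)) (hc : PiGrp {r}ᶜ D) {x a : G} (hx : x ∈ A) (ha : a ∈ A) (hxp : x ^ p = 1)
    (hgen : ∀ B : Subgroup G, x ∈ B → a * x * a⁻¹ ∈ B → A ≤ B)
    (hmax : ∀ b : G, A ≤ closure {x, b * x * b⁻¹} → b ∈ closure {x, b * x * b⁻¹} →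
      Group.IsSolvable (closure {x, b * x * b⁻¹}) → closure {x, b * x * b⁻¹} ≤ A) (V : Subgroup G) :
    IsPGroup r V → A ≤ 𝐍(V) → D ≤ 𝐂(V) := by
  induction V using WellFoundedLT.induction with | _ V ih => ?_
  intro hV hAV
  by_contra hDV
  have hc' := hc.coprime_pgroup hV
  have hDn := hD.le.trans hAV
  have h1 : ⁅V, D⁆ = V := by
    by_contra h
    exact hDV (Coprime.le_centralizer_of_commutator_commutator_eq_bot hDn hc' (comm_eq_bot_iff'.2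
      (ih _ ((comm_le_left hDn).lt_of_ne h) (hV.to_le (comm_le_left hDn)) (norm_comm hAV hD.norm))))
  have hN : Nml 𝚽(V) V := (Nml.refl V).Phi
  have hAN : A ≤ 𝐍(𝚽(V)) := norm_Phi hAV
  have hVa : IsMulCommutative (quo V 𝚽(V)) :=
    (quo_abelian_iff hN.norm).2 (PGroup.commutator_le_map_subtype_frattini hV)
  have h2 : quo V 𝚽(V) ⊓ 𝐂(quo D 𝚽(V)) = ⊥ := by
    have := (coprime_abelian_cent_dprod (quo_norm hDn _) (coprime_quo hc' _) hVa).inf
    rwa [← quo_comm hN.norm (hD.le.trans hAN), h1, ← inf_assoc, inf_idem] at this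
  obtain ⟨_, ⟨⟨v, hvN⟩, hv, rfl⟩, h4⟩ := exists_cover h3 (V := quo V 𝚽(V)) hr.1 ⟨hVa, by
      rintro _ ⟨v, hv, rfl⟩
      rw [← map_pow, ← MonoidHom.mem_ker, qhom_ker]
      exact PGroup.pow_mem_map_subtype_frattini hV hv⟩ (sol_quo hs _) (quo_norm hAV _)
    (fun B h4 h5 => or_iff_not_imp_right.2 fun h6 => le_bot_iff.1 (h2 ▸ le_inf h4 (by
      have h7 := copre_le_of_le_quo hN h4
      rw [← quo_copre B]
      exact quo_cent (cent_symm (ih _ (h7.lt_of_ne fun e => h6 ((quo_copre B).symm.trans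
        (congrArg (quo · _) e))) (hV.to_le h7)
        (norm_copre hAN h5))) _))) (hD.quo _) (coprime_quo hc' _)
    (fun h => hDV (Coprime.le_centralizer_of_commutator_le_frattini hDn
      (hc'.coprime_dvd_right (card_subgroup_dvd_card _)) (by
        rw [commutator_comm]; exact (quo_le_cent_iff (hD.le.trans hAN) hN.norm).1 h)))
    (x := qhom _ ⟨x, hAN hx⟩) (a := qhom _ ⟨a, hAN ha⟩) (mem_quo.2 ⟨_, hx, rfl⟩) (mem_quo.2 ⟨_, ha, rfl⟩)
    (by rw [← map_pow]; exact (congrArg _ (Subtype.ext hxp)).trans (map_one _))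
    fun B h4 h5 => (le_copre_iff hAN).1 (hgen _ (mem_copre.2 ⟨_, h4⟩)
      (mem_copre.2 ⟨hAN (mul_mem (mul_mem ha hx) (inv_mem ha)), h5⟩))
  replace hv : v ∈ V := hv
  set B := closure {x, v * a * x * (v * a : G)⁻¹}
  have hxB : x ∈ B := subset_closure (by simp)
  have hyB : v * a * x * (v * a : G)⁻¹ ∈ B := subset_closure (by simp)
  have hB : B ≤ V ⊔ A := (closure_le _).2 (by
    have h5 : (v : G) * a ∈ V ⊔ A := mul_mem (mem_sup_left hv) (mem_sup_right ha)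
    rintro _ (rfl | rfl)
    · exact mem_sup_right hx
    · exact mul_mem (mul_mem h5 (mem_sup_right hx)) (inv_mem h5))
  have hBN := hB.trans (sup_le hN.norm hAN)
  have h5 : V ≤ 𝚽(V) ⊔ B := (quo_le_quo_iff hN.norm hBN).1
    (h4 _ (mem_quo.2 ⟨_, hxB, rfl⟩) (mem_quo.2 ⟨⟨_, hBN hyB⟩, hyB, rfl⟩))
  have h6 : V ≤ B := (Coprime.eq_of_sup_frattini (inf_le_right : B ⊓ V ≤ V) (by
    rw [← modular_left hN.le hBN]; exact le_inf h5 le_rfl)).ge.trans inf_le_left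
  have h7 : A ≤ B := hgen _ hxB (by
    simpa [mul_assoc] using mul_mem (mul_mem (inv_mem (h6 hv)) hyB) (h6 hv))
  have h8 := hmax _ h7 (mul_mem (h6 hv) (h7 ha)) (sol_of_le (Core.isSolvable_sup hAV hs
    (nil_sol (pgroup_nil hV))) (hB.trans (sup_comm _ _).le))
  exact hDV (nil_cent_of_coprime (Fitting_nil A) hDF (Fitting_max (pgroup_nil hV) ⟨h6.trans h8, hAV⟩) hc')

theorem nil_sup_of_cent {F V : Subgroup G} (hF : Group.IsNilpotent F) (hV : Group.IsNilpotent V)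
    (hn : F ≤ 𝐍(V)) (h : ∀ r : ℕ, r.Prime → 𝐎({r}ᶜ, F) ≤ 𝐂(𝐎({r}, V))) : Group.IsNilpotent ↥(F ⊔ V) := by
  have h1 : ∀ r : ℕ, r.Prime → 𝐎({r}, V) ⊔ 𝐎({r}, F) ≤ 𝐅(F ⊔ V) := fun r hr => by
    have := Fact.mk hr
    have h2 : 𝐎({r}, F) ≤ 𝐍(𝐎({r}, V)) := norm_pcore ((pcore_le _ _).trans hn) _
    refine Fitting_max (pgroup_nil (pgroup_sup (pcore_pgroup r V) (pcore_pgroup r F) h2))
      ⟨sup_le ((pcore_le _ _).trans le_sup_right) ((pcore_le _ _).trans le_sup_left),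
      sup_le (norm_sup (norm_pcore hn _) (pcore_nml _ _).norm) (nil_le_of_pcore_le hV fun q hq _ => ?_)⟩
    by_cases e : q = r
    · exact e ▸ le_sup_left.trans (le_norm _)
    · refine norm_of_cent (le_cent_sup (pcore_cent (by simpa using e) V) (cent_symm (le_trans
        (pcore_mono ?_ F) (h q hq))))
      simpa using e
  exact nil_of_le (Fitting_nil (F ⊔ V)) (sup_le
    (nil_le_of_pcore_le hF fun q hq _ => le_sup_right.trans (h1 q hq))
    (nil_le_of_pcore_le hV fun q hq _ => le_sup_left.trans (h1 q hq)))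

end Cfsg.Lib.HH.Half
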