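import Cfsg.Agent.Lib.HH.PLen
import Cfsg.Agent.Lib.HH.HalfA

/-!
# The exceptional case of Theorem B in characteristic `2`
-/

set_option autoImplicit false

namespace Cfsg.Lib.HH.Two

open Module LinearMap Subgroup Cfsg.Lib.BG Cfsg.Lib.PGroup Cfsg.Lib.HH.ModB
open scoped Cfsg.Lib.Transfer commutatorElement Matrix

universe u v

theorem mersenne_eq {q k n : ℕ} (hq : Odd q) (hq1 : 1 < q) (hk : 1 ≤ k) (h : q ^ k + 1 = 2 ^ n) : k = 1 := by
  obtain ⟨r, rfl⟩ := hq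
  have h0 := Nat.one_lt_pow (n := k) (by omega) hq1
  rcases Nat.even_or_odd' k with ⟨j, rfl | rfl⟩
  · have h1 : (2 * r + 1) ^ (2 * j) ≡ 1 ^ j [MOD 4] := by
      rw [pow_mul]
      exact Nat.ModEq.pow j (((Nat.modEq_iff_dvd' (Nat.one_le_pow _ _ (by omega))).2
        ⟨r * r + r, Nat.sub_eq_of_eq_add (by ring)⟩).symm)
    obtain ⟨n, rfl⟩ : ∃ m, n = m + 2 := ⟨n - 2, by
      rcases n with _ | _ | n
      · omega
      · omega
      · omega⟩
    rw [one_pow, Nat.ModEq] at h1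
    rw [pow_add] at h
    omega
  · have h1 : (2 * r + 1) ^ (2 * j + 1) + 1 ≡ 1 ^ j * (2 * r + 1) + 1 [MOD 2 * (2 * r + 1 + 1)] := by
      rw [pow_succ, pow_mul]
      exact ((Nat.ModEq.pow j (((Nat.modEq_iff_dvd' (Nat.one_le_pow _ _ (by omega))).2
        ⟨r, Nat.sub_eq_of_eq_add (by ring)⟩).symm)).mul_right _).add_right _
    rw [one_pow, one_mul, h] at h1
    have h2 : 2 * r + 1 + 1 ∣ 2 ^ n := (Nat.ModEq.dvd_iff h1 (dvd_mul_left _ _)).2 dvd_rfl
    obtain ⟨a, ha, e⟩ := (Nat.dvd_prime_pow Nat.prime_two).1 h2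
    rcases ha.eq_or_lt with rfl | ha
    · rw [← e, add_left_inj] at h
      exact Nat.pow_right_injective hq1 (h.trans (pow_one _).symm)
    · have h3 : 2 * (2 * r + 1 + 1) ∣ 2 ^ n := by rw [e, ← pow_succ']; exact pow_dvd_pow 2 ha
      exact absurd (Nat.le_of_dvd (by omega) ((h1.dvd_iff dvd_rfl).1 h3)) (by omega)

variable {K : Type*} [Field K]

/-- Two commuting Heisenberg pairs do not fit in dimension `q`. -/
theorem dim_ne {V : Type*} [AddCommGroup V] [Module K V] [IsAlgClosed K] [FiniteDimensional K V] [Nontrivial V]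
    {A B C D : End K V} {q k : ℕ} [hq : Fact q.Prime] (hA : A ^ q ^ k = 1) (hB : IsUnit B) (hC : IsUnit C)
    (hD : IsUnit D) {ζ ξ : K} (hζ : ζ ≠ 1) (hξ : ξ ≠ 1) (h1 : A * B = ζ • (B * A)) (h2 : C * D = ξ • (D * C))
    (h3 : A * C = C * A) (h4 : A * D = D * A) : finrank K V ≠ q := fun e => by
  have h5 : ∀ i : ℕ, A ^ i * B = ζ ^ i • (B * A ^ i) := fun i => by
    induction i with
    | zero => simp
    | succ i ih => rw [pow_succ', mul_assoc, ih, mul_smul_comm, ← mul_assoc, h1, smul_mul_assoc, smul_smul, mul_assoc,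
        ← pow_succ]
  have h6 : ζ ^ q ^ k = 1 := by
    have := h5 (q ^ k)
    rw [hA, one_mul, mul_one] at this
    exact (smul_left_injective K hB.ne_zero ((one_smul K B).trans this)).symm
  obtain ⟨j, -, hj⟩ := (Nat.dvd_prime_pow hq.1).1 (orderOf_dvd_of_pow_eq_one h6)
  obtain ⟨a, ha⟩ := End.exists_eigenvalue A
  obtain ⟨v, hv, hv0⟩ := ha.exists_hasEigenvector
  have h7 := Half.eig_bound ((End.isUnit_iff _).1 hB).1 (IsPrimitiveRoot.orderOf ζ) h1 (a := a) fun e => hv0 (by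
    have := (End.isUnit_iff _).1 (IsUnit.of_pow_eq_one hA (pow_ne_zero _ hq.1.ne_zero)) |>.1
    exact this (by rw [End.mem_eigenspace_iff.1 hv, e, zero_smul, map_zero]))
  have h8 : q ≤ orderOf ζ := hj ▸ Nat.le_self_pow (fun e => hζ (orderOf_eq_one_iff.1 (by rw [hj, e, pow_zero]))) q
  have h9 : finrank K (A.eigenspace a) = 1 := le_antisymm
    (Nat.le_of_mul_le_mul_left ((Nat.mul_le_mul_right _ h8).trans (by rwa [mul_one, ← e])) hq.1.pos)
    (Submodule.one_le_finrank_iff.2 ha)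
  have key : ∀ X : End K V, A * X = X * A → ∃ c : K, X v = c • v := fun X hX => by
    obtain ⟨c, hc⟩ := exists_smul_eq_of_finrank_eq_one h9 (x := ⟨v, hv⟩) (fun e => hv0 (congrArg Subtype.val e))
      ⟨X v, End.mem_eigenspace_iff.2 (by rw [← End.mul_apply, hX, End.mul_apply, End.mem_eigenspace_iff.1 hv, map_smul])⟩
    exact ⟨c, (congrArg Subtype.val hc).symm⟩
  obtain ⟨c, hc⟩ := key C h3
  obtain ⟨d, hd⟩ := key D h4
  have h10 : (C * D) v = (D * C) v := by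
    rw [End.mul_apply, End.mul_apply, hc, hd, map_smul, map_smul, hc, hd, smul_comm]
  rw [h2, LinearMap.smul_apply] at h10
  refine hξ (smul_left_injective K (fun e => hv0 (((End.isUnit_iff _).1 (hD.mul hC)).1 (e.trans (map_zero _).symm)))
    (h10.trans (one_smul K _).symm))

variable [CharP K 2] {q : ℕ} [hq : Fact q.Prime]

theorem eq_one_of_sq {ζ : K} (h : ζ * ζ = 1) : ζ = 1 :=
  (mul_self_eq_one_iff.1 h).elim id fun e => by rw [e, CharTwo.neg_eq]

/-- Theorem B has no exception in the presence of two commuting Heisenberg pairs. -/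
theorem coreM [IsAlgClosed K] {Q : Type*} [Group Q] [Finite Q] (hQ : IsPGroup q Q) (hpq : q ≠ 2) {β : MulAut Q}
    (hβ : ∀ g, β g = g → g ∈ center Q) {a b c d : Q} {ζ ξ : K} (hζ : ζ ≠ 1) (hξ : ξ ≠ 1) (ha : a * β a ∈ center Q)
    (hac : a * c = c * a) (had : a * d = d * a) (n : ℕ) :
    ∀ (S : Type u) [Group S] [Finite S] (V : Type v) [AddCommGroup V] [Module K V] [FiniteDimensional K V]
      [Nontrivial V] (ρ : Q →* End K V) (τ : S →* End K V) (α : S →* MulAut Q) (x : S) (r : ℕ),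
      (∀ s g, τ s * ρ g = ρ (α s g) * τ s) → x ^ 2 ^ (n + 1) = 1 → α x ^ 2 ^ n = β →
      ρ a * ρ b = ζ • (ρ b * ρ a) → ρ c * ρ d = ξ • (ρ d * ρ c) → (τ x - 1) ^ r = 0 → 2 ^ (n + 1) ≤ r := by
  induction n using Nat.strong_induction_on with | _ n ih => ?_
  intro S _ _ V _ _ _ _ ρ τ α x r hc hx hxβ h0 h0' hr
  obtain ⟨U, -, hU, h1, h2, hI⟩ := exists_sub (ρ := ρ) (τ := τ.comp (zpowers x).subtype) (W := ⊤) top_ne_bot
    (fun _ _ _ => trivial) fun _ _ _ => trivial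
  haveI := Submodule.nontrivial_iff_ne_bot.2 hU
  set ρ' := Representation.subrepresentation ρ U h1
  set τ' := Representation.subrepresentation (τ.comp (zpowers x).subtype) U h2
  let α' := α.comp (zpowers x).subtype
  let y : zpowers x := ⟨x, mem_zpowers x⟩
  have hy : y ^ 2 ^ (n + 1) = 1 := Subtype.ext hx
  have hc' : ∀ s g, τ' s * ρ' g = ρ' (α' s g) * τ' s := fun s g =>
    LinearMap.ext fun u => Subtype.ext (LinearMap.congr_fun (hc s g) u)
  have k0 : ρ' a * ρ' b = ζ • (ρ' b * ρ' a) := LinearMap.ext fun u => Subtype.ext (LinearMap.congr_fun h0 u)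
  have k0' : ρ' c * ρ' d = ξ • (ρ' d * ρ' c) := LinearMap.ext fun u => Subtype.ext (LinearMap.congr_fun h0' u)
  have hr' : (τ' y - 1) ^ r = 0 := res_pow (h2 y) hr
  have hu : ∀ g, IsUnit (ρ' g) := fun g => (Group.isUnit g).map ρ'
  have hyp : ∀ s : zpowers x, ∃ i : ℕ, y ^ i = s := fun s => by
    obtain ⟨i, hi⟩ := mem_powers_iff_mem_zpowers.2 s.2
    exact ⟨i, Subtype.ext hi⟩
  rcases dich (p := 2) (fun s => by
      obtain ⟨i, rfl⟩ := hyp s
      exact ⟨n + 1, by rw [← pow_mul, mul_comm, pow_mul, hy, one_pow]⟩) hc'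
    (fun c h h' => hI.schur (by rintro (_ | _); exacts [h _, h' _])) with hS | ⟨c, l, ⟨s, hs⟩, hl⟩
  · obtain ⟨h3, -, h5⟩ := crit' hQ hpq hS (α := α x) (n := n) (by rw [← map_pow, hx, map_one])
      (by rw [← map_pow, hy, map_one]) (hc' y) (hxβ ▸ hβ) (fun e => by
        have := hc' (y ^ 2 ^ n) a
        rw [map_pow, e, one_pow, one_mul, mul_one, map_pow] at this
        have h4 := congrArg ρ' (mem_center_iff.1 ha b)
        rw [map_mul, map_mul, map_mul, map_mul, ← hxβ] at h4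
        erw [← this] at h4
        rw [mul_assoc, k0, mul_smul_comm, ← mul_assoc (ρ' a), k0, smul_mul_assoc, smul_smul, mul_assoc] at h4
        exact hζ (eq_one_of_sq (smul_left_injective K ((hu b).mul ((hu a).mul (hu a))).ne_zero
          (h4.symm.trans (one_smul K _).symm)))) hr'
    refine Nat.le_of_lt_succ (h3.lt_of_ne fun e => ?_)
    obtain ⟨h6, m, h7, h8⟩ := h5 e.symm
    obtain rfl := mersenne_eq (hq.1.odd_of_ne_two hpq) hq.1.one_lt h7 (h8 ▸ e.symm)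
    obtain ⟨k, hk⟩ := hQ a
    exact dim_ne (by rw [← map_pow, hk, map_one]) (hu b) (hu c) (hu d) hζ hξ k0 k0' (by rw [← map_mul, hac, map_mul])
      (by rw [← map_mul, had, map_mul]) (h6.trans (h8.trans (pow_one q)))
  have hly : l y ≠ 0 := fun e => hs (by
    obtain ⟨i, rfl⟩ := hyp s
    have h3 : Commute (τ' y) c := by rw [Commute, SemiconjBy, hl, e, zero_smul, add_zero]
    have h4 := hl (y ^ i)
    rw [map_pow, (h3.pow_left i).eq, left_eq_add, smul_eq_zero, ← map_pow] at h4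
    exact h4.resolve_right ((Group.isUnit _).map τ').ne_zero)
  obtain ⟨r', h3, h4, h5⟩ := exists_div (p := 2) ((Group.isUnit y).map τ') hly (hl y) hr'
  rcases n with _ | n
  · omega
  have := ih n n.lt_succ_self _ U ρ' τ' α' (y ^ 2) r' hc' (by rw [← pow_mul, ← pow_succ', hy])
    (by rw [map_pow, ← pow_mul, ← pow_succ', ← hxβ]; rfl) k0 k0' (by rwa [map_pow])
  rw [pow_succ']; omega

omit [CharP K 2] in
/-- Coordinates on an elementary abelian section. -/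
theorem exists_sec {G A : Type*} [Group G] [Finite G] [Group A] {S V : Subgroup G} (hSV : S ≤ V) (hc : ⁅V, V⁆ ≤ S)
    (hpow : ∀ x ∈ V, x ^ q ∈ S) (φ : A →* G) (hAS : ∀ a, φ a ∈ 𝐍(S)) (hAV : ∀ a, φ a ∈ 𝐍(V)) :
    ∃ (n : ℕ) (ψ : G → Fin n → ZMod q) (σ : A →* End (ZMod q) (Fin n → ZMod q)),
      (∀ a ∈ V, ∀ b ∈ V, ψ (a * b) = ψ a + ψ b) ∧ (∀ a ∈ V, ψ a = 0 ↔ a ∈ S) ∧ (∀ w, ∃ a ∈ V, ψ a = w) ∧
      ∀ g, ∀ a ∈ V, σ g (ψ a) = ψ (φ g * a * (φ g)⁻¹) := by
  classical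
  have hVS : V ≤ 𝐍(S) := norm_of_comm_le_of_le hc hSV
  let π := QuotientGroup.mk' (S.subgroupOf 𝐍(S))
  have hπ : ∀ x : 𝐍(S), π x = 1 ↔ (x : G) ∈ S := fun x => QuotientGroup.eq_one_iff x
  let W := (V.subgroupOf 𝐍(S)).map π
  have hW : IsElementaryAbelian q W := by
    rw [isElementaryAbelian_iff]
    constructor
    · rintro _ ⟨a, ha, rfl⟩ _ ⟨b, hb, rfl⟩
      rw [← commutatorElement_eq_one_iff_mul_comm, ← map_commutatorElement, hπ]
      exact hc (commutator_mem_commutator ha hb)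
    · rintro _ ⟨a, ha, rfl⟩
      rw [← map_pow, hπ]
      exact hpow _ ha
  obtain ⟨c⟩ := PLocal.nonempty_elemAbCoord hW
  let φ₀ : A →* 𝐍(S) := φ.codRestrict _ hAS
  have hφ : ∀ a : A, π (φ₀ a) ∈ 𝐍(W) := fun a =>
    le_normalizer_map π ⟨φ₀ a, le_normalizer_comap (𝐍(S)).subtype (hAV a), rfl⟩
  let ψ : G → Fin c.n → ZMod q := fun a => if h : a ∈ 𝐍(S) then Function.invFun c.e (π ⟨a, h⟩) else 0
  have hψ : ∀ a (h : a ∈ V), c.e (ψ a) = π ⟨a, hVS h⟩ := fun a h => by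
    simp only [ψ, dif_pos (hVS h)]
    exact Function.invFun_eq ((c.mem_iff _).1 ⟨⟨a, hVS h⟩, h, rfl⟩)
  refine ⟨c.n, ψ, Matrix.toLinAlgEquiv'.toAlgHom.toMonoidHom.comp (c.ρ.comp ((π.comp φ₀).codRestrict _ hφ)),
    fun a ha b hb => c.inj ?_, fun a ha => ?_, fun w => ?_, fun g a ha => c.inj ?_⟩
  · rw [c.map_add, hψ a ha, hψ b hb, hψ _ (mul_mem ha hb), ← map_mul]; rfl
  · rw [← c.eq_one_iff, hψ a ha, hπ]
  · obtain ⟨a, ha, e⟩ := c.mem w
    exact ⟨a, ha, c.inj ((hψ a ha).trans e)⟩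
  · rw [hψ _ (conj_mem_of_norm (hAV g) ha)]
    refine (c.conj ⟨_, hφ g⟩ (ψ a)).trans ?_
    rw [hψ a ha, ← map_inv, ← map_mul, ← map_mul]; rfl

omit hq in
/-- The degree of the stabilizer of a block. -/
theorem stab_deg {Γ W : Type*} [Group Γ] [AddCommGroup W] [Module K W] {ρ : Γ →* End K W} {N S : Subgroup Γ}
    {U : Submodule K W} (h : Blk ρ N S U) {y : Γ} (hy : y ∈ N) {m : ℕ} (h1 : y ^ 2 ^ m = 1)
    (h2 : (ρ y - 1) ^ (2 ^ m - 1) = 0) : ∃ j n, j + n = m ∧ y ^ 2 ^ j ∈ S ∧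
      ∀ v ∈ U, ((ρ (y ^ 2 ^ j) - 1) ^ (2 ^ n - 1) : End K W) v = 0 := by
  classical
  have h0 : ∃ j, y ^ 2 ^ j ∈ S := ⟨m, h1 ▸ one_mem _⟩
  obtain ⟨n, hn⟩ := Nat.exists_eq_add_of_le (Nat.find_min' h0 (h1 ▸ one_mem S : y ^ 2 ^ m ∈ S))
  have h3 := Nat.find_spec h0
  have h4 : ∀ i, y ^ i ∈ S → 2 ^ Nat.find h0 ∣ i := fun i hi => by
    rcases eq_or_ne i 0 with rfl | e
    · exact dvd_zero _
    obtain ⟨a, o, ho, rfl⟩ := Nat.exists_eq_two_pow_mul_odd e
    refine (pow_dvd_pow 2 (Nat.find_min' h0 (zpowers_le.2 (pow_mul y _ _ ▸ hi) (mem_zpowers_pow_iff.2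
      (Nat.Coprime.coprime_dvd_right (orderOf_dvd_of_pow_eq_one (n := 2 ^ m) ?_) ?_))))).mul_right _
    · rw [← pow_mul, mul_comm, pow_mul, h1, one_pow]
    · exact (Nat.coprime_two_right.2 ho).pow_right m
  generalize Nat.find h0 = j at *
  refine ⟨j, n, hn.symm, h3, fun v hv => ?_⟩
  have h5 := LinearMap.congr_fun ((geom_sum_pow K (p := 2) (ρ y) m).trans h2) v
  have h6 : ∑ i ∈ (Finset.range (2 ^ m)).filter (2 ^ j ∣ ·), (ρ y ^ i) v =
      ((ρ (y ^ 2 ^ j) - 1) ^ (2 ^ n - 1) : End K W) v := by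
    rw [← geom_sum_pow K (p := 2), LinearMap.sum_apply]
    refine (Finset.sum_nbij (2 ^ j * ·) (fun i hi => ?_) (fun a _ b _ e => Nat.eq_of_mul_eq_mul_left (by positivity) e)
      (fun i hi => ?_) fun i _ => by rw [map_pow, pow_mul]).symm
    · simp only [Finset.mem_filter, Finset.mem_range, dvd_mul_right, and_true] at hi ⊢
      rw [hn, pow_add]; exact Nat.mul_lt_mul_of_pos_left hi (by positivity)
    · obtain ⟨h7, k, rfl⟩ := Finset.mem_filter.1 hi
      rw [Finset.mem_range, hn, pow_add] at h7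
      exact ⟨k, Finset.mem_range.2 (Nat.lt_of_mul_lt_mul_left h7), rfl⟩
  rw [LinearMap.sum_apply, LinearMap.zero_apply, ← Finset.sum_filter_add_sum_filter_not _ (2 ^ j ∣ ·),
    add_eq_zero_iff_neg_eq] at h5
  have h7 := h.eq_zero ((Finset.range (2 ^ m)).filter (¬ 2 ^ j ∣ ·)) (y ^ ·) (fun _ => v)
    (fun i hi => ⟨pow_mem hy i, fun e => (Finset.mem_filter.1 hi).2 (h4 i e), hv⟩) (by
      simp only [map_pow]
      rw [← h5]
      refine neg_mem (Submodule.sum_mem _ fun i hi => ?_)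
      obtain ⟨k, rfl⟩ := (Finset.mem_filter.1 hi).2
      rw [← map_pow, pow_mul]
      exact h.inv _ (pow_mem h3 k) v hv)
  simp only [map_pow] at h7
  rw [← h6, ← neg_eq_zero, h5, h7]

end Cfsg.Lib.HH.Two
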