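import Cfsg.Agent.Lib.HH.Casolo
import Cfsg.Agent.Lib.Coprime.Lift
import Cfsg.Agent.Lib.Coprime.Sylow

/-! The Navarro–Rizo formula (as an inequality) and counting `{x | x H x⁻¹ ≤ P L}` along a chain. -/

set_option autoImplicit false

namespace Cfsg.Lib.HH

open Subgroup Cfsg.Lib Cfsg.Lib.BG Cfsg.Lib.Transfer
open scoped Classical

section Identity

variable {A : Type*} [Group A] [Fintype A] {p : ℕ} [hp : Fact p.Prime]

theorem zpowers_eq_of_not_mem (hA : IsPGroup p A) {y z : A} (h1 : z ∈ zpowers y)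
    (h2 : z ∉ zpowers (y ^ p)) : zpowers z = zpowers y := by
  obtain ⟨k, rfl⟩ := (mem_zpowers_iff_mem_range_orderOf.1 h1 |> Finset.mem_image.1 |>
    fun ⟨k, _, e⟩ => (⟨k, e⟩ : ∃ k : ℕ, y ^ k = z))
  have hk : ¬ p ∣ k := by
    rintro ⟨j, rfl⟩
    exact h2 (by rw [pow_mul]; exact pow_mem (mem_zpowers _) j)
  obtain ⟨n, hn⟩ := IsPGroup.iff_orderOf.1 hA y
  refine le_antisymm (zpowers_le.2 h1) (zpowers_le.2 (mem_zpowers_pow_iff.2 ?_))
  rw [hn]
  exact Nat.Coprime.pow_right n ((Nat.Prime.coprime_iff_not_dvd hp.out).2 hk).symm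

theorem not_mem_zpowers_pow (hA : IsPGroup p A) {y : A} (hy : y ≠ 1) : y ∉ zpowers (y ^ p) := by
  intro h
  obtain ⟨n, hn⟩ := IsPGroup.iff_orderOf.1 hA y
  have := mem_zpowers_pow_iff.1 h
  rw [hn] at this
  rcases n with _ | n
  · exact hy (orderOf_eq_one_iff.1 (by simpa using hn))
  · exact hp.out.one_lt.ne' (Nat.Coprime.eq_one_of_dvd this (dvd_pow_self p n.succ_ne_zero))

theorem gen_iff (hA : IsPGroup p A) {y z : A} (hy : y ≠ 1) :
    (z ∈ zpowers y ∧ z ∉ zpowers (y ^ p)) ↔ zpowers z = zpowers y := by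
  refine ⟨fun h => zpowers_eq_of_not_mem hA h.1 h.2, fun h => ⟨h ▸ mem_zpowers z, fun h2 => ?_⟩⟩
  exact not_mem_zpowers_pow hA hy ((h ▸ zpowers_le.2 h2 : zpowers y ≤ _) (mem_zpowers y))

theorem orderOf_pow_mul (hA : IsPGroup p A) {y : A} (hy : y ≠ 1) : p * orderOf (y ^ p) = orderOf y := by
  obtain ⟨n, hn⟩ := IsPGroup.iff_orderOf.1 hA y
  have hd : p ∣ orderOf y := by
    rcases n with _ | n
    · exact absurd (orderOf_eq_one_iff.1 (by simpa using hn)) hy
    · exact hn ▸ dvd_pow_self p n.succ_ne_zero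
  rw [orderOf_pow_of_dvd hp.out.ne_zero hd, Nat.mul_div_cancel' hd]

omit hp in
theorem sum_subgroup_eq (H : Subgroup A) (χ : A → ℂ) :
    ∑ h : H, χ h = ∑ z ∈ Finset.univ.filter (· ∈ H), χ z :=
  (Finset.sum_subtype _ (by simp) χ).symm

theorem sum_gen (hA : IsPGroup p A) (χ : A → ℂ) {y : A} (hy : y ≠ 1) :
    ∑ z ∈ Finset.univ.filter (fun z => zpowers z = zpowers y), χ z =
      ∑ h : zpowers y, χ h - ∑ h : zpowers (y ^ p), χ h := by
  rw [sum_subgroup_eq, sum_subgroup_eq, eq_sub_iff_add_eq, ← Finset.sum_union]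
  · refine Finset.sum_congr ?_ fun _ _ => rfl
    ext z
    simp only [Finset.mem_union, Finset.mem_filter, Finset.mem_univ, true_and, ← gen_iff hA hy]
    have : z ∈ zpowers (y ^ p) → z ∈ zpowers y := fun h => zpowers_le.2 (pow_mem (mem_zpowers y) p) h
    tauto
  · rw [Finset.disjoint_filter]
    intro z _ h
    exact ((gen_iff hA hy).2 h).2

theorem sum_pgroup_identity (hA : IsPGroup p A) (χ : A → ℂ) :
    ∑ y : A, ((p : ℂ) * ((Nat.card (zpowers y) : ℂ)⁻¹ * ∑ h : zpowers y, χ h) -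
      (Nat.card (zpowers (y ^ p)) : ℂ)⁻¹ * ∑ h : zpowers (y ^ p), χ h) = (p - 1) * ∑ z, χ z := by
  have hp0 : (p : ℂ) ≠ 0 := Nat.cast_ne_zero.2 hp.out.ne_zero
  have ho : ∀ y : A, (orderOf y : ℂ) ≠ 0 := fun y => Nat.cast_ne_zero.2 (orderOf_pos y).ne'
  -- weight
  let w : A → ℂ := fun y => if y = 1 then p - 1 else p * (orderOf y : ℂ)⁻¹
  have h1 : ∀ y : A, (p : ℂ) * ((Nat.card (zpowers y) : ℂ)⁻¹ * ∑ h : zpowers y, χ h) -
      (Nat.card (zpowers (y ^ p)) : ℂ)⁻¹ * ∑ h : zpowers (y ^ p), χ h =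
      ∑ z ∈ Finset.univ.filter (fun z => zpowers z = zpowers y), w z * χ z := by
    intro y
    by_cases hy : y = 1
    · subst hy
      rw [one_pow, sum_subgroup_eq, Nat.card_zpowers, orderOf_one]
      have e1 : Finset.univ.filter (fun z : A => z ∈ zpowers (1 : A)) = {1} := by ext z; simp
      have e2 : Finset.univ.filter (fun z : A => zpowers z = zpowers (1 : A)) = {1} := by ext z; simp
      rw [e1, e2]
      simp only [Finset.sum_singleton, w, if_true]
      push_cast; ring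
    · rw [Finset.sum_congr rfl (g := fun z => (p * (orderOf y : ℂ)⁻¹) * χ z), ← Finset.mul_sum,
        sum_gen hA χ hy, Nat.card_zpowers, Nat.card_zpowers, ← orderOf_pow_mul hA hy]
      · have := ho (y ^ p)
        push_cast; field_simp
      · intro z hz
        have hz := (Finset.mem_filter.1 hz).2
        have hz1 : z ≠ 1 := by
          rintro rfl
          exact hy (by simpa using hz.symm)
        simp only [w, if_neg hz1]
        rw [← Nat.card_zpowers z, hz, Nat.card_zpowers]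
  rw [Finset.sum_congr rfl fun y _ => h1 y,
    Finset.sum_comm' (t' := Finset.univ) (s' := fun z => Finset.univ.filter (fun y => zpowers y = zpowers z))
      (by intro y z; simp [eq_comm]), Finset.mul_sum]
  refine Finset.sum_congr rfl fun z _ => ?_
  rw [Finset.sum_const, nsmul_eq_mul, ← mul_assoc]
  congr 1
  by_cases hz : z = 1
  · subst hz
    have e2 : Finset.univ.filter (fun y : A => zpowers y = zpowers (1 : A)) = {1} := by ext z; simp
    rw [e2]; simp [w]
  · have := sum_gen hA (fun _ => 1) hz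
    simp only [Finset.sum_const, nsmul_eq_mul, mul_one, Finset.card_univ, ← Nat.card_eq_fintype_card,
      Nat.card_zpowers] at this
    rw [this]
    simp only [w, if_neg hz]
    rw [← orderOf_pow_mul hA hz]
    have := ho (z ^ p)
    push_cast; field_simp

end Identity

variable {G : Type*} [Group G] [Finite G] {p : ℕ} [hp : Fact p.Prime]

theorem factorization_eq_of_syl {ℓ : ℕ} [hl : Fact ℓ.Prime] {Q V : Subgroup G} (h : Syl ℓ Q V) :
    (Nat.card Q).factorization ℓ = (Nat.card V).factorization ℓ := by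
  rw [← BG.card_mul_relIndex h.le, Nat.factorization_mul Nat.card_pos.ne' relIndex_ne_zero_of_finite',
    Finsupp.add_apply, Nat.factorization_eq_zero_of_not_dvd h.not_dvd', add_zero]
where relIndex_ne_zero_of_finite' : Q.relIndex V ≠ 0 := Subgroup.index_ne_zero_of_finite

/-- The Navarro–Rizo inequality for a coprime action of a `p`-group. -/
theorem navarro_rizo {A : Type*} [Group A] [Fintype A] (hA : IsPGroup p A) (f : A →* G) {V : Subgroup G}
    (hf : ∀ a, f a ∈ 𝐍(V)) (hcop : (Nat.card V).Coprime p) :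
    (∏ y : A, Nat.card ↥(V ⊓ 𝐂((zpowers y).map f))) ^ p ≤
      Nat.card ↥(V ⊓ 𝐂((⊤ : Subgroup A).map f)) ^ ((p - 1) * Nat.card A) * Nat.card V ^ Nat.card A := by
  refine Nat.le_of_dvd (by have := Nat.card_pos (α := V); have := Nat.card_pos (α := ↥(V ⊓ 𝐂((⊤ : Subgroup A).map f))); positivity) ?_
  refine (Nat.factorization_prime_le_iff_dvd (pow_ne_zero _ (Finset.prod_ne_zero_iff.2 fun _ _ => Nat.card_pos.ne'))
    (mul_ne_zero (pow_ne_zero _ Nat.card_pos.ne') (pow_ne_zero _ Nat.card_pos.ne'))).1 fun ℓ hℓ => ?_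
  haveI := Fact.mk hℓ
  have hM : IsPGroup p ((⊤ : Subgroup A).map f) := (hA.to_subgroup ⊤).map f
  have hMV : (⊤ : Subgroup A).map f ≤ 𝐍(V) := by rintro _ ⟨a, -, rfl⟩; exact hf a
  have hc : ∀ H : Subgroup A, (Nat.card (H.map f)).Coprime (Nat.card V) := fun H =>
    ((PiGrp.p'_iff_coprime.2 hcop).coprime_pgroup ((hA.to_subgroup H).map f)).symm
  obtain ⟨Q, hQ, hQn⟩ := Syl.exists_inv (p := ℓ) hMV (hc ⊤) (Or.inl (pgroup_sol hM))
  have hcA : (Nat.card A).Coprime (Nat.card Q) := by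
    obtain ⟨n, hn⟩ := hA.exists_card_eq
    rw [hn]
    exact (Nat.Coprime.pow_right n (hcop.coprime_dvd_left (BG.card_dvd hQ.le))).symm
  obtain ⟨χ, -, hχ⟩ := Coprime.exists_character_fixed ℓ f (V := Q) (fun a => hQn ⟨a, trivial, rfl⟩) hcA
    (pgroup_sol hQ.pgroup)
  have key : ∀ H : Subgroup A, (Nat.card H : ℂ)⁻¹ * ∑ h : H, χ h =
      (Nat.card ↥(V ⊓ 𝐂(H.map f))).factorization ℓ := by
    intro H
    rw [← Char.classInner_one_right, hχ H]
    congr 1
    have hH : H.map f ≤ (⊤ : Subgroup A).map f := map_mono le_top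
    have := Coprime.not_dvd_relIndex_centralizer_of_invariant (hH.trans hMV) (hc H)
      (Or.inl (pgroup_sol ((hA.to_subgroup H).map f))) hQ.le hQ.pgroup hQ.not_dvd' (hH.trans hQn)
    refine factorization_eq_of_syl (Syl.mk' (inf_le_inf_right _ hQ.le) (pgroup_of_le hQ.pgroup inf_le_left) ?_)
    rwa [← inf_relIndex_right, ← inf_assoc, inf_eq_left.2 hQ.le] at this
  have hid := sum_pgroup_identity hA χ
  rw [Finset.sum_congr rfl fun y _ => by rw [key, key]] at hid
  have htop : ∑ z, χ z = Nat.card A * (Nat.card ↥(V ⊓ 𝐂((⊤ : Subgroup A).map f))).factorization ℓ := by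
    rw [← key ⊤, card_top, mul_inv_cancel_left₀ (Char.card_ne_zero_complex A), sum_subgroup_eq]
    simp
  rw [htop, Finset.sum_sub_distrib, ← Finset.mul_sum, sub_eq_iff_eq_add] at hid
  have h1 : ((p - 1 : ℕ) : ℂ) = p - 1 := by rw [Nat.cast_sub hp.out.one_le]; simp
  rw [← h1] at hid
  norm_cast at hid
  rw [Nat.factorization_pow, Nat.factorization_mul (pow_ne_zero _ Nat.card_pos.ne') (pow_ne_zero _ Nat.card_pos.ne'),
    Nat.factorization_pow, Nat.factorization_pow, Nat.factorization_prod fun _ _ => Nat.card_pos.ne']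
  simp only [Finsupp.smul_apply, Finsupp.add_apply, smul_eq_mul, Finsupp.finset_sum_apply]
  rw [hid, mul_assoc]
  gcongr
  rw [Nat.card_eq_fintype_card (α := A), ← smul_eq_mul, ← Finset.card_univ, ← Finset.sum_const]
  refine Finset.sum_le_sum fun y _ => ?_
  exact (Nat.factorization_le_iff_dvd Nat.card_pos.ne' Nat.card_pos.ne').2 (BG.card_dvd inf_le_left) ℓ

/-- number of `u ∈ N` centralizing `H` modulo `L` -/
noncomputable def cmod (L N H : Subgroup G) : ℕ :=
  Nat.card {u : G // u ∈ N ∧ ∀ h ∈ H, h * u * h⁻¹ * u⁻¹ ∈ L}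

/-- number of `x` with `x H x⁻¹ ≤ P L` -/
noncomputable def amod (P L H : Subgroup G) : ℕ := Nat.card {x : G // x ⋆ H ≤ P ⊔ L}

omit hp [Finite G] in
theorem cmod_eq {L N : Subgroup G} [L.Normal] (h : L ≤ N) (H : Subgroup G) :
    cmod L N H = Nat.card ↥(N.map (QuotientGroup.mk' L) ⊓ 𝐂(H.map (QuotientGroup.mk' L))) * Nat.card L := by
  rw [← Core.card_comap_mk']
  refine Nat.card_congr (Equiv.subtypeEquivRight fun u => ?_)
  rw [comap_inf, mem_inf, QuotientGroup.comap_map_mk', sup_eq_right.2 h, mem_comap, mem_cent]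
  refine and_congr_right fun _ => ⟨?_, fun hu x hx => ?_⟩
  · rintro hu _ ⟨x, hx, rfl⟩
    have := (QuotientGroup.eq_one_iff _).2 (hu x hx)
    simp only [QuotientGroup.mk_mul, QuotientGroup.mk_inv] at this
    rw [mul_inv_eq_one, mul_inv_eq_iff_eq_mul] at this
    exact this
  · refine (QuotientGroup.eq_one_iff _).1 ?_
    simp only [QuotientGroup.mk_mul, QuotientGroup.mk_inv]
    rw [mul_inv_eq_one, mul_inv_eq_iff_eq_mul]
    exact hu _ ⟨x, hx, rfl⟩

omit hp [Finite G] in
theorem cmod_conj {L N : Subgroup G} [hL : L.Normal] [hN : N.Normal] (H : Subgroup G) (x : G) :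
    cmod L N (x ⋆ H) = cmod L N H := by
  refine (Nat.card_congr ((MulAut.conj x).toEquiv.subtypeEquiv fun u => ?_)).symm
  simp only [MulEquiv.toEquiv_eq_coe, EquivLike.coe_coe, MulAut.conj_apply]
  refine and_congr ⟨fun h => hN.conj_mem _ h x, fun h => by simpa [mul_assoc] using hN.conj_mem' _ h x⟩
    ⟨?_, fun h y hy => ?_⟩
  · rintro h _ ⟨y, hy, rfl⟩
    have := hL.conj_mem _ (h y hy) x
    convert this using 1
    simp only [MulEquiv.coe_toMonoidHom, MulAut.conj_apply]
    group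
  · have := hL.conj_mem' _ (h _ (conj_mem_conj.2 hy)) x
    convert this using 1
    group

theorem sup_eq_of_pow {P L N : Subgroup G} [N.Normal] (hP : Syl p P ⊤) (h : L ≤ N)
    (hi : ∃ m, L.relIndex N = p ^ m) : P ⊔ L = P ⊔ N := by
  have h1 : Syl p (P ⊓ N) N := hP.inf le_top (by rw [normalizer_eq_top]; exact le_top)
  have h2 := h1.sup_eq h ((PiNat.p_iff Subgroup.index_ne_zero_of_finite).2 hi)
  refine le_antisymm (sup_le_sup_left h _) (sup_le le_sup_left ?_)
  rw [← h2]
  exact sup_le le_sup_right (inf_le_left.trans le_sup_left)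

theorem inf_le_of_coprime {P L N : Subgroup G} [L.Normal] (hP : IsPGroup p P)
    (hi : (L.relIndex N).Coprime p) : P ⊓ N ≤ L :=
  PiGrp.le_of_relIndex (π := {p}) (PiGrp.p_iff.2 (pgroup_of_le hP inf_le_left)) inf_le_right
    (by rw [normalizer_eq_top]; exact le_top) (PiNat.p'_iff_coprime.2 hi)

theorem card_sup_step {P L N : Subgroup G} [L.Normal] [N.Normal] (hP : IsPGroup p P) (h : L ≤ N)
    (hi : (L.relIndex N).Coprime p) :
    Nat.card ↥(P ⊔ N) * Nat.card L = Nat.card ↥(P ⊔ L) * Nat.card N := by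
  have e : P ⊓ N = P ⊓ L := le_antisymm (le_inf inf_le_left (inf_le_of_coprime hP hi)) (inf_le_inf_left _ h)
  have h1 := Core.card_sup_mul_card_inf (H := P) (N := N) (by rw [normalizer_eq_top]; exact le_top)
  have h2 := Core.card_sup_mul_card_inf (H := P) (N := L) (by rw [normalizer_eq_top]; exact le_top)
  rw [e] at h1
  apply Nat.eq_of_mul_eq_mul_right (Nat.card_pos (α := ↥(P ⊓ L)))
  calc _ = (Nat.card ↥(P ⊔ N) * Nat.card ↥(P ⊓ L)) * Nat.card L := by ring
    _ = (Nat.card ↥(P ⊔ L) * Nat.card ↥(P ⊓ L)) * Nat.card N := by rw [h1, h2]; ring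
    _ = _ := by ring

theorem card_inner {P L N K : Subgroup G} [hL : L.Normal] [hN : N.Normal] (hP : Syl p P ⊤) (h : L ≤ N)
    (hi : (L.relIndex N).Coprime p) (hK : IsPGroup p K) (hle : K ≤ P ⊔ N) :
    Nat.card {m : G // m ∈ N ∧ m ⋆ K ≤ P ⊔ L} = cmod L N K := by
  have hnN : P ≤ 𝐍(N) := by rw [normalizer_eq_top]; exact le_top
  have hnL : P ≤ 𝐍(L) := by rw [normalizer_eq_top]; exact le_top
  obtain ⟨g, hg, hgK⟩ := Syl.exists_conj_le (hP.of_le le_sup_left le_top) hK hle
  obtain ⟨y, hy, n, hn, rfl⟩ := (mem_sup_right_norm hnN).1 hg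
  have hnK : n ⋆ K ≤ P := by
    rw [← conj_conj, conj_le_iff_le_inv_conj, conj_eq_of_mem (P.inv_mem hy)] at hgK
    exact hgK
  rw [← cmod_conj K n]
  refine Nat.card_congr ((Equiv.mulRight n⁻¹).subtypeEquiv fun m => ?_)
  simp only [Equiv.coe_mulRight]
  have e : m ⋆ K = (m * n⁻¹) ⋆ (n ⋆ K) := by rw [conj_conj, inv_mul_cancel_right]
  rw [e, ← N.mul_mem_cancel_right (N.inv_mem hn)]
  generalize m * n⁻¹ = u
  generalize n ⋆ K = K' at hnK
  refine and_congr_right fun hu => ?_
  rw [conj_le_iff]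
  constructor
  · intro H k hk
    have h1 : k * u * k⁻¹ * u⁻¹ ∈ (L ⊔ P) ⊓ N := by
      refine ⟨?_, N.mul_mem (hN.conj_mem _ hu k) (N.inv_mem hu)⟩
      have := (P ⊔ L).mul_mem (mem_sup_left (hnK hk)) (H _ (K'.inv_mem hk))
      rw [sup_comm]
      show _ ∈ P ⊔ L
      simpa only [mul_assoc] using this
    rw [modular_left h hnL] at h1
    exact sup_le le_rfl (inf_le_of_coprime hP.pgroup hi) h1
  · intro H k hk
    have := (P ⊔ L).mul_mem (mem_sup_left (hnK hk)) (mem_sup_right (H _ (K'.inv_mem hk)))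
    convert this using 1
    group

theorem amod_step {P L N H : Subgroup G} [hL : L.Normal] [hN : N.Normal] (hP : Syl p P ⊤) (h : L ≤ N)
    (hi : (L.relIndex N).Coprime p) (hH : IsPGroup p H) :
    amod P L H * Nat.card N = amod P N H * cmod L N H := by
  cases nonempty_fintype G
  have e1 : amod P L H * Nat.card N =
      ∑ m ∈ Finset.univ.filter (· ∈ N), (Finset.univ.filter fun x : G => (m * x) ⋆ H ≤ P ⊔ L).card := by
    rw [Finset.sum_congr rfl (g := fun _ => amod P L H), Finset.sum_const, smul_eq_mul, mul_comm,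
      Nat.card_eq_fintype_card, Fintype.card_subtype]
    intro m _
    rw [← Fintype.card_subtype, ← Nat.card_eq_fintype_card]
    exact Nat.card_congr ((Equiv.mulLeft m).subtypeEquiv fun x => Iff.rfl)
  have e2 : amod P N H * cmod L N H =
      ∑ x : G, (Finset.univ.filter fun m : G => m ∈ N ∧ (m * x) ⋆ H ≤ P ⊔ L).card := by
    rw [amod, Nat.card_eq_fintype_card, Fintype.card_subtype, ← smul_eq_mul, ← Finset.sum_const,
      Finset.sum_filter]
    refine Finset.sum_congr rfl fun x _ => ?_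
    split_ifs with hx
    · rw [← cmod_conj H x, ← card_inner hP h hi (isPGroup_conj hH x) hx, Nat.card_eq_fintype_card,
        Fintype.card_subtype]
      simp only [conj_conj]
    · symm
      rw [Finset.card_eq_zero, Finset.filter_eq_empty_iff]
      rintro m - ⟨hm, hmx⟩
      apply hx
      rw [← conj_conj, conj_le_iff_le_inv_conj] at hmx
      refine hmx.trans ((conj_mono _ (sup_le_sup_left h P)).trans ?_)
      rw [conj_eq_of_mem (mem_sup_right (N.inv_mem hm))]
  rw [e1, e2]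
  simp only [Finset.card_eq_sum_ones]
  exact Finset.sum_comm' (by intro m x; simp)

theorem amod_top (P H : Subgroup G) : amod P ⊤ H = Nat.card G := by
  simp [amod]

end Cfsg.Lib.HH
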