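import Cfsg.Agent.Lib.HH.ModB
import Cfsg.Agent.Lib.PLocal.Stable
import Cfsg.Agent.Lib.PLocal.ElemAbRep
import Cfsg.Agent.Lib.Core.Frattini

/-!
# Bounds on the `p`-length (Hall–Higman)
-/

set_option autoImplicit false

namespace Cfsg.Lib.HH.ModB

open Module LinearMap Subgroup Cfsg.Lib.BG
open scoped commutatorElement

universe u v

variable {p : ℕ} [hp : Fact p.Prime]

section Lin

variable {K V : Type*} [Field K] [AddCommGroup V] [Module K V]

omit hp in
theorem commute_of_finrank_two (h : finrank K V = 2) {n a b : End K V} (h0 : n ≠ 0) (h2 : n ^ 2 = 0)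
    (ha : a * n = n * a) (hb : b * n = n * b) : a * b = b * a := by
  obtain ⟨v, hv⟩ : ∃ v, n v ≠ 0 := by simpa [LinearMap.ext_iff] using h0
  have h3 : n (n v) = 0 := by rw [← End.mul_apply, ← sq, h2, LinearMap.zero_apply]
  have hli : LinearIndependent K ![v, n v] := LinearIndependent.pair_iff.2 fun s t e => by
    have := congrArg n e
    rw [map_add, map_smul, map_smul, h3, smul_zero, add_zero, map_zero, smul_eq_zero] at this
    rw [this.resolve_right hv, zero_smul, zero_add, smul_eq_zero] at e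
    exact ⟨this.resolve_right hv, e.resolve_right hv⟩
  have hsp : ∀ w, ∃ s t : K, s • v + t • n v = w := fun w => Submodule.mem_span_pair.1 (by
    have := hli.span_eq_top_of_card_eq_finrank (by simp [h])
    rw [Matrix.range_cons, Matrix.range_cons, Matrix.range_empty, Set.union_empty, Set.singleton_union] at this
    exact this.ge trivial)
  have key : ∀ a : End K V, a * n = n * a → ∃ s t : K, a = s • 1 + t • n := fun a ha => by
    obtain ⟨s, t, e⟩ := hsp (a v)
    refine ⟨s, t, LinearMap.ext fun w => ?_⟩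
    obtain ⟨s', t', rfl⟩ := hsp w
    have : a (n v) = s • n v := by rw [← End.mul_apply, ha, End.mul_apply, ← e]; simp [h3]
    simp only [map_add, map_smul, this, ← e, LinearMap.add_apply, LinearMap.smul_apply, End.one_apply, h3]
    simp
  obtain ⟨s, t, rfl⟩ := key a ha
  obtain ⟨s', t', rfl⟩ := key b hb
  simp only [add_mul, mul_add, smul_mul_assoc, mul_smul_comm, one_mul, mul_one]
  module

theorem eq_zero_of_mul_pow [CharP K p] {T c X : End K V} (hT : IsUnit T) {a : K} (ha : a ≠ 0)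
    (h : T * c = c * T + a • T) (hX : X * c = c * X) {r : ℕ} (hr : r < p) (h0 : X * (T - 1) ^ r = 0) : X = 0 := by
  induction r with
  | zero => simpa using h0
  | succ r ih =>
    have := congrArg (X * ·) (sub_one_pow_mul h r)
    simp only [mul_add, ← mul_assoc, h0, hX, zero_mul, mul_assoc c, mul_zero, zero_add, mul_smul_comm] at this
    rw [eq_comm, smul_eq_zero, hT.mul_left_eq_zero] at this
    exact ih (by omega) (this.resolve_left (mul_ne_zero (mt (CharP.cast_eq_zero_iff K p _).1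
      (Nat.not_dvd_of_pos_of_lt r.succ_pos hr)) ha))

end Lin

variable {G : Type u} [Group G] [Finite G]

/-- An element of `S' ∩ Z(S)` does not act quadratically. -/
theorem eq_one_of_der {F V : Type*} [Field F] [CharP F p] [AddCommGroup V] [Module F V] [FiniteDimensional F V]
    {ρ : G →* End F V} (hρ : Function.Injective ρ) (hs : IsPSolvable p G) (h0 : pCore p G = ⊥) (hp2 : p ≠ 2)
    {S : Subgroup G} (hS : IsPGroup p S) {x : G} (hx : x ∈ ⁅S, S⁆) (hxS : S ≤ 𝐂[x]) (hxp : x ^ p = 1)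
    (h1 : (ρ x - 1) ^ 2 = 0) (h2 : ∀ b ∈ S, (ρ x - 1) * (ρ b - 1) ^ 2 = 0) : x = 1 := by
  by_contra hx1
  rw [← map_subtype_commutator] at hx
  obtain ⟨y, hy, rfl⟩ := hx
  obtain ⟨q, Q, h, hq, hqp, hQ, hQ0, h3, h4⟩ := exists_Q hs h0 hS y.2 hx1 hxS
  haveI := Fact.mk hq
  obtain ⟨K, _, _, _, V', _, _, _, φ, hφ⟩ := exists_closure (p := p) F V
  obtain ⟨σ, hσ, h1, h2⟩ : ∃ σ : G →* End K V', Function.Injective σ ∧ (σ y - 1) ^ 2 = 0 ∧
      ∀ b ∈ S, (σ y - 1) * (σ b - 1) ^ 2 = 0 := ⟨φ.toMonoidHom.comp ρ, hφ.comp hρ, by simpa using congrArg φ h1,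
    fun b hb => by simpa using congrArg φ (h2 b hb)⟩
  let α := Q.normalizerMonoidHom.comp (inclusion h)
  have hc : ∀ s g, σ.comp S.subtype s * σ.comp Q.subtype g = σ.comp Q.subtype (α s g) * σ.comp S.subtype s :=
    fun s g => (σ.map_mul _ _).symm.trans ((congrArg σ (inv_mul_cancel_right _ _).symm).trans (σ.map_mul _ _))
  obtain ⟨W, hW, h5, h6, h7⟩ := exists_nofix (card_ne_zero hQ hqp) hc (by
    obtain ⟨g, hg⟩ := (nontrivial_iff_exists_ne_one Q).1 ((nontrivial_iff_ne_bot Q).2 hQ0)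
    exact ⟨⟨g, hg.1⟩, fun e => hg.2 (hσ (e.trans σ.map_one.symm))⟩)
  obtain ⟨U, hUW, hU, h8, h9, hI⟩ := exists_sub hW h5 h6
  haveI := Submodule.nontrivial_iff_ne_bot.2 hU
  set ρ' := Representation.subrepresentation _ U h8
  set τ := Representation.subrepresentation _ U h9
  have hc' : ∀ s g, τ s * ρ' g = ρ' (α s g) * τ s := fun s g =>
    LinearMap.ext fun u => Subtype.ext (LinearMap.congr_fun (hc s g) u)
  have h10 : τ y ≠ 1 := fun e => by
    obtain ⟨v, hv⟩ := exists_ne (0 : U)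
    refine hv (Subtype.ext (h7 v (hUW v.2) fun g => congrArg (fun f : End K U => (f v : V'))
      (show ρ' g = 1 from (h4 ρ'.ker fun g => ?_).ge trivial)))
    have := hc' y g
    rw [e, one_mul, mul_one] at this
    rw [MonoidHom.mem_ker, map_mul]
    erw [← this]
    rw [← map_mul, inv_mul_cancel, map_one]
  have h11 : (τ y - 1) ^ 2 = 0 := res_pow (h9 y) h1
  have hyp : y ^ p ^ (0 + 1) = 1 := Subtype.ext (by simpa using hxp)
  rcases dich hS hc' (fun c h h' => hI.schur (by rintro (_ | _); exacts [h _, h' _])) with hE | ⟨c, l, ⟨s, hs⟩, hl⟩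
  · obtain ⟨h12, -, h13⟩ := crit' hQ hqp hE (α := α y) (n := 0) (by rw [← map_pow, hyp, map_one])
      (by rw [← map_pow, hyp, map_one]) (hc' y) (by rw [pow_zero, pow_one]; exact h3) h10 h11
    have h14 := (h13 (by have := hp.1.two_le; simp only [zero_add, pow_one] at h12 ⊢; omega)).1
    have h15 : ∀ s, τ s * (τ y - 1) = (τ y - 1) * τ s := fun s => by
      rw [mul_sub, sub_mul, ← map_mul, ← map_mul, mul_one, one_mul,
        show s * y = y * s from Subtype.ext (mem_centralizer_singleton_iff.1 (hxS s.2))]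
    refine h10 ((commutator_le.2 fun a _ b _ => ?_ : commutator S ≤ τ.ker) hy)
    rw [MonoidHom.mem_ker, commutatorElement_def, map_mul, map_mul, map_mul,
      commute_of_finrank_two h14 (sub_ne_zero.2 h10) h11 (h15 a) (h15 b), ← map_mul, ← map_mul, ← map_mul]
    simp
  have hu : ∀ s, IsUnit (τ s) := fun s => (Group.isUnit s).map τ
  let ψ : S →* Multiplicative K := MonoidHom.mk' (fun s => Multiplicative.ofAdd (l s)) fun s t => by
    have := hl (s * t)
    rw [map_mul, mul_assoc, hl, mul_add, ← mul_assoc, hl, add_mul, mul_assoc, add_assoc, add_right_inj, smul_mul_assoc,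
      mul_smul_comm, ← add_smul] at this
    exact congrArg _ (smul_left_injective K ((hu s).mul (hu t)).ne_zero this).symm
  have h12 : l y = 0 := Abelianization.commutator_subset_ker ψ hy
  refine h10 (sub_eq_zero.1 (eq_zero_of_mul_pow (r := 2) (hu s) hs (hl s) (by
    rw [mul_sub, sub_mul, hl, h12, zero_smul, add_zero, mul_one, one_mul]) (hp.1.two_le.lt_of_ne' hp2) ?_))
  have := h2 s s.2
  rw [sq] at this ⊢
  exact LinearMap.ext fun u => Subtype.ext (LinearMap.congr_fun this u)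

/-- A `p`-solvable group with trivial `p'`-core and Frattini subgroup. -/
structure Red (p : ℕ) (G : Type u) [Group G] : Prop where
  sol : IsPSolvable p G
  o : pPrimeCore p G = ⊥
  fr : frattini G = ⊥

theorem exists_red (hs : IsPSolvable p G) : ∃ (H : Type u) (_ : Group H) (_ : Finite H) (f : G →* H),
    Function.Surjective f ∧ Red p H ∧ (pCore p H).comap f = pPrimePCore p G ∧
      ∀ k, PLengthLE p k (H ⧸ pCore p H) → PLengthLE p (k + 1) G := by
  let G' := G ⧸ pPrimeCore p G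
  have h0 : pPrimeCore p G' = ⊥ := Core.pPrimeCore_quotient_pPrimeCore p G
  have hf : Function.Surjective ((QuotientGroup.mk' (frattini G')).comp (QuotientGroup.mk' (pPrimeCore p G))) :=
    (QuotientGroup.mk'_surjective _).comp (QuotientGroup.mk'_surjective _)
  have h1 : (pCore p (G' ⧸ frattini G')).comap ((QuotientGroup.mk' (frattini G')).comp
      (QuotientGroup.mk' (pPrimeCore p G))) = pPrimePCore p G := by
    rw [← comap_comap, ← Core.map_pCore_mk'_of_le_frattini le_rfl, comap_map_eq, QuotientGroup.ker_mk', sup_eq_left.2]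
    · rfl
    · simpa [h0] using Core.frattini_le_fittingSubgroup.trans (Core.fittingSubgroup_le_pCore_sup_pPrimeCore (G := G') p)
  refine ⟨_, _, inferInstance, _, hf, ⟨Core.isPSolvable_of_surjective hs hf, by
    rw [← Core.map_pPrimeCore_mk'_of_le_frattini le_rfl, h0, Subgroup.map_bot], Core.frattini_quotient_frattini _⟩, h1,
    fun k h => ?_⟩
  rw [Core.pLengthLE_iff_of_surjective (f := (QuotientGroup.mk' _).comp ((QuotientGroup.mk' (frattini G')).comp
    (QuotientGroup.mk' (pPrimeCore p G)))) ((QuotientGroup.mk'_surjective _).comp hf), ← MonoidHom.comap_ker, QuotientGroup.ker_mk', h1] at h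
  rwa [Core.pLengthLE_succ_iff, Core.pLengthLE_quotient_iff]

namespace Red

variable (h : Red p G)
include h

theorem ea : IsElementaryAbelian p (pCore p G) := by
  have := (PGroup.map_subtype_frattini_le_iff (Core.pCore_isPGroup p G)).1
    ((Core.frattiniOf_le_frattini _).trans h.fr.le)
  exact ⟨abelian_iff.2 (commutator_eq_bot_iff_le_centralizer.1 (le_bot_iff.1 this.1)), this.2⟩

theorem cent : 𝐂(pCore p G) ≤ pCore p G := Core.centralizer_pCore_le_of_isPSolvable h.sol h.o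

theorem compl : ∃ L : Subgroup G, pCore p G ⊓ L = ⊥ ∧ pCore p G ⊔ L = ⊤ :=
  haveI := h.ea.1
  Core.exists_complement_of_inf_frattini_eq_bot _ (by rw [h.fr, inf_bot_eq])

theorem coord : ∃ (n : ℕ) (e : (Fin n → ZMod p) → G) (ρ : G ⧸ pCore p G →* End (ZMod p) (Fin n → ZMod p)),
    Function.Injective ρ ∧ (∀ u, e u = 1 ↔ u = 0) ∧ (∀ x, x ∈ pCore p G ↔ ∃ u, e u = x) ∧
      (∀ u w, e (u + w) = e u * e w) ∧ (∀ (g : G) u, e (ρ g u) = g * e u * g⁻¹) ∧
      ∀ (g : G) u, e ((ρ g - 1) u) = ⁅g, e u⁆ := by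
  obtain ⟨c⟩ := PLocal.nonempty_elemAbCoord h.ea
  let ρ := Matrix.toLinAlgEquiv'.toAlgHom.toMonoidHom.comp (c.ρ.comp ((MonoidHom.id G).codRestrict _ fun x =>
    le_normalizer_of_normal (H := pCore p G) (mem_top x)))
  have hρ : ∀ x, ρ x = 1 ↔ x ∈ pCore p G := fun x => (map_eq_one_iff _ Matrix.toLinAlgEquiv'.injective).trans
    ((c.rho_eq_one_iff _).trans ⟨fun hx => h.cent hx, fun hx => abelian_iff.1 h.ea.1 hx⟩)
  refine ⟨c.n, c.e, QuotientGroup.lift _ ρ fun x => (hρ x).2, (injective_iff_map_eq_one _).2 fun x hx => ?_,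
    fun _ => c.eq_one_iff, c.mem_iff, c.map_add, fun g u => c.conj ⟨g, _⟩ u, fun g u => ?_⟩
  · obtain ⟨x, rfl⟩ := QuotientGroup.mk_surjective x
    exact (QuotientGroup.eq_one_iff x).2 ((hρ x).1 hx)
  · rw [LinearMap.sub_apply, End.one_apply, c.map_sub, commutatorElement_def]
    exact congrArg (· * _) (c.conj ⟨g, _⟩ u)

/-- Theorem B in a reduced group, in the non-exceptional case. -/
theorem thmB {F V : Type*} [Field F] [CharP F p] [AddCommGroup V] [Module F V] [FiniteDimensional F V]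
    {ρ : G ⧸ pCore p G →* End F V} (hρ : Function.Injective ρ) {x : G ⧸ pCore p G} {n : ℕ}
    (hx : orderOf x = p ^ (n + 1)) (hne : ∀ n₀ q m : ℕ, 1 ≤ n₀ → n₀ ≤ n + 1 → q.Prime → 1 ≤ m → p ^ n₀ - 1 = q ^ m →
      ∀ Q : Subgroup G, IsPGroup q Q → IsMulCommutative Q) : (ρ x - 1) ^ (p ^ (n + 1) - 1) ≠ 0 := fun e => by
  have h1 := Nat.one_lt_pow n.succ_ne_zero hp.1.one_lt
  haveI : Nontrivial V := not_subsingleton_iff_nontrivial.1 fun _ => h1.ne' (by
    rw [← hx, orderOf_eq_one_iff]; exact hρ (Subsingleton.elim _ _))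
  refine (ModB.thmB hρ (Core.isPSolvable_quotient h.sol _) (Core.pCore_quotient_pCore p G) hx e).elim (fun h => (Nat.sub_lt (pow_pos hp.1.pos _) one_pos).not_ge h) ?_
  rintro ⟨n₀, q, m, h2, h3, hq, h4, h5, h6, -⟩
  haveI := Fact.mk hq
  obtain ⟨R, hR, e, -⟩ := PLocal.exists_isPGroup_map_eq (QuotientGroup.mk'_surjective (pCore p G))
    (default : Sylow q (G ⧸ pCore p G)).2
  haveI := hne n₀ q m h2 h3 hq h4 h5 R hR
  exact h6 default (e ▸ inferInstance)

end Red

omit [Finite G] in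
theorem pow_mul_eq {M : Type*} [AddCommGroup M] [Module (ZMod p) M] {e : M → G} {T : End (ZMod p) M} {x : G}
    (h0 : e 0 = 1) (h1 : ∀ u w, e (u + w) = e u * e w) (h2 : ∀ u, e (T u) = x * e u * x⁻¹) (u : M) (k : ℕ) :
    (e u * x) ^ k = e ((∑ i ∈ Finset.range k, T ^ i) u) * x ^ k := by
  induction k with
  | zero => simp [h0]
  | succ k ih =>
    rw [pow_succ', ih, Finset.sum_range_succ', LinearMap.add_apply, add_comm, h1, pow_zero, End.one_apply]
    simp only [pow_succ', ← Finset.mul_sum, End.mul_apply, h2]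
    group

theorem exists_lift {H : Type*} [Group H] {f : G →* H} (hf : Function.Surjective f) {x : H} {k : ℕ}
    (hx : x ^ p ^ k = 1) : ∃ y, f y = x ∧ ∃ l, y ^ p ^ l = 1 := by
  obtain ⟨R, hR, e, -⟩ := PLocal.exists_isPGroup_map_eq hf (Q := zpowers x) fun y => ⟨k, Subtype.ext
    (orderOf_dvd_iff_pow_eq_one.1 ((orderOf_dvd_of_mem_zpowers y.2).trans (orderOf_dvd_of_pow_eq_one hx)))⟩
  obtain ⟨y, hy, e⟩ := e.ge (mem_zpowers x)
  exact ⟨y, e, (hR ⟨y, hy⟩).imp fun _ => congrArg Subtype.val⟩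

/-- The `p`-length is bounded by the exponent, in the non-exceptional case. -/
theorem pLength_le_exp (k : ℕ) : ∀ (G : Type u) [Group G] [Finite G], IsPSolvable p G →
    (∀ n₀ q m : ℕ, 1 ≤ n₀ → n₀ ≤ k → q.Prime → 1 ≤ m → p ^ n₀ - 1 = q ^ m →
      ∀ Q : Subgroup G, IsPGroup q Q → IsMulCommutative Q) →
    (∀ (x : G) (l : ℕ), x ^ p ^ l = 1 → x ^ p ^ k = 1) → PLengthLE p k G := by
  induction k with
  | zero =>
    refine fun G _ _ _ _ h => Core.pLengthLE_zero_iff.2 (Core.coprime_iff_not_dvd.2 fun e => ?_)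
    obtain ⟨x, hx⟩ := exists_prime_orderOf_dvd_card' p e
    have := h x 1 (by rw [pow_one, ← hx, pow_orderOf_eq_one])
    rw [pow_zero, pow_one] at this
    exact hp.1.one_lt.ne (by rw [← hx, this, orderOf_one])
  | succ k ih =>
    intro G _ _ hs hne he
    have key : ∀ {H : Type u} [Group H] (f : G →* H), Function.Surjective f → ∀ n₀ q m : ℕ, 1 ≤ n₀ → n₀ ≤ k + 1 →
        q.Prime → 1 ≤ m → p ^ n₀ - 1 = q ^ m → ∀ Q : Subgroup H, IsPGroup q Q → IsMulCommutative Q :=
      fun f hf n₀ q m h1 h2 hq h3 h4 Q hQ => by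
        haveI := Fact.mk hq
        obtain ⟨R, hR, e, -⟩ := PLocal.exists_isPGroup_map_eq hf hQ
        haveI := hne n₀ q m h1 h2 hq h3 h4 R hR
        exact e ▸ inferInstance
    obtain ⟨H, _, _, f, hf, hR, -, h⟩ := exists_red hs
    have he' : ∀ (x : H) (l : ℕ), x ^ p ^ l = 1 → x ^ p ^ (k + 1) = 1 := fun x l hx => by
      obtain ⟨y, rfl, l, hy⟩ := exists_lift hf hx
      rw [← map_pow, he y l hy, map_one]
    refine h k (ih _ (Core.isPSolvable_quotient hR.sol _) (fun n₀ q m h1 h2 => key ((QuotientGroup.mk' _).comp f)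
      ((QuotientGroup.mk'_surjective _).comp hf) n₀ q m h1 (h2.trans k.le_succ)) fun x l hx => by_contra fun e => ?_)
    obtain ⟨y, rfl, l, hy⟩ := exists_lift (QuotientGroup.mk'_surjective _) hx
    obtain ⟨n, e, ρ, h1, h2, h3, h4, h5, -⟩ := hR.coord
    refine hR.thmB h1 (orderOf_eq_prime_pow ‹_› (by rw [← map_pow, he' y l hy, map_one])) (key f hf)
      (LinearMap.ext fun u => (h2 _).1 ?_)
    have h6 := pow_mul_eq ((h2 0).2 rfl) h4 (h5 y) u (p ^ (k + 1))
    rw [he' y l hy, mul_one, geom_sum_pow (ZMod p)] at h6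
    exact h6.symm.trans (he' _ (k + 1 + 1) (by rw [pow_succ, pow_mul, h6]; exact hR.ea.2 _ ((h3 _).2 ⟨_, rfl⟩)))

/-- The derived series of a subgroup. -/
def dS : ℕ → Subgroup G → Subgroup G
  | 0, H => H
  | n + 1, H => ⁅dS n H, dS n H⁆

omit [Finite G] hp

theorem map_dS {G' : Type u} [Group G'] (f : G →* G') (H : Subgroup G) : ∀ n, (dS n H).map f = dS n (H.map f)
  | 0 => rfl
  | n + 1 => by rw [dS, map_commutator, map_dS f H n, dS]

theorem dS_top : ∀ n, dS n (⊤ : Subgroup G) = derivedSeries G n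
  | 0 => rfl
  | n + 1 => by rw [dS, dS_top n, derivedSeries_succ]

theorem map_derivedSeries (H : Subgroup G) (n : ℕ) : (derivedSeries H n).map H.subtype = dS n H := by
  rw [← dS_top, map_dS, ← MonoidHom.range_eq_map, range_subtype]

theorem dS_mono {H K : Subgroup G} (h : H ≤ K) : ∀ n, dS n H ≤ dS n K
  | 0 => h
  | n + 1 => commutator_mono (dS_mono h n) (dS_mono h n)

theorem dS_le (H : Subgroup G) : ∀ n, dS n H ≤ H
  | 0 => le_rfl
  | n + 1 => (comm_le_left (le_norm _)).trans (dS_le H n)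

theorem norm_dS {A H : Subgroup G} (h : A ≤ 𝐍(H)) : ∀ n, A ≤ 𝐍(dS n H)
  | 0 => h
  | n + 1 => norm_der (norm_dS h n)

theorem dS_add (H : Subgroup G) (m : ℕ) : ∀ n, dS (m + n) H = dS n (dS m H)
  | 0 => rfl
  | n + 1 => by rw [← add_assoc, dS, dS_add H m n, dS]

variable [Finite G] [hp : Fact p.Prime]

theorem Red.der_le (h : Red p G) (hp2 : p ≠ 2) {B : Subgroup G} (hB : IsPGroup p B) (hn : pCore p G ≤ 𝐍(B))
    (hA : ⁅⁅B, B⁆, ⁅B, B⁆⁆ = ⊥) : ⁅B, B⁆ ≤ pCore p G := by
  obtain ⟨n, e, ρ, h1, h2, h3, -, -, h5⟩ := h.coord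
  let π := QuotientGroup.mk' (pCore p G)
  rw [← QuotientGroup.ker_mk' (pCore p G), ← Subgroup.map_eq_bot_iff, map_commutator]
  by_contra h6
  have hS := hB.map π
  obtain ⟨x, hx⟩ := exists_prime_orderOf_dvd_card' p (pgroup_dvd_card (hS.to_le (inf_le_left.trans
    (comm_le_left (le_norm _)))) (nil_meet_center (pgroup_nil hS) (comm_le_left (le_norm _)) (left_norm_comm _ _) h6))
  rw [← orderOf_coe] at hx
  obtain ⟨x, hx1, hx2⟩ := x
  obtain ⟨y, hy, rfl⟩ := (map_commutator B B π).ge hx1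
  have h7 : ∀ {A : Subgroup G}, pCore p G ≤ 𝐍(A) → ∀ a ∈ A, ∀ u, e ((ρ a - 1) u) ∈ A := fun hA a ha u => by
    rw [h5, commutatorElement_def, mul_assoc, mul_assoc, ← mul_assoc (e u)]
    exact mul_mem ha (conj_mem_of_norm (hA ((h3 _).2 ⟨u, rfl⟩)) (inv_mem ha))
  have h8 : ∀ u, e u ∈ ⁅B, B⁆ → (ρ y - 1) u = 0 := fun u hu => (h2 _).1 (by
    rw [h5]; exact hA.le (commutator_mem_commutator hy hu))
  refine hp.1.one_lt.ne' (hx.symm.trans (orderOf_eq_one_iff.2 (eq_one_of_der h1 (Core.isPSolvable_quotient h.sol _)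
    (Core.pCore_quotient_pCore p G) hp2 hS hx1 ((cent_symm (zpowers_le_of_mem hx2)).trans (cent_zpowers _).le)
    (orderOf_dvd_iff_pow_eq_one.1 hx.dvd) (by rw [sq]; exact LinearMap.ext fun u => h8 _ (h7 (norm_der hn) y hy u)) ?_)))
  rintro _ ⟨b, hb, rfl⟩
  rw [sq]
  exact LinearMap.ext fun u => h8 _ ((h5 b _).symm ▸ commutator_mem_commutator hb (h7 hn b hb u))

/-- For odd `p` the `p`-length is bounded by the derived length of a Sylow `p`-subgroup. -/
theorem pLength_le_der (hp2 : p ≠ 2) (d : ℕ) : ∀ (G : Type u) [Group G] [Finite G], IsPSolvable p G →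
    (∀ P : Subgroup G, IsPGroup p P → dS d P = ⊥) → PLengthLE p d G := by
  induction d with
  | zero =>
    refine fun G _ _ _ h => Core.pLengthLE_zero_iff.2 (Core.coprime_iff_not_dvd.2 fun e => ?_)
    obtain ⟨X, -, hX⟩ := exists_card_eq_prime (A := (⊤ : Subgroup G)) hp.1 (by rwa [card_top])
    exact hp.1.one_lt.ne' (hX.symm.trans (card_eq_one.2 (h X (IsPGroup.of_card (hX.trans (pow_one p).symm)))))
  | succ d ih =>
    intro G _ _ hs hd
    obtain ⟨H, _, _, f, hf, hR, -, h⟩ := exists_red hs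
    refine h d (ih _ (Core.isPSolvable_quotient hR.sol _) fun P hP => ?_)
    obtain ⟨R, h1, rfl, -⟩ := PLocal.exists_isPGroup_map_eq (QuotientGroup.mk'_surjective _) hP
    have h2 := IsPGroup.to_sup_of_normal_left (Core.pCore_isPGroup p H) h1
    obtain ⟨S, h3, h4, -⟩ := PLocal.exists_isPGroup_map_eq hf h2
    have h5 : dS (d + 1) (pCore p H ⊔ R) = ⊥ := by rw [← h4, ← map_dS, hd S h3, Subgroup.map_bot]
    rw [← map_dS, Subgroup.map_eq_bot_iff, QuotientGroup.ker_mk']
    refine (dS_mono (le_sup_right : R ≤ pCore p H ⊔ R) d).trans ?_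
    rcases d with _ | d
    · exact (cent_symm (le_sup_left.trans (commutator_eq_bot_iff_le_centralizer.1 h5))).trans hR.cent
    · exact hR.der_le hp2 (h2.to_le (dS_le _ d)) (norm_dS (le_norm_of_le le_sup_left) d) h5

end Cfsg.Lib.HH.ModB
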