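import Cfsg.Agent.Lib.HH.Refl

/-!
# `2`-groups generated by reflections which are squares
-/

set_option autoImplicit false

namespace Cfsg.Lib.HH.Two

open Subgroup Cfsg.Lib.BG Cfsg.Lib.PGroup
open scoped Cfsg.Lib.Transfer commutatorElement

/-- Squares in a group generated by involutions whose commutators are central. -/
theorem sq_central {G : Type*} [Group G] {T : Set G} (h1 : ∀ t ∈ T, t * t = 1)
    (h2 : ∀ t ∈ T, ∀ t' ∈ T, t * (t' * t * t'⁻¹) ∈ 𝐂(closure T)) {u : G} (hu : u ∈ closure T) :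
    u * u ∈ 𝐂(closure T) ∧ u * u * (u * u) = 1 := by
  set A := closure T
  set Z := omegaOne 2 𝐙(A)
  have hZ : ∀ z, z ∈ Z ↔ z ∈ 𝐙(A) ∧ z ^ 2 = 1 := fun z => mem_omegaOne_iff_of_isMulCommutative (abelian_center A)
  have hn : A ≤ 𝐍(Z) := norm_Ohm1 (norm_center (le_norm A)) 2
  have h3 : A ≤ commStab Z T := (closure_le _).2 fun t ht => ⟨hn (subset_closure ht), fun t' ht' => by
    have e : ⁅t, t'⁆ = t * (t' * t * t'⁻¹) := by
      rw [commutatorElement_def, inv_eq_of_mul_eq_one_right (h1 t ht)]; group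
    have hc := h2 t ht t' ht'
    rw [hZ, e]
    have m : ∀ t ∈ T, t ∈ A := fun t ht => Subgroup.subset_closure ht
    refine ⟨⟨mul_mem (m t ht) (mul_mem (mul_mem (m t' ht') (m t ht)) (A.inv_mem (m t' ht'))), hc⟩, ?_⟩
    have h3 := mem_cent.1 hc t (m t ht)
    rw [mul_assoc t, mul_right_inj] at h3
    rw [sq]
    nth_rewrite 1 [h3]
    rw [mul_assoc _ t, ← mul_assoc t, h1 t ht, one_mul, show t' * t * t'⁻¹ * (t' * t * t'⁻¹) = t' * (t * t) * t'⁻¹ by
      group, h1 t ht, mul_one, mul_inv_cancel]⟩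
  have h4 : A ≤ commStab Z A := (closure_le _).2 fun t ht => ⟨hn (subset_closure ht), fun a ha => by
    rw [← commutatorElement_inv]; exact inv_mem ((h3 ha).2 t ht)⟩
  have h5 : u * u ∈ Z := by
    induction hu using closure_induction with
    | mem t ht => rw [h1 t ht]; exact one_mem _
    | one => simp
    | mul a b ha hb iha ihb =>
      rw [show a * b * (a * b) = a * ⁅b, a⁆ * a⁻¹ * (a * a) * (b * b) by rw [commutatorElement_def]; group]
      exact mul_mem (mul_mem (conj_mem_of_norm (hn ha) ((h4 hb).2 a ha)) iha) ihb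
    | inv a _ ih => rw [← mul_inv_rev]; exact inv_mem ih
  exact ⟨((hZ _).1 h5).1.2, (sq _).symm.trans ((hZ _).1 h5).2⟩

variable {R : Type*} [Ring R] [Invertible (2 : R)] {Γ A : Subgroup Rˣ} {s t t' x y a u : Rˣ}

/-- A reflection acts on a family of commuting reflections as a transposition. -/
theorem Refl.transp (h : Refl Γ t) (hx : Refl Γ x) (hy : Refl Γ y) (h1 : t * x * t⁻¹ ≠ x) (h2 : y ≠ x)
    (h3 : y ≠ t * x * t⁻¹) (c1 : t * x * t⁻¹ * x = x * (t * x * t⁻¹)) (c2 : x * y = y * x)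
    (c3 : t * x * t⁻¹ * y = y * (t * x * t⁻¹)) : t * y * t⁻¹ = y := by
  have hx' := hx.conj h.mem
  have c4 : x * (t * x * t⁻¹) * t = t * (x * (t * x * t⁻¹)) := by
    nth_rewrite 1 [← c1]; simp only [h.inv_eq, mul_assoc]
  obtain ⟨ε, h4⟩ := h.sgn (mul_mem hx.mem hx'.mem) c4 (by
    rw [mul_assoc, ← mul_assoc _ x, c1, mul_assoc x, hx'.sq, mul_one, hx.sq])
  have c5 : x * (t * x * t⁻¹) * x = x * (x * (t * x * t⁻¹)) := by rw [mul_assoc, c1]
  have c6 : x * (t * x * t⁻¹) * y = y * (x * (t * x * t⁻¹)) := by rw [mul_assoc, c3, ← mul_assoc, c2, mul_assoc]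
  rcases Int.units_eq_one_or ε with rfl | rfl
  · exact absurd (mul_inv_eq_iff_eq_mul.2 (Ac.comm_of_ne h4 (hx.self.mul (hx.orth hx' c1 h1)) c4 c5)) h1
  · exact mul_inv_eq_iff_eq_mul.2 (Ac.comm_of_ne ((hy.orth hx c2 h2.symm).mul (hy.orth hx' c3 h3.symm)) h4 c6 c4).symm

/-- `s` is a square root of a reflection, normalizing `A` and generating a `2`-group with it. -/
structure Root (Γ A : Subgroup Rˣ) (s : Rˣ) : Prop where
  le : A ≤ Γ
  mem : s ∈ Γ
  norm : s ∈ 𝐍(A)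
  pg : IsPGroup 2 ↥(A ⊔ zpowers s)
  refl : Refl Γ (s * s)

/-- The `A`-class of `t`. -/
def Om (A : Subgroup Rˣ) (t x : Rˣ) : Prop := ∃ a ∈ A, a * t * a⁻¹ = x

omit [Invertible (2 : R)] in
theorem Om.self : Om A t t := ⟨1, one_mem _, by simp⟩

omit [Invertible (2 : R)] in
theorem Om.conj (h : Om A t x) (ha : a ∈ A) : Om A t (a * x * a⁻¹) := by
  obtain ⟨b, hb, rfl⟩ := h
  exact ⟨a * b, mul_mem ha hb, by group⟩

namespace Root

variable (h : Root Γ A s)
include h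

omit [Invertible (2 : R)] in
theorem mono {B : Subgroup Rˣ} (hB : B ≤ A) (hn : s ∈ 𝐍(B)) : Root Γ B s :=
  ⟨hB.trans h.le, h.mem, hn, h.pg.to_le (sup_le_sup_right hB _), h.refl⟩

omit [Invertible (2 : R)] in
theorem om_refl (hx : Om A (s * s) x) : Refl Γ x := by
  obtain ⟨b, hb, rfl⟩ := hx
  exact h.refl.conj (h.le hb)

omit [Invertible (2 : R)] in
theorem om_s (hx : Om A (s * s) x) : Om A (s * s) (s * x * s⁻¹) := by
  obtain ⟨b, hb, rfl⟩ := hx
  exact ⟨_, conj_mem_of_norm h.norm hb, by group⟩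

variable [Finite R]

theorem comm (hx : Om A (s * s) x) (hy : Om A (s * s) y) : x * y = y * x := by
  have hle : A ⊔ zpowers s ≤ Γ := sup_le h.le (zpowers_le.2 h.mem)
  have key : ∀ x, Om A (s * s) x → ∃ r ∈ A ⊔ zpowers s, r * r = x ∧ Refl (A ⊔ zpowers s) (r * r) := fun x hx => by
    have h1 := h.om_refl hx
    obtain ⟨b, hb, rfl⟩ := hx
    have h2 : b * s * b⁻¹ ∈ A ⊔ zpowers s := mul_mem (mul_mem (mem_sup_left hb) (mem_sup_right (mem_zpowers s)))
      (mem_sup_left (inv_mem hb))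
    have e : b * s * b⁻¹ * (b * s * b⁻¹) = b * (s * s) * b⁻¹ := by group
    exact ⟨_, h2, e, (e ▸ h1).mono hle (mul_mem h2 h2)⟩
  obtain ⟨r, h1, rfl, h2⟩ := key x hx
  obtain ⟨r', h3, rfl, h4⟩ := key y hy
  exact comm_of_sq _ _ rfl h.pg r h1 r' h3 h2 h4

theorem orth (hx : Om A (s * s) x) (hy : Om A (s * s) y) (hne : x ≠ y) : Ac x 1 y :=
  (h.om_refl hy).orth (h.om_refl hx) (h.comm hx hy) hne

theorem transp (ht : Refl Γ t) (hA : t ∈ A) (hx : Om A (s * s) x) (hy : Om A (s * s) y) (h1 : t * x * t⁻¹ ≠ x)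
    (h2 : y ≠ x) (h3 : y ≠ t * x * t⁻¹) : t * y * t⁻¹ = y :=
  ht.transp (h.om_refl hx) (h.om_refl hy) h1 h2 h3 (h.comm (hx.conj hA) hx) (h.comm hx hy) (h.comm (hx.conj hA) hy)

theorem three (ht : Refl Γ t) (hA : t ∈ A) (ht' : t' = 1 ∨ Refl Γ t') (hA' : t' ∈ A) (hx : Om A (s * s) x)
    (h1 : t * x * t⁻¹ ≠ x) : t' * x * t'⁻¹ = x ∨ t' * x * t'⁻¹ = t * x * t⁻¹ := by
  by_contra! e
  replace ht' := ht'.resolve_left fun e' => e.1 (by simp [e'])
  have h2 := h.transp ht' hA' hx (hx.conj hA) e.1 h1 e.2.symm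
  have h3 := h.transp ht hA hx (hx.conj hA') h1 e.1 e.2
  have h4 : ∀ {r : Rˣ}, Refl Γ r → r * (r * x * r⁻¹) * r⁻¹ = x := fun {r} hr => by
    rw [show r * (r * x * r⁻¹) * r⁻¹ = r * r * x * (r * r)⁻¹ by group, hr.sq]; simp
  have h5 : t * t' * x * (t * t')⁻¹ = t' * x * t'⁻¹ := by rw [← h3]; group
  have h6 : (t * t') ^ 3 ∈ 𝐂[x] := by
    rw [mem_cent1, ← mul_inv_eq_iff_eq_mul, show (t * t') ^ 3 * x * ((t * t') ^ 3)⁻¹ = t * (t' * (t * (t' *
      (t * t' * x * (t * t')⁻¹) * t'⁻¹) * t⁻¹) * t'⁻¹) * t⁻¹ by simp only [pow_succ]; group, h5, h4 ht', h2, h4 ht]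
  obtain ⟨k, hk⟩ := h.pg ⟨t * t', mem_sup_left (mul_mem hA hA')⟩
  have h7 : t * t' ∈ zpowers ((t * t') ^ 3) := mem_zpowers_pow_iff.2 (Nat.Coprime.coprime_dvd_right
    (orderOf_dvd_of_pow_eq_one (congrArg Subtype.val hk)) (Nat.Coprime.pow_right k (by norm_num)))
  exact e.1 (h5.symm.trans (mul_inv_eq_iff_eq_mul.2 (mem_cent1.1 (zpowers_le.2 h6 h7))))

theorem central {T : Set Rˣ} (hA : A = closure T) (hT : ∀ t ∈ T, t = 1 ∨ Refl Γ t) (ht : t ∈ T) :
    s * s * (t * (s * s) * t⁻¹) ∈ 𝐂(A) := by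
  by_cases e : t * (s * s) * t⁻¹ = s * s
  · rw [e, h.refl.sq]; exact one_mem _
  have h0 : ∀ t ∈ T, t ∈ A := fun t ht => hA ▸ subset_closure ht
  have r := (hT t ht).resolve_left fun e' => e (by simp [e'])
  refine le_cent1_iff.1 (hA.le.trans ((closure_le _).2 fun t' ht' => mem_cent1.2 (mul_inv_eq_iff_eq_mul.1 ?_)))
  have h1 : t * (t * (s * s) * t⁻¹) * t⁻¹ = s * s := by
    rw [show t * (t * (s * s) * t⁻¹) * t⁻¹ = t * t * (s * s) * (t * t)⁻¹ by group, r.sq]; simp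
  have h2 := h.three r (h0 t ht) (hT t' ht') (h0 t' ht') Om.self e
  have h3 := h.three r (h0 t ht) (hT t' ht') (h0 t' ht') (Om.self.conj (h0 t ht)) (by rw [h1]; exact Ne.symm e)
  rw [h1] at h3
  rw [show t' * (s * s * (t * (s * s) * t⁻¹)) * t'⁻¹ = t' * (s * s) * t'⁻¹ * (t' * (t * (s * s) * t⁻¹) * t'⁻¹) by group]
  rcases h2 with h2 | h2 <;> rcases h3 with h3 | h3
  · rw [h2, h3]
  · exact absurd (by simpa using h3.trans h2.symm) e
  · exact absurd (by simpa using h3.trans h2.symm) e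
  · rw [h2, h3]; exact h.comm (Om.self.conj (h0 t ht)) Om.self

theorem two (hy : Om A (s * s) y) (h1 : y ≠ s * s) (hc : s * s * y ∈ 𝐂(A)) (hx : Om A (s * s) x) :
    x = s * s ∨ x = y := by
  by_contra! e
  obtain ⟨a, ha, rfl⟩ := id hx
  have h2 := (h.refl.self.mul (h.orth hy Om.self h1)).conj a
  rw [mem_cent.1 hc a ha, mul_inv_cancel_right] at h2
  exact Ac.absurd (h.om_refl hx).ne ((h.orth Om.self hx e.1.symm).mul (h.orth hy hx e.2.symm)) h2

theorem two_sq (ha : a ∈ A) (h1 : a * (s * s) * a⁻¹ ≠ s * s) (hc : s * s * (a * (s * s) * a⁻¹) ∈ 𝐂(A)) (hu : u ∈ A)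
    (h2 : u * u ∈ 𝐂(A)) (h3 : u * u * (u * u) = 1) (hw : u * s * (u * s) = 1 ∨ Refl Γ (u * s * (u * s))) :
    u * s * (u * s) = s * s ∨ u * s * (u * s) = a * (s * s) * a⁻¹ := by
  have hy : Om A (s * s) (a * (s * s) * a⁻¹) := Om.self.conj ha
  have hc1 : s * (s * s) = s * s * s := (mul_assoc _ _ _).symm
  have h4 : u * u * (s * s) = s * s * (u * u) := by
    rcases h.two hy h1 hc (Om.self.conj (mul_mem hu hu)) with e | e
    · exact mul_inv_eq_iff_eq_mul.1 e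
    · refine absurd ?_ h1
      rcases h.two hy h1 hc (Om.self.conj hu) with e' | e'
      · rw [← e, show u * u * (s * s) * (u * u)⁻¹ = u * (u * (s * s) * u⁻¹) * u⁻¹ by group, e', e']
      · rw [show u * u * (s * s) * (u * u)⁻¹ = u * (u * (s * s) * u⁻¹) * u⁻¹ by group, ← e'] at e
        rw [← e']; simpa using e
  obtain ⟨δ, h5⟩ := h.refl.sgn (h.le (mul_mem hu hu)) h4 h3
  have h6 := h5.conj a
  rw [mem_cent.1 h2 a ha, mul_inv_cancel_right] at h6
  generalize a * (s * s) * a⁻¹ = y at *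
  have ry := h.om_refl hy
  have h7 : s * y = y * s := mul_inv_eq_iff_eq_mul.1 ((h.two hy h1 hc (h.om_s hy)).resolve_left fun e => h1 (by
    rw [← mul_right_inj s, ← mul_left_inj s⁻¹, e, hc1, mul_inv_cancel_right]))
  obtain ⟨ε, h8⟩ := ry.r1 s h.mem h7 (h.orth Om.self hy h1.symm)
  rcases h.two hy h1 hc (Om.self.conj hu) with e | e
  · have e' : u * y = y * u := mul_inv_eq_iff_eq_mul.1 ((h.two hy h1 hc (hy.conj hu)).resolve_left fun e' => h1 (by
      simpa using e'.trans e.symm))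
    replace e := mul_inv_eq_iff_eq_mul.1 e
    have c1 : ∀ {x : Rˣ}, u * x = x * u → s * x = x * s → u * s * (u * s) * x = x * (u * s * (u * s)) :=
      fun {x} a b => ((Commute.mul_left a b).mul_left (Commute.mul_left a b)).eq
    rcases Int.units_eq_one_or δ with rfl | rfl
    · obtain ⟨η, h9⟩ := h.refl.r1 u (h.le hu) e h5
      refine .inl (h.refl.eq_of_neg hw (c1 e hc1) (((h9.mul (h9.conj' hc1)).mul h.refl.self).of_eq (by group) ?_))
      rw [Int.units_mul_self, one_mul]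
    · refine .inr (ry.eq_of_neg hw (c1 e' h7) (((h6.mul (h8.conj' (a := u⁻¹) (Commute.inv_left e').eq)).mul h8).of_eq
        (by group) ?_))
      rw [mul_assoc, Int.units_mul_self, mul_one]
  · have h9 := h8.conj u
    rw [← e, show u * (u * (s * s) * u⁻¹) * u⁻¹ = u * u * (s * s) * (u * u)⁻¹ by group, h4, mul_inv_cancel_right] at h9
    have h10 := ((h9.mul h5).mul ((h9.mul h5).conj' hc1)).mul h.refl.self
    rw [Int.units_mul_self, one_mul] at h10
    have h11 : u * s * (u * s) * (u * s * (u * s)) = 1 := hw.elim (fun e => by rw [e, one_mul]) Refl.sq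
    exact (Ac.absurd h.refl.ne (Ac.one _) (h10.of_eq (h11 ▸ by group) rfl)).elim

end Root

theorem step2b (hs : s ∈ Γ) (hu : u ∈ Γ) (h1 : u * u = 1) (h2 : u * (s * s) = s * s * u)
    (h3 : u * (u * s * (u * s)) = u * s * (u * s) * u) (h4 : s * s = 1 ∨ Refl Γ (s * s))
    (h5 : u * s * (u * s) = 1 ∨ Refl Γ (u * s * (u * s))) : u * s * (u * s) = s * s := by
  have key : ∀ s ∈ Γ, u * (s * s) = s * s * u → Refl Γ (s * s) → u * s * (u * s) = 1 ∨ Refl Γ (u * s * (u * s)) →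
      u * s * (u * s) = s * s := fun s hs h2 h4 h5 => by
    obtain ⟨η, h6⟩ := h4.sgn hu h2 h1
    have hc1 : s * (s * s) = s * s * s := (mul_assoc _ _ _).symm
    refine h4.eq_of_neg h5 ((Commute.mul_left h2 hc1).mul_left (Commute.mul_left h2 hc1)).eq
      (((h6.mul (h6.conj' hc1)).mul h4.self).of_eq (by group) ?_)
    rw [Int.units_mul_self, one_mul]
  rcases h4 with h4 | h4
  · rcases h5 with h5 | h5
    · rw [h4, h5]
    · have e : u * (u * s) = s := by rw [← mul_assoc, h1, one_mul]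
      have := key _ (mul_mem hu hs) h3 h5 (by rw [e]; exact .inl h4)
      rw [e] at this; exact this.symm
  · exact key s hs h2 h4 h5

theorem step2a [Finite R] {T : Set Rˣ} (hT : ∀ t ∈ T, t = 1 ∨ ∃ s, s * s = t ∧ Root Γ (closure T) s)
    (hle : closure T ≤ Γ) (hs : s ∈ Γ) (hn : s ∈ 𝐍(closure T)) (hp : IsPGroup 2 ↥(closure T ⊔ zpowers s))
    (hu : u ∈ closure T) (h1 : s * s ∈ T) (h2 : u * s * (u * s) ∈ T) : u * s * (u * s) * (s * s) ∈ 𝐂(closure T) := by
  have hT' : ∀ t ∈ T, t = 1 ∨ Refl Γ t := fun t ht => (hT t ht).imp_right fun ⟨s, e, h⟩ => e ▸ h.refl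
  have hq : ∀ t ∈ T, t * t = 1 := fun t ht => (hT' t ht).elim (fun e => by rw [e, one_mul]) Refl.sq
  have hsq := fun u hu => sq_central hq (u := u) (fun t ht t' ht' => by
    rcases hT t ht with rfl | ⟨s, rfl, h⟩
    · simp
    · exact h.central rfl hT' ht') hu
  have key : ∀ s ∈ Γ, s ∈ 𝐍(closure T) → IsPGroup 2 ↥(closure T ⊔ zpowers s) → ∀ u ∈ closure T, s * s ∈ T →
      u * s * (u * s) ∈ T → s * s ∉ 𝐂(closure T) → s * s * (u * s * (u * s)) ∈ 𝐂(closure T) :=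
    fun s hs hn hp u hu h1 h2 h3 => by
      have h : Root Γ (closure T) s := ⟨hle, hs, hn, hp, (hT' _ h1).resolve_left fun e => h3 (e ▸ one_mem _)⟩
      obtain ⟨a, ha, h4⟩ : ∃ a ∈ T, a * (s * s) * a⁻¹ ≠ s * s := by
        by_contra! e
        exact h3 (le_cent1_iff.1 ((closure_le _).2 fun a ha => mem_cent1.2 (mul_inv_eq_iff_eq_mul.1 (e a ha))))
      have h5 := h.central rfl hT' ha
      rcases h.two_sq (subset_closure ha) h4 h5 hu (hsq u hu).1 (hsq u hu).2 (hT' _ h2) with e | e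
      · rw [e, hq _ h1]; exact one_mem _
      · rwa [e]
  by_cases h3 : s * s ∈ 𝐂(closure T)
  · by_cases h4 : u * s * (u * s) ∈ 𝐂(closure T)
    · exact mul_mem h4 h3
    · simpa using key _ (mul_mem (hle hu) hs) (mul_mem (le_norm _ hu) hn) (hp.to_le (sup_le le_sup_left (zpowers_le.2
        (mul_mem (mem_sup_left hu) (mem_sup_right (mem_zpowers s)))))) _ (inv_mem hu) h2 (by simpa using h1) h4
  · have := inv_mem (key s hs hn hp u hu h1 h2 h3)
    rwa [mul_inv_rev, inv_eq_of_mul_eq_one_right (hq _ h1), inv_eq_of_mul_eq_one_right (hq _ h2)] at this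

end Cfsg.Lib.HH.Two
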