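import Cfsg.Agent.Lib.HH.Loc3

/-!
# Iterated commutators of a module in characteristic `2` with the derived series of a `2`-group
-/

set_option autoImplicit false

namespace Cfsg.Lib.HH.Two

open Module LinearMap Subgroup Cfsg.Lib.BG Cfsg.Lib.PGroup Cfsg.Lib.HH.ModB
open scoped Cfsg.Lib.Transfer commutatorElement

universe u v

section Kil

variable {K H V : Type*} [Field K] [Group H] [AddCommGroup V] [Module K V] {ρ : H →* End K V}

/-- The vectors `v` with `[v, S₁, …, S_k] ≤ C`. -/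
def kil (ρ : H →* End K V) (C : Submodule K V) : List (Subgroup H) → Submodule K V
  | [] => C
  | S :: L =>
    { carrier := {v | ∀ s ∈ S, ρ s v - v ∈ kil ρ C L}
      add_mem' := fun {a b} ha hb s hs => by
        rw [map_add, add_sub_add_comm]; exact add_mem (ha s hs) (hb s hs)
      zero_mem' := fun s _ => by simp
      smul_mem' := fun c v hv s hs => by rw [map_smul, ← smul_sub]; exact Submodule.smul_mem _ c (hv s hs) }

variable {C U : Submodule K V} {S T : Subgroup H} {L : List (Subgroup H)}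

theorem mem_kil {v : V} : v ∈ kil ρ C (S :: L) ↔ ∀ s ∈ S, ρ s v - v ∈ kil ρ C L := Iff.rfl

/-- The list `S, S', S'', …` of length `j`. -/
def ch : ℕ → Subgroup H → List (Subgroup H)
  | 0, _ => []
  | j + 1, S => S :: ch j ⁅S, S⁆

theorem dS_succ' (j : ℕ) (S : Subgroup H) : dS (j + 1) S = dS j ⁅S, S⁆ := by rw [add_comm, dS_add]; rfl

theorem dS_anti {i j : ℕ} (h : i ≤ j) (S : Subgroup H) : dS j S ≤ dS i S := by
  obtain ⟨k, rfl⟩ := Nat.exists_eq_add_of_le h
  rw [dS_add]; exact dS_le _ k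

theorem ch_succ (j : ℕ) : ∀ S : Subgroup H, ch (j + 1) S = ch j S ++ [dS j S] := by
  induction j with
  | zero => exact fun _ => rfl
  | succ j ih => intro S; rw [ch, ih, dS_succ']; rfl

theorem le_of_mem_ch (j : ℕ) : ∀ S : Subgroup H, ∀ M ∈ ch j S, M ≤ S := by
  induction j with
  | zero => simp [ch]
  | succ j ih =>
    intro S M hM
    rcases List.mem_cons.1 hM with rfl | h
    exacts [le_rfl, (ih _ M h).trans (der_le S)]

/-- The elements of `S` acting trivially on `U` modulo `C`. -/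
def stb (h : Inv ρ S U) (C : Submodule K V) : Subgroup H where
  carrier := {g | g ∈ S ∧ ∀ u ∈ U, ρ g u - u ∈ C}
  one_mem' := ⟨one_mem _, fun u _ => by simp⟩
  mul_mem' {a b} ha hb := ⟨mul_mem ha.1 hb.1, fun u hu => by
    simpa [rho_mul] using add_mem (ha.2 _ (h b hb.1 u hu)) (hb.2 u hu)⟩
  inv_mem' {a} ha := ⟨inv_mem ha.1, fun u hu => by
    simpa [rho_self_inv] using neg_mem (ha.2 _ (h _ (inv_mem ha.1) u hu))⟩

theorem kil_of_le (h : Inv ρ S U) (hT : T ≤ stb h (kil ρ C L)) : U ≤ kil ρ C (T :: L) :=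
  fun u hu _ ht => (hT ht).2 u hu

theorem kil_der (h : Inv ρ S U) (h2 : U ≤ kil ρ C (S :: S :: L)) : U ≤ kil ρ C (⁅S, S⁆ :: L) :=
  kil_of_le h (comm_le_iff.2 fun a ha b hb => ⟨der_le S (comm_mem_comm ha hb), fun u hu => by
    have h3 := h _ (mul_mem (inv_mem ha) (inv_mem hb)) u hu
    have := sub_mem (h2 h3 b hb a ha) (h2 h3 a ha b hb)
    simp only [map_sub, ← rho_mul] at this
    convert this using 1
    rw [show b * (a * (a⁻¹ * b⁻¹)) = 1 by group, map_one, End.one_apply, show a * b * a⁻¹ * b⁻¹ = a * (b * (a⁻¹ * b⁻¹)) by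
      group]
    abel⟩)

theorem kil_quad (h : Inv ρ T U) (j : ℕ) : ∀ L, U ≤ kil ρ C (ch j T ++ L) → U ≤ kil ρ C (dS j T :: L) := by
  induction j with
  | zero => exact fun L h2 u hu s hs => h2 (sub_mem (h s hs u hu) hu)
  | succ j ih =>
    intro L h2
    rw [ch_succ, List.append_assoc] at h2
    exact kil_der (h.mono (dS_le T j)) (ih _ h2)

theorem kil_bot (h : Inv ρ ⊤ U) (hC : U ⊓ C = ⊥) (L : List (Subgroup H)) : ∀ u ∈ U, u ∈ kil ρ C L → u ∈ kil ρ ⊥ L := by
  induction L with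
  | nil => exact fun u hu h2 => hC.le ⟨hu, h2⟩
  | cons S L ih => exact fun u hu h2 s hs => ih _ (sub_mem (h s trivial u hu) hu) (h2 s hs)

theorem kil_sub (h : ∀ g, U ≤ U.comap (ρ g)) (L : List (Subgroup H)) :
    ∀ u : U, (u : V) ∈ kil ρ ⊥ L → u ∈ kil (Representation.subrepresentation ρ U h) ⊥ L := by
  induction L with
  | nil => exact fun u h2 => Subtype.ext h2
  | cons S L ih => exact fun u h2 s hs => ih _ (h2 s hs)

/-- The ring-theoretic form of `kil`. -/
def KilR {R : Type*} [Ring R] (σ : H →* R) : List (Subgroup H) → R → Prop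
  | [], e => e = 0
  | S :: L, e => ∀ s ∈ S, KilR σ L ((σ s - 1) * e)

theorem kilR_iff (L : List (Subgroup H)) : ∀ e : End K V, KilR ρ L e ↔ ∀ v, e v ∈ kil ρ ⊥ L := by
  induction L with
  | nil => exact fun e => LinearMap.ext_iff
  | cons S L ih => exact fun e => ⟨fun h v s hs => (ih _).1 (h s hs) v, fun h s hs => (ih _).2 fun v => h v s hs⟩

theorem KilR.map {R R' : Type*} [Ring R] [Ring R'] {σ : H →* R} (φ : R →+* R') (L : List (Subgroup H)) :
    ∀ e, KilR σ L e → KilR (φ.toMonoidHom.comp σ) L (φ e) := by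
  induction L with
  | nil => exact fun e h => (congrArg φ h).trans φ.map_zero
  | cons S L ih => exact fun e h s hs => by simpa using ih _ (h s hs)

end Kil

section Four

variable {G : Type*} [Group G]

theorem der_le_of_index_two {P N : Subgroup G} (h : N.relIndex P = 2) : ⁅P, P⁆ ≤ N := comm_le_iff.2 fun a ha b hb => by
  have := (mul_mem_iff_of_index_two h (a := ⟨a, ha⟩ * ⟨b, hb⟩) (b := (⟨b, hb⟩ * ⟨a, ha⟩)⁻¹)).2 (by
    rw [inv_mem_iff, mul_mem_iff_of_index_two h, mul_mem_iff_of_index_two h]; tauto)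
  simpa [mem_subgroupOf, mul_assoc] using this

/-- A condition forcing a normal four-subgroup in every image of `S` in which `x` survives. -/
def Four (x : G) (S : Subgroup G) : Prop :=
  x ∈ dS 2 S ∨ ∃ Z ≤ S, IsElementaryAbelian 2 Z ∧ S ≤ 𝐍(Z) ∧ x ∈ ⁅Z, S⁆

theorem Four.exists [Finite G] {x : G} {P : Subgroup G} (h : Four x P) (hP : IsPGroup 2 P) (h1 : x ≠ 1) :
    ∃ a ∈ P, a ≠ 1 ∧ a * a = 1 ∧ a ≠ x ∧ a ∈ 𝐂(⁅P, P⁆) := by
  by_cases hE : ∀ E : Subgroup G, E ≤ P → P ≤ 𝐍(E) → IsElementaryAbelian 2 E → Nat.card E ≠ 2 ^ 2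
  · refine absurd (mem_bot.1 ?_) h1
    rcases h with h | ⟨Z, h2, h3, h4, h5⟩
    · refine (abelian_iff_der.1 ?_).le h
      rcases isCyclic_or_of_no_invariant_rank_two hP le_rfl le_normalizer hE with
        hc | ⟨-, a, b, m, -, h1, h2, -, h3, -⟩
      · exact abelian_of_le (abelian_of_cyclic hc) (der_le P)
      have h5 := BG.card_mul_relIndex (h3 ▸ le_sup_left : zpowers a ≤ P)
      rw [Nat.card_zpowers, h1, h2, pow_succ, Nat.mul_right_inj (by positivity)] at h5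
      exact abelian_of_le inferInstance (der_le_of_index_two h5)
    refine (comm_eq_bot_iff.2 ?_).le h5
    rcases eq_or_ne Z ⊥ with rfl | h6
    · exact bot_le
    have h7 : IsCyclic Z := by_contra fun e => by
      obtain ⟨E, e1, e2, e3, e4⟩ := exists_invariant_elemAb_sq_of_isMulCommutative hP h2 h4 h3.1 e
      exact hE E (e1.trans h2) e2 e3 e4
    have h8 := elemAb_card_le_of_isCyclic h3 h7
    have h9 := card_ne_one h6
    have h10 : 0 < Nat.card Z := Nat.card_pos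
    exact le_of_prime_of_inf_ne_bot (by rw [show Nat.card Z = 2 by omega]; exact Nat.prime_two)
      (nil_meet_center (pgroup_nil hP) h2 h4 h6)
  push Not at hE
  obtain ⟨E, h2, h3, h4, h5⟩ := hE
  have h6 : ⁅P, P⁆ ≤ 𝐂(E) := by
    by_cases e : P ≤ 𝐂(E)
    exacts [(der_le P).trans e, der_le_of_index_two (relIndex_centralizer_eq_of_card_sq hP h3 h5 e)]
  haveI := Fintype.ofFinite E
  obtain ⟨a, b, c, e1, e2, e3⟩ := (Fintype.two_lt_card_iff (α := E)).1 (by rw [← Nat.card_eq_fintype_card, h5]; norm_num)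
  obtain ⟨y, h7, h8⟩ : ∃ y : E, (y : G) ≠ 1 ∧ (y : G) ≠ x := by
    by_contra! e
    simp only [Ne, Subtype.ext_iff] at e1 e2 e3
    have k1 := e a; have k2 := e b; have k3 := e c
    generalize (a : G) = a at *; generalize (b : G) = b at *; generalize (c : G) = c at *
    by_cases ha : a = 1 <;> by_cases hb : b = 1 <;> by_cases hc : c = 1 <;> simp_all
  exact ⟨y, h2 y.2, h7, (sq _).symm.trans (h4.2 y y.2), h8, cent_symm h6 y.2⟩

end Four

variable {K : Type*} [Field K] [CharP K 2]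

theorem dich' {V Q S : Type*} [AddCommGroup V] [Module K V] [Group Q] [Group S] [Finite S] {ρ : Q →* End K V}
    {τ : S →* End K V} {α : S →* MulAut Q} (hS : IsPGroup 2 S) (hc : ∀ s g, τ s * ρ g = ρ (α s g) * τ s)
    (hI : ∀ c : End K V, (∀ g, ρ g * c = c * ρ g) → (∀ s, τ s * c = c * τ s) → ∃ a : K, c = a • 1) :
    (∀ c : End K V, (∀ g, ρ g * c = c * ρ g) → ∃ a : K, c = a • 1) ∨ ∃ (c : End K V) (l : S → K),
      (∀ g, ρ g * c = c * ρ g) ∧ (∃ s, l s ≠ 0) ∧ ∀ s, τ s * c = c * τ s + l s • τ s := by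
  refine or_iff_not_imp_left.2 fun h => ?_
  have h1 : ∀ s, τ s * τ s⁻¹ = 1 := fun s => by rw [← map_mul, mul_inv_cancel, map_one]
  have h2 : ∀ s, τ s⁻¹ * τ s = 1 := fun s => by rw [← map_mul, inv_mul_cancel, map_one]
  let π : Representation K S (End K V) :=
    { toFun := fun s => mulLeftRight K (τ s, τ s⁻¹)
      map_one' := by ext1; simp
      map_mul' := fun s t => by ext1; simp [mul_assoc] }
  have h3 : ∀ s, (K ∙ (1 : End K V)) ≤ (K ∙ (1 : End K V)).comap (π s) := fun s =>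
    (Submodule.span_singleton_le_iff_mem _ _).2 (by
      show τ s * 1 * τ s⁻¹ ∈ K ∙ (1 : End K V)
      rw [mul_one, h1]; exact Submodule.mem_span_singleton_self _)
  let E : Submodule K (End K V) := Subalgebra.toSubmodule (Subalgebra.centralizer K (Set.range ρ))
  have hE : ∀ c, c ∈ E ↔ ∀ g, ρ g * c = c * ρ g := fun c => Set.forall_mem_range
  obtain ⟨_, ⟨c, hc1, rfl⟩, hc2, hc3⟩ := Perm.exists_fixed_vector hS (π.quotient _ h3)
    (E.map (K ∙ (1 : End K V)).mkQ) (by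
      rintro s _ ⟨c, hc', rfl⟩
      refine ⟨π s c, (hE _).2 fun g => ?_, rfl⟩
      show ρ g * (τ s * c * τ s⁻¹) = τ s * c * τ s⁻¹ * ρ g
      rw [mul_assoc _ (τ s⁻¹), hc, ← mul_assoc, ← mul_assoc, ← mul_assoc, mul_assoc (τ s), ← (hE c).1 hc', ← mul_assoc,
        hc, ← MulAut.mul_apply, ← map_mul, mul_inv_cancel, map_one, MulAut.one_apply]) fun e => h fun c hc' => by
      obtain ⟨a, ha⟩ := Submodule.mem_span_singleton.1 ((Submodule.Quotient.mk_eq_zero _).1
        (e.le (Submodule.mem_map_of_mem ((hE c).2 hc'))))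
      exact ⟨a, ha.symm⟩
  have h4 : ∀ s, ∃ a : K, τ s * c = c * τ s + a • τ s := fun s => by
    obtain ⟨a, ha⟩ := Submodule.mem_span_singleton.1 ((Submodule.Quotient.eq _).1 (hc3 s))
    refine ⟨a, ?_⟩
    have : τ s * c * τ s⁻¹ = c + a • 1 := by rw [ha, add_sub_cancel]; rfl
    rw [← mul_one (τ s * c), ← h2 s, ← mul_assoc, this, add_mul, smul_mul_assoc, one_mul]
  choose l hl using h4
  refine ⟨c, l, (hE c).1 hc1, by_contra fun e => hc2 ?_, hl⟩
  obtain ⟨a, rfl⟩ := hI c ((hE c).1 hc1) fun s => by rw [hl, of_not_not (not_exists.1 e s), zero_smul, add_zero]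
  exact (Submodule.Quotient.mk_eq_zero _).2 (Submodule.smul_mem _ _ (Submodule.mem_span_singleton_self _))

theorem eq_one_of_pow {ζ : K} {j : ℕ} (h : ζ ^ 2 ^ j = 1) : ζ = 1 := by
  rw [← sub_eq_zero, ← sub_one_pow_pow K] at h
  exact sub_eq_zero.1 (pow_eq_zero_iff (by positivity) |>.1 h)

/-- A Heisenberg pair in the centralizer of an involution which does not invert the symplectic space. -/
theorem prim {M W : Type*} [Group M] [AddCommGroup W] [Module K W] [Nontrivial W] (R : M →* End K W) {Q : Subgroup M}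
    {a x : M} (ha : a ∈ 𝐍(Q)) (hx : x ∈ 𝐍(Q)) (hS : ∀ y, (∀ g ∈ Q, R g * R y = R y * R g) → ∃ c : K, R y = c • 1)
    (cl : ∀ g ∈ Q, ∀ h ∈ Q, ⁅g, h⁆ ∈ 𝐂(Q)) (hi : ∀ g ∈ Q, g * (x * g * x⁻¹) ∈ 𝐂(Q)) (h1 : R (a * a) = 1) {j : ℕ}
    (h2 : (x⁻¹ * a) ^ 2 ^ j = 1) (h3 : R a ≠ R x) : ∃ w ∈ Q, ∃ c ∈ Q, R a * R w = R w * R a ∧ R a * R c = R c * R a ∧
      ∃ ζ : K, ζ ≠ 1 ∧ R w * R c = ζ • (R c * R w) := by
  have hu : ∀ g, R g ≠ 0 := fun g => ((Group.isUnit g).map R).ne_zero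
  have k0 : ∀ z ∈ 𝐂(Q), ∃ c : K, R z = c • 1 := fun z hz => hS z fun g hg => by
    rw [← map_mul, mem_cent.1 hz g hg, map_mul]
  have k1 : ∀ g ∈ Q, ∀ h ∈ Q, ∃ ζ : K, R (g * h) = ζ • R (h * g) := fun g hg h hh => by
    obtain ⟨ζ, e⟩ := k0 _ (cl g hg h hh)
    exact ⟨ζ, by rw [show g * h = ⁅g, h⁆ * (h * g) by rw [commutatorElement_def]; group, map_mul, e, smul_mul_assoc,
      one_mul]⟩
  have k2 : ∀ {g h : M} {ζ : K} (y : M), R g = ζ • R h → R (y * g * y⁻¹) = ζ • R (y * h * y⁻¹) := fun y e => by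
    simp only [map_mul, e, mul_smul_comm, smul_mul_assoc]
  have k3 : ∀ g, R (a * (a * g * a⁻¹) * a⁻¹) = R g := fun g => by
    rw [show a * (a * g * a⁻¹) * a⁻¹ = a * a * g * (a * a)⁻¹ by group, map_mul, map_mul, h1, one_mul,
      ← mul_one (R (a * a)⁻¹), ← h1, ← map_mul R _ (a * a), inv_mul_cancel, map_one, mul_one]
  have k4 : ∀ g ∈ Q, R (a * (g * (a * g * a⁻¹)) * a⁻¹) = R (g * (a * g * a⁻¹)) := fun g hg => by
    obtain ⟨ζ, e⟩ := k1 _ (conj_mem_of_norm ha hg) g hg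
    have e1 := k2 a e
    have e2 : ∀ p q : M, a * (p * q) * a⁻¹ = a * p * a⁻¹ * (a * q * a⁻¹) := fun p q => by group
    rw [e2, e2 g, map_mul, map_mul R (a * g * a⁻¹), k3, ← map_mul, ← map_mul, e, smul_smul] at e1
    rw [e2, map_mul, k3, ← map_mul, e, eq_one_of_sq (smul_left_injective K (hu _) (e1.symm.trans (one_smul K _).symm)),
      one_smul]
  have k5 : ∀ {w : M}, R (a * w * a⁻¹) = R w → R a * R w = R w * R a := fun {w} e => by
    nth_rewrite 2 [← e]
    rw [← map_mul, ← map_mul, inv_mul_cancel_right]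
  obtain ⟨g, hg, h, hh, h4⟩ : ∃ g ∈ Q, ∃ h ∈ Q, R h * R (g * (a * g * a⁻¹)) ≠ R (g * (a * g * a⁻¹)) * R h := by
    by_contra! e
    obtain ⟨c, hc⟩ := hS (x⁻¹ * a) fun g hg => by
      obtain ⟨c, hc⟩ := hS _ (e g hg)
      obtain ⟨d, hd⟩ := k0 _ (hi g hg)
      have e1 : R (a * g * a⁻¹) = c • R g⁻¹ := by rw [← inv_mul_cancel_left g (a * g * a⁻¹), map_mul, hc]; simp
      have e2 : R (x * g * x⁻¹) = d • R g⁻¹ := by rw [← inv_mul_cancel_left g (x * g * x⁻¹), map_mul, hd]; simp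
      have hd0 : d ≠ 0 := fun e => hu _ (by rw [e2, e, zero_smul])
      have e3 : R (x⁻¹ * a * g * (x⁻¹ * a)⁻¹) = (c * d⁻¹) • R g := by
        have := k2 x⁻¹ (show R (a * g * a⁻¹) = (c * d⁻¹) • R (x * g * x⁻¹) by
          rw [e1, e2, smul_smul, inv_mul_cancel_right₀ hd0])
        rwa [show x⁻¹ * (a * g * a⁻¹) * x⁻¹⁻¹ = x⁻¹ * a * g * (x⁻¹ * a)⁻¹ by group,
          show x⁻¹ * (x * g * x⁻¹) * x⁻¹⁻¹ = g by group] at this
      have e4 : ∀ i : ℕ, R ((x⁻¹ * a) ^ i * g * ((x⁻¹ * a) ^ i)⁻¹) = (c * d⁻¹) ^ i • R g := fun i => by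
        induction i with
        | zero => simp
        | succ i ih =>
          have := k2 (x⁻¹ * a) ih
          rw [e3, smul_smul, ← pow_succ] at this
          rw [← this, pow_succ']
          generalize (x⁻¹ * a) ^ i = b
          congr 1; group
      have e5 := e4 (2 ^ j)
      rw [h2, one_mul, inv_one, mul_one] at e5
      rw [eq_one_of_pow (smul_left_injective K (hu g) (e5.symm.trans (one_smul K _).symm)), one_smul] at e3
      nth_rewrite 1 [← e3]
      rw [← map_mul, ← map_mul, inv_mul_cancel_right]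
    have := congrArg R h2
    rw [map_pow, hc, smul_pow, one_pow, map_one] at this
    rw [eq_one_of_pow (smul_left_injective K one_ne_zero (this.trans (one_smul K _).symm)), one_smul] at hc
    exact h3 (by rw [← mul_inv_cancel_left x a, map_mul, hc, mul_one])
  have hw := mul_mem hg (conj_mem_of_norm ha hg)
  have hw' := k4 g hg
  generalize g * (a * g * a⁻¹) = w at *
  obtain ⟨ζ, e⟩ := k1 w hw h hh
  have e1 := k2 a e
  rw [show a * (w * h) * a⁻¹ = a * w * a⁻¹ * (a * h * a⁻¹) by group,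
    show a * (h * w) * a⁻¹ = a * h * a⁻¹ * (a * w * a⁻¹) by group, map_mul, map_mul R (a * h * a⁻¹), hw'] at e1
  rw [map_mul, map_mul] at e
  refine ⟨w, hw, _, mul_mem hh (conj_mem_of_norm ha hh), k5 hw', k5 (k4 h hh), ζ * ζ, fun e' => h4 ?_, ?_⟩
  · rw [e, eq_one_of_sq e', one_smul]
  · rw [map_mul, ← mul_assoc, e, smul_mul_assoc, mul_assoc, e1, mul_smul_comm, smul_smul, mul_assoc (R h)]

end Cfsg.Lib.HH.Two
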