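import Cfsg.Agent.Lib.HH.Two1
import Cfsg.Agent.Lib.HH.Bryu

/-!
# The `2`-length is bounded by the derived length of a Sylow `2`-subgroup (Berger–Gross, Bryukhanova)
-/

set_option autoImplicit false

namespace Cfsg.Lib.HH.Two

open Module LinearMap Subgroup Cfsg.Lib.BG Cfsg.Lib.PGroup Cfsg.Lib.HH.ModB
open scoped Cfsg.Lib.Transfer commutatorElement

universe u v

section Engine

variable {K H V : Type*} [Field K] [Group H] [AddCommGroup V] [Module K V] {ρ : H →* End K V}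

/-- `x` inverts the group `Q` of class two modulo its centre, and acts non-trivially on all invariant subspaces. -/
structure St (ρ : H →* End K V) (x : H) (S Q : Subgroup H) (U : Submodule K V) : Prop where
  pg : IsPGroup 2 S
  mem : x ∈ S
  norm : S ≤ 𝐍(Q)
  ne : U ≠ ⊥
  invQ : Inv ρ Q U
  invS : Inv ρ S U
  cl : ∀ g ∈ Q, ∀ h ∈ Q, ⁅g, h⁆ ∈ 𝐂(Q)
  inv : ∀ g ∈ Q, g * (x * g * x⁻¹) ∈ 𝐂(Q)
  nf : ∀ W ≤ U, W ≠ ⊥ → Inv ρ Q W → Inv ρ (zpowers x) W → x ∉ fixer ρ W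

variable {x : H} {S Q : Subgroup H} {U : Submodule K V}

theorem St.mono (h : St ρ x S Q U) {W : Submodule K V} {T : Subgroup H} (hW : W ≤ U) (h0 : W ≠ ⊥) (hT : T ≤ S)
    (hx : x ∈ T) (h1 : Inv ρ Q W) (h2 : Inv ρ T W) : St ρ x T Q W :=
  ⟨h.pg.to_le hT, hx, hT.trans h.norm, h0, h1, h2, h.cl, h.inv, fun X hX => h.nf X (hX.trans hW)⟩

theorem St.not_mem (h : St ρ x S Q U) : x ∉ fixer ρ U :=
  h.nf U le_rfl h.ne h.invQ (h.invS.mono (zpowers_le.2 h.mem))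

variable [Finite H] [CharP K 2] [IsAlgClosed K] [FiniteDimensional K V]

theorem St.step (h : St ρ x S Q U) (h4 : Four x S) (hx : x ∈ ⁅S, S⁆) {L : List (Subgroup H)} (hL : ∀ M ∈ L, M ≤ ⁅S, S⁆)
    (hk : U ≤ kil ρ ⊥ (S :: L)) : ∃ Q' U', St ρ x ⁅S, S⁆ Q' U' ∧ U' ≤ kil ρ ⊥ L := by
  obtain ⟨W, hWU, hW, h1, h2, hI⟩ := exists_sub (ρ := ρ.comp Q.subtype) (τ := ρ.comp S.subtype) h.ne
    (fun g => h.invQ g g.2) fun s => h.invS s s.2
  replace h := h.mono hWU hW le_rfl h.mem (fun g hg => h1 ⟨g, hg⟩) fun g hg => h2 ⟨g, hg⟩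
  replace hk := hWU.trans hk
  haveI := Submodule.nontrivial_iff_ne_bot.2 hW
  set ρ' := Representation.subrepresentation _ W h1
  set τ := Representation.subrepresentation _ W h2
  let α := Q.normalizerMonoidHom.comp (inclusion h.norm)
  have hc : ∀ s g, τ s * ρ' g = ρ' (α s g) * τ s := fun s g => LinearMap.ext fun u => Subtype.ext
    (LinearMap.congr_fun ((ρ.map_mul _ _).symm.trans ((congrArg ρ (inv_mul_cancel_right _ _).symm).trans
      (ρ.map_mul _ _))) u)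
  rcases dich' h.pg hc (fun c h h' => hI.schur (by rintro (_ | _); exacts [h _, h' _])) with
    hS | ⟨c, l, hcQ, ⟨s, hs⟩, hl⟩
  · haveI := normal_subgroupOf_of_le_normalizer h.invS.norm_fixer
    let f := QuotientGroup.mk' ((fixer ρ W).subgroupOf S)
    have hf : f.ker = (fixer ρ W).subgroupOf S := QuotientGroup.ker_mk' _
    have hf' : ∀ s : S, f s = 1 ↔ (s : H) ∈ fixer ρ W := fun s => QuotientGroup.eq_one_iff s
    obtain ⟨_, ⟨a, -, rfl⟩, a1, a2, a3, a4⟩ := Four.exists (x := f ⟨x, h.mem⟩) (P := im f S) (by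
      rcases h4 with e | ⟨Z, e1, e2, e3, e4⟩
      · refine .inl (show _ ∈ ⁅⁅im f S, im f S⁆, ⁅im f S, im f S⁆⁆ from ?_)
        rw [← im_comm le_rfl le_rfl, ← im_comm (der_le S) (der_le S)]; exact ⟨_, e, rfl⟩
      · refine .inr ⟨im f Z, im_mono e1, elemAb_map f (elemAb_subgroupOf e2 S), im_norm e3, ?_⟩
        rw [← im_comm e1 le_rfl]; exact ⟨_, e4, rfl⟩) (pgroup_im h.pg) (mt (hf' _).1 h.not_mem)
    rw [← im_comm le_rfl le_rfl] at a4
    have a5 : ∀ s ∈ ⁅S, S⁆, ∀ u ∈ W, ρ s (ρ a u) = ρ a (ρ s u) := fun s hs u hu => by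
      have e := mem_cent.1 a4 _ ⟨⟨s, der_le S hs⟩, hs, rfl⟩
      rw [← map_mul, ← map_mul, ← inv_mul_eq_one, ← map_inv, ← map_mul, hf'] at e
      rw [← rho_mul, ← rho_mul, ← mul_inv_cancel_left (s * a) (a * s), rho_mul _ (_ * _)]
      exact congrArg _ (e u hu).symm
    have hM := h.invQ.sup h.invS
    obtain ⟨j, hj⟩ := h.pg (⟨x, h.mem⟩⁻¹ * a)
    obtain ⟨w, hw, c, hc', c1, c2, ζ, hζ, c3⟩ := prim (resRep hM) (Q := Q.subgroupOf (Q ⊔ S))
      (a := ⟨a, mem_sup_right a.2⟩) (x := ⟨x, mem_sup_right h.mem⟩)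
      (le_normalizer_comap _ (h.norm a.2)) (le_normalizer_comap _ (h.norm h.mem))
      (fun y hy => hS _ fun g => hy ⟨g, mem_sup_left g.2⟩ g.2)
      (fun g hg k hk => mem_cent.2 fun y hy => Subtype.ext (mem_cent.1 (h.cl g hg k hk) y hy))
      (fun g hg => mem_cent.2 fun y hy => Subtype.ext (mem_cent.1 (h.inv g hg) y hy))
      (LinearMap.ext fun u => Subtype.ext ((hf' (a * a)).1 ((f.map_mul a a).trans a2) u u.2)) (j := j)
      (Subtype.ext (congrArg Subtype.val hj :)) fun e => a3 (by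
        rw [← inv_mul_eq_one, ← map_inv, ← map_mul, hf']
        intro u hu
        rw [Subgroup.coe_mul, rho_mul, show ρ x u = ρ a u from congrArg Subtype.val (LinearMap.congr_fun e ⟨u, hu⟩).symm]
        exact rho_inv_self _ u)
    let Q' : Subgroup H :=
      { carrier := {g | g ∈ Q ∧ ∀ u ∈ W, ρ g (ρ a u) = ρ a (ρ g u)}
        one_mem' := ⟨one_mem _, fun u _ => by simp⟩
        mul_mem' := fun {g k} hg hk => ⟨mul_mem hg.1 hk.1, fun u hu => by
          rw [rho_mul, rho_mul, hk.2 u hu, hg.2 _ (h.invQ k hk.1 u hu)]⟩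
        inv_mem' := fun {g} hg => ⟨inv_mem hg.1, fun u hu => by
          rw [← rho_inv_self (ρ := ρ) g (ρ a (ρ g⁻¹ u)), hg.2 _ (h.invQ _ (inv_mem hg.1) u hu), rho_self_inv]⟩ }
    have hQ' : Q' ≤ Q := fun _ h => h.1
    have hU' : W.map (ρ a - 1) ≤ W := by
      rintro _ ⟨u, hu, rfl⟩; exact sub_mem (h.invS a a.2 u hu) hu
    have hi : ∀ T : Subgroup H, Inv ρ T W → (∀ g ∈ T, ∀ u ∈ W, ρ g (ρ a u) = ρ a (ρ g u)) → Inv ρ T (W.map (ρ a - 1)) := by
      rintro T h1 h2 g hg _ ⟨u, hu, rfl⟩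
      exact ⟨_, h1 g hg u hu, by simp [h2 g hg u hu]⟩
    refine ⟨Q', W.map (ρ a - 1), ⟨h.pg.to_le (der_le S), hx, le_norm_iff.2 fun s hs g hg =>
      ⟨conj_mem_of_norm (h.norm (der_le S hs)) hg.1, fun u hu => ?_⟩, fun e => a1 ((hf' a).2 fun u hu => ?_),
      hi _ (h.invQ.mono hQ') fun g hg => hg.2, hi _ (h.invS.mono (der_le S)) a5,
      fun g hg k hk => cent_anti hQ' (h.cl g hg.1 k hk.1), fun g hg => cent_anti hQ' (h.inv g hg.1),
      fun X hX h0 i1 i2 hxX => hζ (eq_one_of_sq ?_)⟩, ?_⟩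
    · have h5 := h.invS _ (inv_mem (der_le S hs)) u hu
      simp only [rho_mul]
      rw [a5 _ (inv_mem hs) u hu, hg.2 _ h5, a5 _ hs _ (h.invQ g hg.1 _ h5)]
    · exact sub_eq_zero.1 ((Submodule.mem_bot K).1 (e.le ⟨u, hu, rfl⟩))
    · obtain ⟨v, hv, hv0⟩ := (Submodule.ne_bot_iff _).1 h0
      have w1 : (w : H) ∈ Q' := ⟨hw, fun u hu => congrArg Subtype.val (LinearMap.congr_fun c1 ⟨u, hu⟩).symm⟩
      have w2 : (c : H) ∈ Q' := ⟨hc', fun u hu => congrArg Subtype.val (LinearMap.congr_fun c2 ⟨u, hu⟩).symm⟩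
      have w3 : ∀ u ∈ X, ρ w (ρ c u) = ζ • ρ c (ρ w u) := fun u hu =>
        congrArg Subtype.val (LinearMap.congr_fun c3 ⟨u, hU' (hX hu)⟩)
      have w4 : ∀ u ∈ X, ρ (w * (x * w * x⁻¹)) u = ρ w (ρ w u) := fun u hu => by
        rw [rho_mul, rho_mul, rho_mul, inv_mem hxX u hu, hxX _ (i1 _ w1 u hu)]
      have w5 := congrArg (fun g => ρ g v) (mem_cent.1 (h.inv w hw) c hc')
      simp only [rho_mul (ρ := ρ) c, rho_mul (ρ := ρ) _ (c : H)] at w5
      rw [w4 v hv, w4 _ (i1 _ w2 v hv), w3 v hv, map_smul, w3 _ (i1 _ w1 v hv), smul_smul] at w5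
      exact smul_left_injective K (fun e => hv0 (rho_eq_zero.1 (rho_eq_zero.1 (rho_eq_zero.1 e))))
        (w5.symm.trans (one_smul K _).symm)
    · rintro _ ⟨u, hu, rfl⟩; exact hk hu a a.2
  have hu : ∀ s, IsUnit (τ s) := fun s => (Group.isUnit s).map τ
  let ψ : S →* Multiplicative K := MonoidHom.mk' (fun s => Multiplicative.ofAdd (l s)) fun s t => by
    have := hl (s * t)
    rw [map_mul, mul_assoc, hl, mul_add, ← mul_assoc, hl, add_mul, mul_assoc, add_assoc, add_right_inj, smul_mul_assoc,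
      mul_smul_comm, ← add_smul] at this
    exact congrArg _ (smul_left_injective K ((hu s).mul (hu t)).ne_zero this).symm
  have h5 : ∀ y (hy : y ∈ ⁅S, S⁆), τ ⟨y, der_le S hy⟩ * c = c * τ ⟨y, der_le S hy⟩ := fun y hy => by
    obtain ⟨z, hz, rfl⟩ := (map_subtype_commutator S).ge hy
    have : l z = 0 := Abelianization.commutator_subset_ker ψ hz
    exact (hl z).trans (by rw [this, zero_smul, add_zero]; rfl)
  have h6 : ∀ L : List (Subgroup H), (∀ M ∈ L, M ≤ ⁅S, S⁆) → ∀ u : W, (u : V) ∈ kil ρ ⊥ L → (c u : V) ∈ kil ρ ⊥ L := by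
    intro L
    induction L with
    | nil => intro _ u hu; rw [show u = 0 from Subtype.ext hu, map_zero]; exact zero_mem _
    | cons M L ih =>
      intro hM u hu s hs
      have h7 := hM M List.mem_cons_self hs
      have := ih (fun N hN => hM N (List.mem_cons_of_mem _ hN)) (τ ⟨s, der_le S h7⟩ u - u) (hu s hs)
      rwa [map_sub, ← End.mul_apply, ← h5 s h7] at this
  obtain ⟨a, ha⟩ := End.exists_eigenvalue c
  have hi : ∀ {y : End K W}, y * c = c * y → ∀ u ∈ c.eigenspace a, y u ∈ c.eigenspace a := fun {y} e u hu => by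
    rw [End.mem_eigenspace_iff] at hu ⊢
    rw [← End.mul_apply, ← e, End.mul_apply, hu, map_smul]
  refine ⟨Q, (c.eigenspace a).map W.subtype, h.mono (W.map_subtype_le _) (fun e => ha
    (Submodule.map_injective_of_injective W.injective_subtype (e.trans (Submodule.map_bot _).symm))) (der_le S) hx ?_ ?_, ?_⟩
  · rintro g hg _ ⟨u, hu, rfl⟩; exact ⟨_, hi (hcQ ⟨g, hg⟩) u hu, rfl⟩
  · rintro g hg _ ⟨u, hu, rfl⟩; exact ⟨_, hi (h5 g hg) u hu, rfl⟩
  rintro _ ⟨u, hu, rfl⟩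
  have h7 : ((τ s u - u : W) : V) ∈ kil ρ ⊥ L := hk u.2 s s.2
  have h8 := LinearMap.congr_fun (hl s) u
  rw [End.mul_apply, End.mem_eigenspace_iff.1 hu, map_smul, LinearMap.add_apply, End.mul_apply, LinearMap.smul_apply] at h8
  have h9 := sub_mem (Submodule.smul_mem _ (a - l s) h7) (h6 L hL _ h7)
  rw [← Submodule.coe_smul, ← Submodule.coe_sub, show (a - l s) • (τ s u - u) - c (τ s u - u) = l s • u by
    rw [map_sub, End.mem_eigenspace_iff.1 hu, eq_sub_of_add_eq h8.symm]; module, Submodule.coe_smul] at h9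
  exact (Submodule.smul_mem_iff _ hs).1 h9

theorem St.descend (j : ℕ) {L : List (Subgroup H)} : ∀ {S Q : Subgroup H} {U : Submodule K V}, St ρ x S Q U →
    (∀ i < j, Four x (dS i S)) → x ∈ dS j S → (∀ M ∈ L, M ≤ dS j S) → U ≤ kil ρ ⊥ (ch j S ++ L) →
    ∃ Q' U', St ρ x (dS j S) Q' U' ∧ U' ≤ kil ρ ⊥ L := by
  induction j with
  | zero => exact fun h _ _ _ hk => ⟨_, _, h, hk⟩
  | succ j ih =>
    intro S Q U h h4 hx hL hk
    rw [dS_succ'] at hx hL ⊢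
    obtain ⟨Q', U', h1, h2⟩ := h.step (h4 0 j.succ_pos) (dS_le _ j hx) (L := ch j ⁅S, S⁆ ++ L) (fun M hM =>
      (List.mem_append.1 hM).elim (le_of_mem_ch j _ M) fun e => (hL M e).trans (dS_le _ j)) hk
    exact ih h1 (fun i hi => dS_succ' i S ▸ h4 (i + 1) (Nat.succ_lt_succ hi)) hx hL h2

omit [IsAlgClosed K] [FiniteDimensional K V] in
theorem exists_st (hs : Group.IsSolvable H) (h0 : pCore 2 H = ⊥) (hρ : Function.Injective ρ) (hS : IsPGroup 2 S)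
    (hx : x ∈ S) (hc : x ∈ 𝐂(S)) (h2 : x * x = 1) (h1 : x ≠ 1) : ∃ Q U, St ρ x S Q U := by
  have hX := hS.to_le (zpowers_le.2 hx)
  obtain ⟨q, hq, hq2, h3⟩ := exists_not_cent hs h0 hX (mt zpowers_eq_bot.1 h1)
  haveI := Fact.mk hq
  obtain ⟨D, hDP, hN, -, hcl, -, h4⟩ := exists_critical_exponent_p hq2 (Core.pCore_isPGroup q H)
  haveI : D.Normal := normalizer_eq_top_iff.1 (top_le_iff.1 (le_normalizer_of_normal.trans hN))
  have hD := (Core.pCore_isPGroup q H).to_le hDP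
  have hcop : (Nat.card (zpowers x)).Coprime q := by
    obtain ⟨k, hk⟩ := hX.exists_card_eq
    rw [hk]; exact ((Nat.coprime_primes Nat.prime_two hq).2 hq2.symm).pow_left k
  replace h3 : ⁅D, zpowers x⁆ ≠ ⊥ := fun e => h3 (h4 _ le_normalizer_of_normal hcop (comm_eq_bot_iff'.1 e))
  replace hcl : ∀ a ∈ D, ∀ b ∈ D, ⁅a, b⁆ ∈ 𝐂(D) := fun a ha b hb => (hcl (commutator_mem_commutator ha (hDP hb))).2
  have h5 := coprime_commGid (A := zpowers x) (K := D) le_normalizer_of_normal (by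
    obtain ⟨k, hk⟩ := hD.exists_card_eq
    rw [hk]; exact hcop.pow_right k)
  have hYD : ⁅D, zpowers x⁆ ≤ D := comm_le_left le_normalizer_of_normal
  have hn : S ≤ 𝐍(⁅D, zpowers x⁆) := norm_comm le_normalizer_of_normal
    ((cent_symm (zpowers_le.2 hc)).trans (cent_le_norm _))
  let I : Subgroup H :=
    { carrier := {g | g ∈ D ∧ g * (x * g * x⁻¹) ∈ 𝐂(D)}
      one_mem' := ⟨one_mem _, by simp⟩
      mul_mem' := fun {a b} ha hb => ⟨mul_mem ha.1 hb.1, by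
        rw [show a * b * (x * (a * b) * x⁻¹) = a * ⁅b, x * a * x⁻¹⁆ * a⁻¹ * (a * (x * a * x⁻¹)) * (b * (x * b * x⁻¹)) by
          rw [commutatorElement_def]; group]
        exact mul_mem (mul_mem (Normal.conj_mem inferInstance _ (hcl _ hb.1 _ (Normal.conj_mem inferInstance _ ha.1 x)) a)
          ha.2) hb.2⟩
      inv_mem' := fun {a} ha => ⟨inv_mem ha.1, by
        rw [show a⁻¹ * (x * a⁻¹ * x⁻¹) = a⁻¹ * (a * (x * a * x⁻¹))⁻¹ * a⁻¹⁻¹ by group]
        exact Normal.conj_mem inferInstance _ (inv_mem ha.2) _⟩ }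
  have hI : ⁅D, zpowers x⁆ ≤ I := comm_le_iff.2 fun d hd y hy => ⟨hYD (comm_mem_comm hd hy), by
    have : y = 1 ∨ y = x := by
      obtain ⟨k, rfl⟩ := mem_powers_iff_mem_zpowers.2 hy
      rcases Nat.even_or_odd' k with ⟨i, rfl | rfl⟩ <;> simp [pow_succ, pow_mul, sq, h2]
    rcases this with rfl | rfl
    · simp
    · rw [show d * y * d⁻¹ * y⁻¹ * (y * (d * y * d⁻¹ * y⁻¹) * y⁻¹) = d * (y * y) * d⁻¹ * (y * y)⁻¹ by group, h2]; simp⟩
  set Y := ⁅D, zpowers x⁆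
  obtain ⟨W, hW, h6, h7, h8⟩ := exists_nofix (ρ := ρ.comp Y.subtype) (τ := ρ.comp S.subtype)
    (α := Y.normalizerMonoidHom.comp (inclusion hn)) (card_ne_zero (hD.to_le hYD) hq2)
    (fun s g => (ρ.map_mul _ _).symm.trans ((congrArg ρ (inv_mul_cancel_right _ _).symm).trans (ρ.map_mul _ _))) (by
      obtain ⟨g, hg, hg1⟩ := exists_ne_one h3
      exact ⟨⟨g, hg⟩, fun e => hg1 (hρ (e.trans ρ.map_one.symm))⟩)
  refine ⟨Y, W, hS, hx, hn, hW, fun g hg => h6 ⟨g, hg⟩, fun g hg => h7 ⟨g, hg⟩,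
    fun g hg k hk => cent_anti hYD (hcl g (hYD hg) k (hYD hk)), fun g hg => cent_anti hYD (hI hg).2,
    fun X hX h9 i1 _ e => h9 (eq_bot_iff.2 fun v hv => h8 v (hX hv) fun g => ?_)⟩
  exact ((commutator_mono le_rfl (zpowers_le.2 e)).trans (comm_le_right i1.norm_fixer)) (h5.ge g.2) v hv

end Engine

variable {H : Type u} [Group H] [Finite H] {V : Type} [AddCommGroup V] [Module (ZMod 2) V] [FiniteDimensional (ZMod 2) V]
  {ρ : H →* End (ZMod 2) V} (hs : Group.IsSolvable H) (h0 : pCore 2 H = ⊥) (hρ : Function.Injective ρ)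

section
include hs h0 hρ

theorem engine {S : Subgroup H} (hS : IsPGroup 2 S) {x : H} (hc : x ∈ 𝐂(S)) (h2 : x * x = 1) {j : ℕ}
    (h4 : ∀ i < j, Four x (dS i S)) (hx : x ∈ dS j S) {L : List (Subgroup H)} (hk : ⊤ ≤ kil ρ ⊥ (ch j S ++ L))
    (hL : (∃ M ≤ dS j S, L = [M] ∧ x ∈ M) ∨ L = [dS j S, dS j S] ∧ x ∈ dS (j + 1) S) : x = 1 := by
  by_contra h1
  obtain ⟨K, _, _, _, W, _, _, _, φ, hφ⟩ := exists_closure (p := 2) (ZMod 2) V
  obtain ⟨Q, U, h⟩ := exists_st hs h0 (ρ := φ.toMonoidHom.comp ρ) (hφ.comp hρ) hS (dS_le S j hx) hc h2 h1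
  have h5 := (kilR_iff _ _).1 (KilR.map φ _ 1 ((kilR_iff _ _).2 fun v => hk trivial))
  rw [map_one] at h5
  obtain ⟨Q', U', h6, h7⟩ := h.descend j (L := L) h4 hx (by
    rcases hL with ⟨M, e1, rfl, -⟩ | ⟨rfl, -⟩ <;> simp [*]) fun v _ => h5 v
  refine h6.not_mem fun u hu => sub_eq_zero.1 ?_
  rcases hL with ⟨M, -, rfl, e⟩ | ⟨rfl, e⟩
  exacts [h7 hu x e, kil_der h6.invS h7 hu x e]

variable {k : ℕ} (hK : ∀ T : Subgroup H, IsPGroup 2 T → ⊤ ≤ kil ρ ⊥ (ch (k + 2) T))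
include hK

omit hs h0 [Finite H] [FiniteDimensional (ZMod 2) V] in
theorem quadA {T : Subgroup H} (hT : IsPGroup 2 T) :
    ⊤ ≤ kil ρ ⊥ [dS (k + 1) T, dS (k + 1) T] ∧ IsElementaryAbelian 2 (dS (k + 1) T) := by
  have h1 := kil_quad (inv_top T) (k + 1) _ (ch_succ (k + 1) T ▸ hK T hT)
  refine ⟨h1, elemAb_two_iff.2 fun a ha => hρ ?_⟩
  have := sub_one_pow_pow (ZMod 2) (p := 2) (ρ a) 1
  rw [pow_one] at this
  rw [map_pow, map_one, ← sub_eq_zero, ← this, sq]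
  exact LinearMap.ext fun v => h1 (Submodule.mem_top (x := v)) a ha a ha

theorem cent_elemAb {T Z : Subgroup H} (hT : IsPGroup 2 T) (hZ : Z ≤ dS k T) (he : IsElementaryAbelian 2 Z)
    (hn : T ≤ 𝐍(Z)) : ⁅Z, dS k T⁆ = ⊥ := by
  by_contra e
  have h1 : ⁅Z, dS k T⁆ ≤ Z := comm_le_left ((dS_le T k).trans hn)
  obtain ⟨x, ⟨h2, h3⟩, h4⟩ := exists_ne_one (nil_meet_center (pgroup_nil hT) (h1.trans (hZ.trans (dS_le T k)))
    (norm_comm hn (norm_dS (le_norm T) k)) e)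
  have h5 : x ∈ dS (k + 1) T := commutator_mono hZ le_rfl h2
  exact h4 (engine hs h0 hρ hT h3 ((sq x).symm.trans (he.2 x (h1 h2))) (fun i hi => .inr ⟨Z, hZ.trans (dS_anti (by omega) T),
    he, (dS_le T i).trans hn, commutator_mono le_rfl (dS_anti (by omega) T) h2⟩) h5 (ch_succ (k + 1) T ▸ hK T hT)
    (.inl ⟨_, le_rfl, rfl, h5⟩))

theorem comm_tops {P T₁ T₂ : Subgroup H} (hP : IsPGroup 2 P) (h1 : IsPGroup 2 T₁) (h2 : IsPGroup 2 T₂) (l1 : P ≤ T₁)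
    (l2 : P ≤ T₂) (a1 : dS (k + 1) T₁ ≤ P) (a2 : dS (k + 1) T₂ ≤ P) : dS (k + 1) T₁ ≤ 𝐂(dS (k + 1) T₂) := by
  obtain ⟨q1, e1⟩ := quadA hρ hK h1
  obtain ⟨q2, e2⟩ := quadA hρ hK h2
  have n1 := norm_dS (le_norm_of_le l1) (k + 1)
  have n2 := norm_dS (le_norm_of_le l2) (k + 1)
  generalize dS (k + 1) T₁ = A at *
  generalize dS (k + 1) T₂ = B at *
  refine comm_eq_bot_iff.1 (eq_bot_iff.2 fun x hx => ?_)
  have x1 : x ∈ A := comm_le_left (a2.trans n1) hx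
  have x2 : x ∈ B := comm_le_right (a1.trans n2) hx
  have x3 : x ∈ dS 1 (A ⊔ B) := commutator_mono le_sup_left le_sup_right hx
  refine engine hs h0 hρ (hP.to_le (sup_le a1 a2)) (le_cent_sup (H := zpowers x) ?_ ?_ (mem_zpowers x))
    ((sq x).symm.trans (e1.2 x x1)) (j := 1) (fun i hi => ?_) x3 (L := [zpowers x]) (kil_of_le (inv_top ⊤) (sup_le ?_ ?_))
    (.inl ⟨_, zpowers_le.2 x3, rfl, mem_zpowers x⟩)
  · exact (zpowers_le.2 x1).trans (abelian_cent e1.1)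
  · exact (zpowers_le.2 x2).trans (abelian_cent e2.1)
  · obtain rfl : i = 0 := by omega
    exact .inr ⟨A, le_sup_left, e1, (sup_le a1 a2).trans n1, commutator_mono le_rfl le_sup_right hx⟩
  · exact fun a ha => ⟨trivial, fun u hu y hy => q1 hu a ha y (zpowers_le.2 x1 hy)⟩
  · exact fun a ha => ⟨trivial, fun u hu y hy => q2 hu a ha y (zpowers_le.2 x2 hy)⟩

end

theorem Frame.chain (F : Frame 2 H) {X : Subgroup H} {C : Submodule (ZMod 2) (Fin F.n → ZMod 2)}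
    {L : List (Subgroup F.H')} (j : ℕ) : ∀ S ≤ 𝐍(F.P) ⊓ 𝐍(X), F.sub (X ⊓ dS j S) ≤ kil F.ρ C L →
      F.sub (X ⊓ S) ≤ kil F.ρ C (ch j (S.map F.π) ++ L) := by
  induction j with
  | zero => exact fun _ _ h => h
  | succ j ih =>
    rintro S hS h _ ⟨u, hu, rfl⟩ _ ⟨s, hs, rfl⟩
    rw [F.comm (hS hs).1 hu.1, ← map_commutator]
    exact ih _ ((der_le S).trans hS) (dS_succ' j S ▸ h) ⟨_, ⟨mul_mem (conj_mem_of_norm (hS hs).1 hu.1) (F.P.inv_mem hu.1),
      mul_mem (conj_mem_of_norm (hS hs).2 hu.2.1) (X.inv_mem hu.2.1), commutator_mem_commutator hs hu.2.2⟩, rfl⟩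

theorem Frame.sub_top (F : Frame 2 H) {T : Subgroup H} (h : F.P ≤ T) : ⊤ ≤ F.sub (⊤ ⊓ T) := fun v _ => by
  obtain ⟨u, hu, rfl⟩ := F.onto v
  exact ⟨u, ⟨hu, trivial, h hu⟩, rfl⟩

theorem berger (d : ℕ) : ∀ (H : Type u) [Group H] [Finite H], Group.IsSolvable H → pCore 2 H = ⊥ →
    ∀ (V : Type) [AddCommGroup V] [Module (ZMod 2) V] [FiniteDimensional (ZMod 2) V] (ρ : H →* End (ZMod 2) V),
      Function.Injective ρ → (∀ T : Subgroup H, IsPGroup 2 T → ⊤ ≤ kil ρ ⊥ (ch (d + 1) T)) → PLengthLE 2 d H := by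
  induction d with
  | zero =>
    refine fun H _ _ _ _ V _ _ _ ρ hρ h => Core.pLengthLE_zero_iff.2 (Core.coprime_iff_not_dvd.2 fun e => ?_)
    obtain ⟨x, hx⟩ := exists_prime_orderOf_dvd_card' 2 e
    have : ρ x = ρ 1 := LinearMap.ext fun v => by
      simpa using sub_eq_zero.1 (h _ (pg_zpowers (l := 1) (by rw [pow_one, ← hx, pow_orderOf_eq_one])) (Submodule.mem_top (x := v)) x
        (mem_zpowers x))
    simp [hρ this] at hx
  | succ k ih =>
    intro H _ _ hs h0 V _ _ _ ρ hρ hK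
    obtain ⟨F⟩ := exists_frame (p := 2) (Core.isPSolvable_of_isSolvable hs)
    have hs' : Group.IsSolvable F.H' := Group.isSolvable_of_surjective F.surj
    have h1 : ∀ T, F.P ≤ T → T ≤ 𝐍(F.P) → IsPGroup 2 T → dS (k + 1) T ≤ F.P := fun T l n hT => by
      obtain ⟨-, e1⟩ := quadA hρ hK hT
      have e2 := cent_elemAb hs h0 hρ hK hT (dS_anti k.le_succ T) e1 (norm_dS (le_norm T) _)
      refine F.max _ ((dS_le T _).trans n) (hT.to_le (dS_le T _)) ((Subgroup.map_eq_bot_iff _).1 (by_contra fun e => ?_))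
      rw [map_dS] at e
      obtain ⟨x, ⟨h2, h3⟩, h4⟩ := exists_ne_one (nil_meet_center (pgroup_nil (hT.map F.π)) (dS_le _ _)
        (norm_dS (le_norm _) _) e)
      have hB : dS k T ≤ 𝐍(F.P) := (dS_le T k).trans n
      refine h4 (engine hs' F.core F.inj (hT.map F.π) h3 ((sq x).symm.trans ((map_dS F.π T _ ▸ elemAb_map F.π e1).2 x h2))
        (fun i hi => .inl (by rw [← dS_add]; exact dS_anti (by omega) _ h2)) (dS_anti k.le_succ _ h2)
        ((F.sub_top l).trans (F.chain k T (le_inf n le_normalizer_of_normal) ?_)) (.inr ⟨rfl, h2⟩))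
      rw [← map_dS]
      rintro _ ⟨u, hu, rfl⟩ _ ⟨a, ha, rfl⟩ _ ⟨b, hb, rfl⟩
      rw [F.comm (hB ha) hu.1, F.comm (a := ⁅a, u⁆) (hB hb) (mul_mem (conj_mem_of_norm (hB ha) hu.1) (F.P.inv_mem hu.1)),
        show ⁅b, ⁅a, u⁆⁆ = 1 from commutatorElement_eq_one_iff_mul_comm.2 (mem_cent.1 (comm_eq_bot_iff.1 e2
          (commutator_mem_commutator ha hu.2.2)) b hb), F.one]
      exact zero_mem _
    let A := closure {a | ∃ T, F.P ≤ T ∧ T ≤ 𝐍(F.P) ∧ IsPGroup 2 T ∧ a ∈ dS (k + 1) T}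
    have h2 : 𝐍(F.P) ≤ 𝐍(A) := norm_closure (by
      rintro g hg a ⟨T, l, n, hT, ha⟩
      refine ⟨g ⋆ T, (conj_eq_of_norm hg).ge.trans (map_mono l), conj_le_of_mem n hg, (pgroup_conj g).2 hT, ?_⟩
      rw [← map_dS]; exact ⟨a, ha, rfl⟩)
    have h3 : A ≤ F.P := (closure_le _).2 fun a ⟨T, l, n, hT, ha⟩ => h1 T l n hT ha
    have h4 : IsMulCommutative A := abelian_iff.2 ((closure_le _).2 fun a ⟨T, l, n, hT, ha⟩ => le_cent1_iff.1
      ((closure_le _).2 fun b ⟨T', l', n', hT', hb⟩ => cent_le_cent1 ha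
        (comm_tops hs h0 hρ hK F.pg hT' hT l' l (h1 _ l' n' hT') (h1 _ l n hT) hb)))
    have h5 : IsElementaryAbelian 2 A := elemAb_of_le (isElementaryAbelian_omegaOne h4) ((closure_le _).2
      fun a ha => mem_omegaOne (subset_closure ha) (by
        obtain ⟨T, -, -, hT, ha⟩ := ha
        exact (quadA hρ hK hT).2.2 a ha))
    obtain ⟨S, s1, s2, s3⟩ := exists_soc F.inj (Core.isPSolvable_of_isSolvable hs') F.core
    refine F.len k (ih _ hs' F.core S _ s2 fun T' hT' u _ => kil_sub s1 _ u (s3 _ (fun U hU => ?_) u.2))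
    obtain ⟨T, l, n, hT, rfl⟩ := F.lift_sub hT'
    rcases hU.2 _ (F.top ▸ F.inv_sub le_rfl h2) with e | e
    · refine fun v hv => kil_bot hU.1 e _ v hv ?_
      rw [← List.append_nil (ch _ _)]
      refine F.chain (k + 1) T (le_inf n le_normalizer_of_normal) ?_ (F.sub_top l Submodule.mem_top)
      rintro _ ⟨a, ha, rfl⟩
      exact ⟨a, ⟨ha.1, subset_closure ⟨T, l, n, hT, ha.2.2⟩⟩, rfl⟩
    · rw [ch_succ, ← map_dS]
      refine e.trans (le_trans ?_ (F.chain (X := A) k T (le_inf n (n.trans h2)) ?_))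
      · rintro _ ⟨a, ha, rfl⟩; exact ⟨a, ⟨ha.1, ha.2, l ha.1⟩, rfl⟩
      rintro _ ⟨a, ha, rfl⟩ _ ⟨b, hb, rfl⟩
      rw [F.comm (n (dS_le T k hb)) ha.1, show ⁅b, a⁆ = 1 from commutatorElement_eq_one_iff_mul_comm.2 (mem_cent.1
        (comm_eq_bot_iff.1 (cent_elemAb hs h0 hρ hK hT inf_le_right (elemAb_of_le h5 inf_le_left)
          (norm_inf (n.trans h2) (norm_dS (le_norm T) k))) ha.2) b hb), F.one]
      exact zero_mem _

theorem length_le_der (hs : IsPSolvable 2 H) (d : ℕ) (h : ∀ T : Subgroup H, IsPGroup 2 T → dS d T = ⊥) :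
    PLengthLE 2 d H := by
  rcases d with _ | d
  · refine Core.pLengthLE_zero_iff.2 (Core.coprime_iff_not_dvd.2 fun e => ?_)
    obtain ⟨X, -, hX⟩ := exists_card_eq_prime (A := (⊤ : Subgroup H)) Nat.prime_two (by rwa [card_top])
    exact absurd (hX.symm.trans (card_eq_one.2 (h X (IsPGroup.of_card (hX.trans (pow_one 2).symm))))) (by norm_num)
  obtain ⟨F⟩ := exists_frame hs
  have := sol_of_psol _ H rfl hs
  refine F.len d (berger d _ (Group.isSolvable_of_surjective F.surj) F.core _ _ F.inj fun T' hT' => ?_)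
  obtain ⟨T, l, n, hT, rfl⟩ := F.lift_sub hT'
  rw [← List.append_nil (ch _ _)]
  refine (F.sub_top l).trans (F.chain (d + 1) T (le_inf n le_normalizer_of_normal) ?_)
  rintro _ ⟨a, ha, rfl⟩
  rw [mem_bot.1 ((h T hT).le ha.2.2), F.one]; exact zero_mem _

end Cfsg.Lib.HH.Two
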